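import Cfsg.Agent.BrauerPairs.Nil.Rational
import Cfsg.Agent.BrauerPairs.Nil.Inner
import Cfsg.Agent.Char.Kernel
import Cfsg.Agent.CharInd.Linear
import Cfsg.Agent.BlocksChar.ClassProd

/-!
Combinations of the characters of a finite group with coefficients in the local ring.
-/

set_option maxHeartbeats 400000
set_option linter.unusedSectionVars false
set_option linter.style.haveILetI false

namespace Cfsg.Agent.BrauerPairs.FreeAbelian

open Cfsg
open scoped ComplexConjugate Classical

universe u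

variable {p : ℕ} [hp : Fact p.Prime] {M : Ideal AlgInt} [M.IsPrime]
  {P : Type u} [Group P] [Fintype P] {f g : P → ℂ}

/-- A combination of the characters with local coefficients. -/
def LV (M : Ideal AlgInt) (f : P → ℂ) : Prop :=
  IsClassFunction P f ∧ ∀ η : IrrCharacter P, MemLocalRing M (classInner f (η : P → ℂ))

theorem LV.of_isCharacter (h : IsCharacter P f) : LV M f :=
  ⟨Char.isCharacter_isClassFunction h, fun η => by
    obtain ⟨n, hn⟩ := Char.isCharacter_classInner_nat h η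
    rw [hn]
    exact Block.memLocalRing_natCast n⟩

theorem LV.of_irr (η : IrrCharacter P) : LV M (η : P → ℂ) :=
  LV.of_isCharacter (Char.isCharacter_of_irr η.2)

theorem LV.sum {ι : Type*} (s : Finset ι) {F : ι → P → ℂ} (h : ∀ i ∈ s, LV M (F i)) :
    LV M (∑ i ∈ s, F i) := by
  refine ⟨fun a b => ?_, fun η => ?_⟩
  · simp only [Finset.sum_apply]
    exact Finset.sum_congr rfl fun i hi => (h i hi).1 a b
  · rw [Char.classInner_sum_left]
    exact (Block.localRing M).sum_mem fun i hi => (h i hi).2 η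

theorem LV.smul {c : ℂ} (hc : MemLocalRing M c) (hf : LV M f) : LV M (c • f) := by
  refine ⟨fun a b => ?_, fun η => ?_⟩
  · simp [hf.1 a b]
  · rw [Char.classInner_smul_left]
    exact (Block.localRing M).mul_mem hc (hf.2 η)

theorem LV.neg (hf : LV M f) : LV M (-f) := by
  rw [← neg_one_smul ℂ f]
  exact hf.smul ((Block.localRing M).neg_mem (Block.localRing M).one_mem)

theorem LV.eq_sum (hf : LV M f) :
    f = ∑ η : IrrCharacter P, classInner f (η : P → ℂ) • (η : P → ℂ) :=
  Char.eq_sum_classInner_smul hf.1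

theorem LV.mul (hf : LV M f) (hg : LV M g) : LV M (f * g) := by
  rw [hf.eq_sum, hg.eq_sum, Finset.sum_mul_sum]
  refine LV.sum _ fun η _ => LV.sum _ fun θ _ => ?_
  rw [smul_mul_smul_comm]
  exact LV.smul ((Block.localRing M).mul_mem (hf.2 η) (hg.2 θ)) (LV.of_isCharacter
    (Char.isCharacter_mul (Char.isCharacter_of_irr η.2) (Char.isCharacter_of_irr θ.2)))

theorem LV.const {c : ℂ} (hc : MemLocalRing M c) : LV M (fun _ : P => c) := by
  have h := LV.smul hc (LV.of_isCharacter (M := M) (Char.isCharacter_const_one (G := P)))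
  simpa [Pi.smul_def] using h

theorem LV.prod {ι : Type*} (s : Finset ι) {F : ι → P → ℂ} (h : ∀ i ∈ s, LV M (F i)) :
    LV M (∏ i ∈ s, F i) :=
  Finset.prod_induction _ _ (fun _ _ => LV.mul) (LV.const (Block.localRing M).one_mem) h

theorem LV.comp {Q : Type u} [Group Q] [Fintype Q] (hf : LV M f) (φ : Q →* P) :
    LV M (fun x => f (φ x)) := by
  have e : (fun x => f (φ x)) = ∑ η : IrrCharacter P,
      classInner f (η : P → ℂ) • (fun x => (η : P → ℂ) (φ x)) := by
    funext x
    conv_lhs => rw [hf.eq_sum]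
    simp [Finset.sum_apply]
  rw [e]
  exact LV.sum _ fun η _ => LV.smul (hf.2 η)
    (LV.of_isCharacter (Char.isCharacter_comp (Char.isCharacter_of_irr η.2) φ))

theorem LV.inv (hf : LV M f) : LV M (fun x => f x⁻¹) := by
  have e : (fun x => f x⁻¹) = ∑ η : IrrCharacter P,
      classInner f (η : P → ℂ) • (fun x => conj ((η : P → ℂ) x)) := by
    funext x
    conv_lhs => rw [hf.eq_sum]
    simp [Finset.sum_apply, Char.irr_inv (Subtype.prop _)]
  rw [e]
  exact LV.sum _ fun η _ => LV.smul (hf.2 η)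
    (LV.of_isCharacter (Char.isCharacter_conjFun (Char.isCharacter_of_irr η.2)))

theorem LV.mem (hf : LV M f) (u : P) : MemLocalRing M (f u) := by
  rw [hf.eq_sum, Finset.sum_apply]
  exact (Block.localRing M).sum_mem fun η _ => (Block.localRing M).mul_mem (hf.2 η)
    (Block.memLocalRing_of_isIntegral (Char.isCharacter_isIntegral (Char.isCharacter_of_irr η.2) u))

/-- The mean of a combination is local. -/
theorem LV.mean (hf : LV M f) : MemLocalRing M ((∑ u, f u) / (Nat.card P : ℂ)) := by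
  have hone : IsIrrCharacter P (fun _ => (1 : ℂ)) := by
    have h := CharInd.irr_of_linHom (1 : P →* ℂˣ)
    simpa using h
  have h := hf.2 ⟨_, hone⟩
  rwa [classInner, inv_mul_eq_div, Finset.sum_congr rfl fun u _ => by rw [map_one, mul_one]] at h

theorem LV.congr_one [CharP (Block.ResF M) p] (hM : IsPModular p M) (hP : ∀ u : P, ∃ k, orderOf u = p ^ k)
    (hf : LV M f) (u : P) : MemLocalIdeal M (f u - f 1) := by
  rw [hf.eq_sum, Finset.sum_apply, Finset.sum_apply, ← Finset.sum_sub_distrib]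
  refine Block.memLocalIdeal_sum _ _ fun η _ => ?_
  rw [Pi.smul_apply, Pi.smul_apply, smul_eq_mul, smul_eq_mul, ← mul_sub]
  refine Block.memLocalIdeal_mul_left (hf.2 η) ?_
  obtain ⟨k, hk⟩ := hP u
  have hη := Char.isCharacter_of_irr η.2
  have h1 : MemLocalRing M ((η : P → ℂ) u) :=
    Block.memLocalRing_of_isIntegral (Char.isCharacter_isIntegral hη u)
  have h2 : MemLocalRing M ((η : P → ℂ) 1) :=
    Block.memLocalRing_of_isIntegral (Char.isCharacter_isIntegral hη 1)
  have h3 := Block.redC_char_mul_eq hM hη (Commute.one_right u) (k := k) hk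
    (by simpa using (Fact.out : p.Prime).one_lt.ne')
  rw [mul_one] at h3
  rw [← Block.redC_eq_zero_iff ((Block.localRing M).sub_mem h1 h2)]
  have h4 := Block.redC_add ((Block.localRing M).sub_mem h1 h2) h2
  rw [sub_add_cancel, h3] at h4
  exact add_eq_right.1 h4.symm

theorem LV.unit [CharP (Block.ResF M) p] (hM : IsPModular p M) (hP : ∀ u : P, ∃ k, orderOf u = p ^ k)
    (hf : LV M f) (h1 : ¬ MemLocalIdeal M (f 1)) (u : P) : ¬ MemLocalIdeal M (f u) := fun h => h1 (by
  have := Block.memLocalIdeal_sub h (hf.congr_one hM hP u)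
  rwa [sub_sub_cancel] at this)

/-- The inverse of a combination with unit values. -/
theorem LV.inv_unit (hf : LV M f) (hu : ∀ u, ¬ MemLocalIdeal M (f u)) :
    LV M (fun u => (f u)⁻¹) := by
  let n : P → Block.localRing M := fun u => ⟨f u, hf.mem u⟩
  have hn : ∀ u, IsUnit (n u) := fun u => Block.isUnit_localRing_iff.2 (hu u)
  let Q : Polynomial (Block.localRing M) := ∏ v : P, (Polynomial.X - Polynomial.C (n v))
  have hroot : ∀ u, Q.eval (n u) = 0 := fun u => by
    rw [Polynomial.eval_prod]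
    exact Finset.prod_eq_zero (Finset.mem_univ u) (by simp)
  have hc0 : IsUnit (Q.coeff 0) := by
    rw [Polynomial.coeff_zero_eq_eval_zero, Polynomial.eval_prod]
    exact IsUnit.prod_univ_iff.2 fun v => by simpa using (hn v).neg
  obtain ⟨c, hc⟩ := hc0.exists_right_inv
  let m := Q.divX.natDegree + 1
  let q : ℕ → Block.localRing M := fun k => -(c * Q.divX.coeff k)
  have hinv : ∀ u, n u * ∑ k ∈ Finset.range m, q k * n u ^ k = 1 := by
    intro u
    have h := hroot u
    rw [← Q.X_mul_divX_add, Polynomial.eval_add, Polynomial.eval_mul, Polynomial.eval_X,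
      Polynomial.eval_C, Polynomial.eval_eq_sum_range] at h
    have h1 : ∑ k ∈ Finset.range m, q k * n u ^ k =
        -(c * ∑ k ∈ Finset.range m, Q.divX.coeff k * n u ^ k) := by
      rw [Finset.mul_sum, ← Finset.sum_neg_distrib]
      exact Finset.sum_congr rfl fun k _ => by ring
    rw [h1]
    linear_combination (-c) * h + hc
  have hpow : ∀ k : ℕ, LV M (fun u => f u ^ k) := by
    intro k
    induction k with
    | zero => simpa using LV.const (M := M) (P := P) (Block.localRing M).one_mem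
    | succ k ih => simpa [pow_succ, Pi.mul_def] using ih.mul hf
  have e : (fun u => (f u)⁻¹) = ∑ k ∈ Finset.range m, (q k : ℂ) • (fun u => f u ^ k) := by
    funext u
    have h := congrArg Subtype.val (hinv u)
    simp only [Subring.coe_mul, AddSubmonoidClass.coe_finset_sum, SubmonoidClass.coe_pow,
      Subring.coe_one, n] at h
    rw [Finset.sum_apply]
    exact inv_eq_of_mul_eq_one_right h
  rw [e]
  exact LV.sum _ fun k _ => LV.smul (q k).2 (hpow k)

theorem LV.div (hf : LV M f) (hg : LV M g) (hu : ∀ u, ¬ MemLocalIdeal M (g u)) :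
    LV M (fun u => f u / g u) := by
  simpa [Pi.mul_def, div_eq_mul_inv] using hf.mul (hg.inv_unit hu)

/-! ### Cyclotomic families -/

variable {K : ℕ}

/-- The powers of each element give a cyclotomic family, after scaling by an integer. -/
def Fam (p K : ℕ) [Fact p.Prime] (f : P → ℂ) : Prop :=
  ∃ L : ℕ, L ≠ 0 ∧ ∀ u : P,
    (fun j : (ZMod (p ^ K))ˣ => (L : ℂ) * f (u ^ (j : ZMod (p ^ K)).val)) ∈
      GalAvg.cycFun (p ^ K)

theorem fam_of_isCharacter (hK : ∀ u : P, u ^ p ^ K = 1) (h : IsCharacter P f) : Fam p K f := by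
  refine ⟨1, one_ne_zero, fun u => ?_⟩
  simpa using GalAvg.isCharacter_pow_mem h u (hK u)

theorem fam_const (z : ℤ) : Fam p K (fun _ : P => (z : ℂ)) := by
  refine ⟨1, one_ne_zero, fun u => ?_⟩
  have h := intCast_mem (GalAvg.cycFun (p ^ K)) z
  simpa [Pi.intCast_def] using h

theorem Fam.mul (hf : Fam p K f) (hg : Fam p K g) : Fam p K (fun u => f u * g u) := by
  obtain ⟨L, hL, hf⟩ := hf
  obtain ⟨L', hL', hg⟩ := hg
  refine ⟨L * L', mul_ne_zero hL hL', fun u => ?_⟩
  convert mul_mem (hf u) (hg u) using 1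
  funext j
  simp only [Nat.cast_mul, Pi.mul_apply]
  ring

theorem Fam.mul_int (hf : Fam p K f) (z : ℤ) : Fam p K (fun u => (z : ℂ) * f u) :=
  (fam_const z).mul hf

theorem Fam.sum {ι : Type*} (s : Finset ι) {F : ι → P → ℂ} (h : ∀ i ∈ s, Fam p K (F i)) :
    Fam p K (fun u => ∑ i ∈ s, F i u) := by
  induction s using Finset.induction_on with
  | empty => simpa using fam_const (P := P) (p := p) (K := K) 0
  | insert a s ha ih =>
    obtain ⟨L, hL, h1⟩ := h a (Finset.mem_insert_self _ _)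
    obtain ⟨L', hL', h2⟩ := ih fun i hi => h i (Finset.mem_insert_of_mem hi)
    refine ⟨L * L', mul_ne_zero hL hL', fun u => ?_⟩
    convert add_mem (nsmul_mem (h1 u) L') (nsmul_mem (h2 u) L) using 1
    funext j
    simp only [Finset.sum_insert ha, Pi.add_apply, nsmul_eq_mul, Nat.cast_mul, Pi.mul_apply,
      Pi.natCast_apply]
    ring

theorem Fam.comp {Q : Type u} [Group Q] [Fintype Q] (hf : Fam p K f) (φ : Q →* P) :
    Fam p K (fun x => f (φ x)) := by
  obtain ⟨L, hL, hf⟩ := hf
  refine ⟨L, hL, fun x => ?_⟩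
  simpa [map_pow] using hf (φ x)

theorem Fam.div_int (hf : Fam p K f) (z : P → ℤ) (hz : ∀ u, z u ≠ 0)
    (hzc : ∀ u (j : (ZMod (p ^ K))ˣ), z (u ^ (j : ZMod (p ^ K)).val) = z u) :
    Fam p K (fun u => f u / (z u : ℂ)) := by
  obtain ⟨L, hL, hf⟩ := hf
  refine ⟨L * ∏ v : P, (z v).natAbs, mul_ne_zero hL (Finset.prod_ne_zero_iff.2 fun v _ =>
    Int.natAbs_ne_zero.2 (hz v)), fun u => ?_⟩
  obtain ⟨d, hd⟩ : z u ∣ ((∏ v : P, (z v).natAbs : ℕ) : ℤ) :=
    Int.natAbs_dvd.1 (Int.natCast_dvd_natCast.2 (Finset.dvd_prod_of_mem _ (Finset.mem_univ u)))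
  convert zsmul_mem (hf u) d using 1
  funext j
  simp only [Pi.smul_apply, zsmul_eq_mul, hzc u j]
  have hd' := congrArg (fun x : ℤ => (x : ℂ)) hd
  simp only [Int.cast_mul, Int.cast_natCast] at hd'
  rw [Nat.cast_mul, hd']
  field_simp [(Int.cast_ne_zero.2 (hz u) : (z u : ℂ) ≠ 0)]

/-- An integral sum of a family is a rational integer. -/
theorem Fam.exists_int_sum (hPK : Nat.card P ∣ p ^ K) (hf : Fam p K f)
    (hint : IsIntegral ℤ (∑ u, f u)) : ∃ N : ℤ, ∑ u, f u = (N : ℂ) := by
  obtain ⟨L, hL, hf⟩ := hf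
  choose k hk using fun u => Nil.exists_int_sum (hf u)
  set c := Fintype.card (ZMod (p ^ K))ˣ with hc
  have hc0 : (c : ℂ) ≠ 0 := Nat.cast_ne_zero.2 Fintype.card_pos.ne'
  have hsum : ((∑ u, k u : ℤ) : ℂ) = (c : ℂ) * L * ∑ u, f u := by
    rw [Int.cast_sum, Finset.sum_congr rfl fun u _ => (hk u).symm, Finset.sum_comm, mul_assoc,
      Finset.mul_sum, hc, ← nsmul_eq_mul, ← Finset.card_univ, ← Finset.sum_const]
    refine Finset.sum_congr rfl fun j _ => ?_
    have hco : (Nat.card P).Coprime (j : ZMod (p ^ K)).val :=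
      ((ZMod.val_coe_unit_coprime j).coprime_dvd_right hPK).symm
    exact Fintype.sum_equiv (powCoprime hco) _ _ fun u => rfl
  have hdiv : ∑ u, f u = ((∑ u, k u : ℤ) : ℂ) / ((c * L : ℕ) : ℂ) := by
    rw [hsum, Nat.cast_mul, mul_div_cancel_left₀ _ (mul_ne_zero hc0 (Nat.cast_ne_zero.2 hL))]
  rw [hdiv]
  exact GalAvg.int_of_isIntegral_div (hdiv ▸ hint)

/-- An integral fraction of a sum, with local mean, is an integer multiple. -/
theorem exists_int_of_mean [CharP (Block.ResF M) p] (hM : IsPModular p M) {n : ℕ} (hn : Nat.card P = p ^ n)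
    (hPK : Nat.card P ∣ p ^ K) (hf : LV M f) (hfam : Fam p K f) {d : ℕ} (hd : ¬ p ∣ d)
    (hint : IsIntegral ℤ ((∑ u, f u) / (d : ℂ))) :
    ∃ z : ℤ, ∑ u, f u = (d : ℂ) * (Nat.card P : ℂ) * z := by
  have hd0 : (d : ℂ) ≠ 0 := Nat.cast_ne_zero.2 fun h => hd (h ▸ dvd_zero p)
  have hint' : IsIntegral ℤ (∑ u, f u) := by
    have hnat : IsIntegral ℤ (d : ℂ) := by simpa using isIntegral_algebraMap (R := ℤ) (x := (d : ℤ))
    have := hnat.mul hint
    rwa [mul_div_cancel₀ _ hd0] at this
  obtain ⟨N, hN⟩ := hfam.exists_int_sum hPK hint'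
  rw [hN] at hint
  obtain ⟨N', hN'⟩ := GalAvg.int_of_isIntegral_div hint
  have h1 : MemLocalRing M ((N' : ℂ) / ((p ^ n : ℕ) : ℂ)) := by
    have h2 := (Block.localRing M).mul_mem (Block.memLocalRing_natCast_inv hM hd) hf.mean
    rw [hN, hn, ← mul_div_assoc, inv_mul_eq_div, hN'] at h2
    exact h2
  obtain ⟨z, hz⟩ := Nil.exists_int_mul_of_memLocalRing hM h1
  refine ⟨z, ?_⟩
  rw [hN, (div_eq_iff hd0).1 hN', hn, hz]
  push_cast
  ring

theorem exists_int_classInner [CharP (Block.ResF M) p] (hM : IsPModular p M) {n : ℕ} (hn : Nat.card P = p ^ n)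
    (hPK : Nat.card P ∣ p ^ K) (hK : ∀ u : P, u ^ p ^ K = 1) (hf : LV M f) (hfam : Fam p K f)
    (hint : ∀ u, IsIntegral ℤ (f u)) (η : IrrCharacter P) :
    ∃ z : ℤ, classInner f (η : P → ℂ) = z := by
  have hη := Char.isCharacter_conjFun (Char.isCharacter_of_irr η.2)
  obtain ⟨z, hz⟩ := exists_int_of_mean hM hn hPK (f := fun u => f u * conj ((η : P → ℂ) u))
    (hf.mul (LV.of_isCharacter hη)) (hfam.mul (fam_of_isCharacter hK hη)) (d := 1)
    (by simpa using (Fact.out : p.Prime).one_lt.ne')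
    (by simpa using IsIntegral.sum _ fun u _ => (hint u).mul (Char.isCharacter_isIntegral hη u))
  refine ⟨z, ?_⟩
  rw [classInner, hz, Nat.cast_one, one_mul,
    inv_mul_cancel_left₀ (Nat.cast_ne_zero.2 Nat.card_pos.ne')]

/-- A combination of absolute value one with integral values is a signed character. -/
theorem exists_irr_of_norm_one [CharP (Block.ResF M) p] (hM : IsPModular p M) {n : ℕ} (hn : Nat.card P = p ^ n)
    (hPK : Nat.card P ∣ p ^ K) (hK : ∀ u : P, u ^ p ^ K = 1) (hf : LV M f) (hfam : Fam p K f)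
    (hint : ∀ u, IsIntegral ℤ (f u)) (h1 : ∀ u, f u * conj (f u) = 1) :
    IsIrrCharacter P f ∨ IsIrrCharacter P (-f) := by
  refine Char.generalized_norm_one (Char.isGeneralizedCharacter_iff_classInner_int.2
    ⟨hf.1, exists_int_classInner hM hn hPK hK hf hfam hint⟩) ?_
  rw [classInner, Finset.sum_congr rfl fun u _ => h1 u, Finset.sum_const, Finset.card_univ,
    nsmul_one, Nat.card_eq_fintype_card, inv_mul_cancel₀ (Nat.cast_ne_zero.2 Fintype.card_ne_zero)]

/-- A character trivial on the involutions is a square. -/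
theorem exists_sqrt (hc : ∀ a b : P, a * b = b * a) (ν : IrrCharacter P)
    (hν : ∀ u : P, u ^ 2 = 1 → (ν : P → ℂ) u = 1) :
    ∃ η : IrrCharacter P, ∀ u, (η : P → ℂ) u * (η : P → ℂ) u = (ν : P → ℂ) u := by
  have hlin : ∀ η : IrrCharacter P, ∀ a b, (η : P → ℂ) (a * b) = (η : P → ℂ) a * (η : P → ℂ) b :=
    fun η a b => BlocksChar.linear_mul (Char.isCharacter_of_irr η.2)
      (CharInd.irr_one_of_comm hc η.2) a b
  obtain ⟨η, -, hη⟩ : ∃ η ∈ (Finset.univ : Finset (IrrCharacter P)),
      ∑ u, (η : P → ℂ) (u * u) * conj ((ν : P → ℂ) u) ≠ 0 := by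
    refine Finset.exists_ne_zero_of_sum_ne_zero ?_
    rw [Finset.sum_comm]
    have e : ∀ u : P, ∑ η : IrrCharacter P, (η : P → ℂ) (u * u) * conj ((ν : P → ℂ) u) =
        if u ^ 2 = 1 then (Nat.card P : ℂ) else 0 := by
      intro u
      rw [← Finset.sum_mul]
      have h := Char.sum_irr_mul_conj (u * u) (1 : P)
      simp only [CharInd.irr_one_of_comm hc (Subtype.prop _), map_one, mul_one] at h
      rw [h]
      by_cases hu : u ^ 2 = 1
      · rw [if_pos (by rw [← sq, hu]), if_pos hu, hν u hu, map_one, mul_one,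
          show Subgroup.centralizer ({u * u} : Set P) = ⊤ from eq_top_iff.2 fun x _ =>
            Subgroup.mem_centralizer_singleton_iff.2 (hc _ _), Subgroup.card_top]
      · rw [if_neg (fun hcj => hu (by rw [sq]; exact isConj_one_left.1 hcj)), if_neg hu, zero_mul]
    rw [Finset.sum_congr rfl fun u _ => e u, Finset.sum_ite, Finset.sum_const_zero, add_zero,
      Finset.sum_const, nsmul_eq_mul]
    refine mul_ne_zero (Nat.cast_ne_zero.2 (Finset.card_pos.2 ⟨1, by simp⟩).ne')
      (Nat.cast_ne_zero.2 Nat.card_pos.ne')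
  refine ⟨η, fun u => ?_⟩
  have h1 : (η : P → ℂ) (u * u) * conj ((ν : P → ℂ) u) = 1 := by
    by_contra hne
    apply hη
    have h2 : ((η : P → ℂ) (u * u) * conj ((ν : P → ℂ) u)) *
        ∑ v, (η : P → ℂ) (v * v) * conj ((ν : P → ℂ) v) =
        ∑ v, (η : P → ℂ) (v * v) * conj ((ν : P → ℂ) v) := by
      rw [Finset.mul_sum]
      refine Fintype.sum_equiv (Equiv.mulLeft u) _ _ fun v => ?_
      rw [Equiv.coe_mulLeft, hlin ν u v, map_mul (starRingEnd ℂ),
        show u * v * (u * v) = (u * u) * (v * v) by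
          rw [mul_assoc, ← mul_assoc v u v, hc v u, mul_assoc u v v, ← mul_assoc, ← mul_assoc],
        hlin η (u * u) (v * v)]
      ring
    exact (mul_left_eq_self₀.1 h2).resolve_left hne
  have h3 : (ν : P → ℂ) u * conj ((ν : P → ℂ) u) = 1 := by
    rw [← Char.irr_inv ν.2, ← hlin, mul_inv_cancel, CharInd.irr_one_of_comm hc ν.2]
  rw [← hlin]
  linear_combination (ν : P → ℂ) u * h1 - (η : P → ℂ) (u * u) * h3

end Cfsg.Agent.BrauerPairs.FreeAbelian
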