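import Cfsg.Agent.BrauerPairs.FreeAbelian.Data
import Cfsg.Agent.BrauerPairs.FreeAbelian.LocalVirtual

/-!
The inertial quotient as a group of automorphisms of the defect group, and representatives of the
orbits of a free action.
-/

set_option maxHeartbeats 400000
set_option linter.unusedSectionVars false
set_option linter.style.haveILetI false

namespace Cfsg.Agent.BrauerPairs.FreeAbelian

open MonoidAlgebra Cfsg
open Cfsg.Agent.BrauerPairs Cfsg.Agent.BrauerPairs.Nil
open scoped ComplexConjugate Classical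

universe u

/-- Representatives of the orbits of a free action. -/
theorem exists_orbit_reps {A X : Type*} [Group A] [Finite A] [Finite X] (act : A → X → X)
    (h1 : ∀ x, act 1 x = x) (hmul : ∀ a b x, act (a * b) x = act a (act b x))
    (hfree : ∀ a x, act a x = x → a = 1) :
    ∃ (m : ℕ) (r : Fin m → X), m * Nat.card A = Nat.card X ∧
      (∀ i j a, act a (r i) = r j → i = j ∧ a = 1) ∧ ∀ x, ∃ i a, act a (r i) = x := by
  let S : Setoid X :=
    { r := fun x y => ∃ a, act a x = y
      iseqv := ⟨fun x => ⟨1, h1 x⟩, fun {x y} ⟨a, ha⟩ => ⟨a⁻¹, by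
        rw [← ha, ← hmul, inv_mul_cancel, h1]⟩, fun {x y z} ⟨a, ha⟩ ⟨b, hb⟩ =>
        ⟨b * a, by rw [hmul, ha, hb]⟩⟩ }
  obtain ⟨m, ⟨e⟩⟩ := Finite.exists_equiv_fin (Quotient S)
  let r : Fin m → X := fun i => (e.symm i).out
  have hsep : ∀ i j a, act a (r i) = r j → i = j ∧ a = 1 := by
    intro i j a h
    have hq : e.symm i = e.symm j := by
      rw [← Quotient.out_eq (e.symm i), ← Quotient.out_eq (e.symm j)]
      exact Quotient.sound ⟨a, h⟩
    obtain rfl := e.symm.injective hq
    exact ⟨rfl, hfree _ _ h⟩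
  have hcov : ∀ x, ∃ i a, act a (r i) = x := fun x => by
    refine ⟨e ⟦x⟧, ?_⟩
    have h : S ((e.symm (e ⟦x⟧)).out) x :=
      Quotient.exact (by rw [Quotient.out_eq, Equiv.symm_apply_apply])
    exact h
  refine ⟨m, r, ?_, hsep, hcov⟩
  have hbij : Function.Bijective (fun z : Fin m × A => act z.2 (r z.1)) := by
    refine ⟨fun ⟨i, a⟩ ⟨j, b⟩ h => ?_, fun x => ?_⟩
    · simp only at h
      have h' : act (b⁻¹ * a) (r i) = r j := by rw [hmul, h, ← hmul, inv_mul_cancel, h1]
      obtain ⟨rfl, hba⟩ := hsep _ _ _ h'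
      rw [inv_mul_eq_one] at hba
      rw [hba]
    · obtain ⟨i, a, h⟩ := hcov x
      exact ⟨(i, a), h⟩
  rw [← Nat.card_eq_of_bijective _ hbij, Nat.card_prod, Nat.card_eq_fintype_card (α := Fin m),
    Fintype.card_fin]

variable {p : ℕ} [hp : Fact p.Prime] {M : Ideal AlgInt} [M.IsPrime] [CharP (Block.ResF M) p]
  {G : Type u} [Group G] [Fintype G]

namespace FreeData

variable (K : FreeData p M G)

/-- The stabilizer of the maximal pair acting on the defect group. -/
noncomputable def toAut : stab (⟨K.P, K.c⟩ : PairIdx M G) →* MulAut K.P :=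
  K.P.normalizerMonoidHom.comp (Subgroup.inclusion (stab_le_normalizer (⟨K.P, K.c⟩ : PairIdx M G)))

theorem coe_toAut (t : stab (⟨K.P, K.c⟩ : PairIdx M G)) (u : K.P) :
    ((K.toAut t u : K.P) : G) = (t : G) * u * (t : G)⁻¹ := rfl

/-- The inertial quotient. -/
noncomputable def E : Subgroup (MulAut K.P) := K.toAut.range

theorem toAut_eq_one_iff (t : stab (⟨K.P, K.c⟩ : PairIdx M G)) :
    K.toAut t = 1 ↔ (t : G) ∈ Subgroup.centralizer (K.P : Set G) := by
  constructor
  · intro h
    refine Subgroup.mem_centralizer_iff.2 fun x hx => ?_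
    have h2 := K.coe_toAut t ⟨x, hx⟩
    rw [h] at h2
    exact eq_mul_inv_iff_mul_eq.1 h2
  · intro h
    refine MulEquiv.ext fun u => Subtype.ext ?_
    rw [K.coe_toAut, ← Subgroup.mem_centralizer_iff.1 h u u.2, mul_inv_cancel_right]
    rfl

theorem card_E : Nat.card K.E =
    (Subgroup.centralizer (K.P : Set G)).relIndex (stab (⟨K.P, K.c⟩ : PairIdx M G)) := by
  rw [E, ← Subgroup.index_ker, Subgroup.relIndex]
  congr 1
  ext t
  rw [MonoidHom.mem_ker, K.toAut_eq_one_iff, Subgroup.mem_subgroupOf]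

theorem exists_of_mem_E (a : K.E) : ∃ t ∈ stab (⟨K.P, K.c⟩ : PairIdx M G),
    ∀ u : K.P, (((a : MulAut K.P) u : K.P) : G) = t * u * t⁻¹ := by
  obtain ⟨t, ht⟩ := a.2
  exact ⟨t, t.2, fun u => by rw [← ht, K.coe_toAut]⟩

theorem exists_E_apply {t : G} (ht : t ∈ stab (⟨K.P, K.c⟩ : PairIdx M G)) {u u' : K.P}
    (h : t * (u : G) * t⁻¹ = u') : ∃ a : K.E, (a : MulAut K.P) u = u' :=
  ⟨⟨K.toAut ⟨t, ht⟩, ⟨_, rfl⟩⟩, Subtype.ext ((K.coe_toAut _ u).trans h)⟩

theorem E_free {a : K.E} {u : K.P} (hu : u ≠ 1) (h : (a : MulAut K.P) u = u) : a = 1 := by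
  obtain ⟨t, ht, htu⟩ := K.exists_of_mem_E a
  have hc := K.free t ht u u.2 (fun h' => hu (Subtype.ext h')) (by rw [← htu, h])
  refine Subtype.ext (MulEquiv.ext fun v => Subtype.ext ?_)
  rw [htu, ← Subgroup.mem_centralizer_iff.1 hc v v.2, mul_inv_cancel_right]
  rfl

theorem apply_ne_one (a : K.E) {u : K.P} (hu : u ≠ 1) : (a : MulAut K.P) u ≠ 1 := fun h =>
  hu ((a : MulAut K.P).injective (h.trans (map_one _).symm))

theorem zpowers_apply (a : K.E) {u v : K.P} (h : Subgroup.zpowers u = Subgroup.zpowers v) :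
    Subgroup.zpowers ((a : MulAut K.P) u) = Subgroup.zpowers ((a : MulAut K.P) v) := by
  have h' := congrArg (fun S : Subgroup K.P => S.map (a : MulAut K.P).toMonoidHom) h
  simp only [MonoidHom.map_zpowers] at h'
  exact h'

/-- Representatives of the non-trivial elements of the defect group. -/
theorem exists_elem_reps : ∃ (m : ℕ) (r : Fin m → K.P), m * Nat.card K.E + 1 = Nat.card K.P ∧
    (∀ i, r i ≠ 1) ∧ (∀ i j (a : K.E), (a : MulAut K.P) (r i) = r j → i = j ∧ a = 1) ∧
    ∀ u : K.P, u ≠ 1 → ∃ i, ∃ a : K.E, (a : MulAut K.P) (r i) = u := by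
  obtain ⟨m, r, hm, hsep, hcov⟩ := exists_orbit_reps (A := K.E) (X := {u : K.P // u ≠ 1})
    (fun a u => ⟨(a : MulAut K.P) u.1, K.apply_ne_one a u.2⟩) (fun u => rfl) (fun a b u => rfl)
    (fun a u h => K.E_free u.2 (congrArg Subtype.val h))
  refine ⟨m, fun i => (r i).1, ?_, fun i => (r i).2, fun i j a h => hsep i j a (Subtype.ext h),
    fun u hu => (hcov ⟨u, hu⟩).imp fun i hi => hi.imp fun a ha => congrArg Subtype.val ha⟩
  haveI : Finite {u : K.P // u ≠ 1} := inferInstance
  rw [hm, Nat.card_eq_fintype_card, Nat.card_eq_fintype_card, Fintype.card_subtype_compl,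
    Fintype.card_subtype_eq]
  have : 0 < Fintype.card K.P := Fintype.card_pos
  omega

/-- A character of the defect group moved by an automorphism. -/
noncomputable def moveChar (a : K.E) (η : IrrCharacter K.P) : IrrCharacter K.P :=
  ⟨fun u => (η : K.P → ℂ) (((a⁻¹ : K.E) : MulAut K.P) u), by
    obtain ⟨lam, hlam⟩ := CharInd.exists_linHom_of_degree_one (Char.isCharacter_of_irr η.2)
      (CharInd.irr_one_of_comm K.commP η.2)
    have h := CharInd.irr_of_linHom (lam.comp ((a⁻¹ : K.E) : MulAut K.P).toMonoidHom)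
    have e : (fun u => (η : K.P → ℂ) (((a⁻¹ : K.E) : MulAut K.P) u)) =
        fun u => ((lam.comp ((a⁻¹ : K.E) : MulAut K.P).toMonoidHom) u : ℂ) := by
      funext u
      exact (hlam _).symm
    rw [e]
    exact h⟩

theorem moveChar_apply (a : K.E) (η : IrrCharacter K.P) (u : K.P) :
    (K.moveChar a η : K.P → ℂ) ((a : MulAut K.P) u) = (η : K.P → ℂ) u := by
  show (η : K.P → ℂ) _ = _
  simp

/-- Representatives of the non-trivial characters of the defect group. -/
theorem exists_char_reps : ∃ (m : ℕ) (r : Fin m → IrrCharacter K.P),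
    m * Nat.card K.E + 1 = Nat.card K.P ∧ (∀ i, ∃ u, (r i : K.P → ℂ) u ≠ 1) ∧
    (∀ i j (a : K.E), K.moveChar a (r i) = r j → i = j ∧ a = 1) ∧
    ∀ η : IrrCharacter K.P, (∃ u, (η : K.P → ℂ) u ≠ 1) →
      ∃ i, ∃ a : K.E, K.moveChar a (r i) = η := by
  have hlin : ∀ (η : IrrCharacter K.P) (a b : K.P),
      (η : K.P → ℂ) (a * b) = (η : K.P → ℂ) a * (η : K.P → ℂ) b := fun η a b =>
    BlocksChar.linear_mul (Char.isCharacter_of_irr η.2) (CharInd.irr_one_of_comm K.commP η.2) a b
  have hne : ∀ (a : K.E) (η : IrrCharacter K.P), (∃ u, (η : K.P → ℂ) u ≠ 1) →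
      ∃ u, (K.moveChar a η : K.P → ℂ) u ≠ 1 := fun a η ⟨u, hu⟩ =>
    ⟨(a : MulAut K.P) u, by rwa [K.moveChar_apply]⟩
  have hfree : ∀ (a : K.E) (η : IrrCharacter K.P), (∃ u, (η : K.P → ℂ) u ≠ 1) →
      K.moveChar a η = η → a = 1 := by
    rintro a η ⟨v, hv⟩ h
    by_contra ha
    let f : K.P → K.P := fun u => (a : MulAut K.P) u * u⁻¹
    have hinj : Function.Injective f := by
      intro x y hxy
      by_contra hxy'
      have hne' : x * y⁻¹ ≠ 1 := fun h' => hxy' (mul_inv_eq_one.1 h')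
      refine ha (K.E_free hne' ?_)
      rw [map_mul, map_inv]
      have h3 : (a : MulAut K.P) x = (a : MulAut K.P) y * y⁻¹ * x := eq_mul_of_mul_inv_eq hxy
      rw [h3, mul_assoc ((a : MulAut K.P) y), K.commP ((a : MulAut K.P) y),
        mul_inv_cancel_right, K.commP]
    obtain ⟨w, hw⟩ := (Finite.injective_iff_surjective.1 hinj) v
    apply hv
    rw [← hw]
    show (η : K.P → ℂ) ((a : MulAut K.P) w * w⁻¹) = 1
    rw [hlin]
    conv_lhs => arg 1; rw [← h, K.moveChar_apply]
    rw [← hlin, mul_inv_cancel, CharInd.irr_one_of_comm K.commP η.2]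
  obtain ⟨m, r, hm, hsep, hcov⟩ := exists_orbit_reps (A := K.E)
    (X := {η : IrrCharacter K.P // ∃ u, (η : K.P → ℂ) u ≠ 1})
    (fun a η => ⟨K.moveChar a η.1, hne a η.1 η.2⟩)
    (fun η => Subtype.ext (Subtype.ext (funext fun u => congrArg _ (by simp))))
    (fun a b η => Subtype.ext (Subtype.ext (funext fun u => congrArg _ (by simp))))
    (fun a η h => hfree a η.1 η.2 (congrArg Subtype.val h))
  refine ⟨m, fun i => (r i).1, ?_, fun i => (r i).2, fun i j a h => hsep i j a (Subtype.ext h),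
    fun η hη => (hcov ⟨η, hη⟩).imp fun i hi => hi.imp fun a ha => congrArg Subtype.val ha⟩
  obtain ⟨one, hone⟩ : ∃ η : IrrCharacter K.P, ∀ u, (η : K.P → ℂ) u = 1 :=
    ⟨⟨_, CharInd.irr_of_linHom (1 : K.P →* ℂˣ)⟩, fun u => by simp⟩
  rw [hm, Nat.card_eq_fintype_card,
    Fintype.card_of_subtype (Finset.univ.erase one) (fun η => by
      simp only [Finset.mem_erase, Finset.mem_univ, and_true, ne_eq]
      constructor
      · intro h
        by_contra h'
        push Not at h'
        exact h (Subtype.ext (funext fun u => (h' u).trans (hone u).symm))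
      · rintro ⟨u, hu⟩ rfl
        exact hu (hone u)),
    Finset.card_erase_of_mem (Finset.mem_univ _), Finset.card_univ]
  have hcard : Fintype.card (IrrCharacter K.P) = Nat.card K.P := by
    have h := Char.sum_irr_mul_conj (1 : K.P) 1
    rw [if_pos (IsConj.refl _),
      Finset.sum_congr rfl (fun η _ => by
        rw [CharInd.irr_one_of_comm K.commP (Subtype.prop η), map_one, mul_one]),
      Finset.sum_const, nsmul_one, Finset.card_univ,
      show Subgroup.centralizer ({1} : Set K.P) = ⊤ from eq_top_iff.2 fun x _ =>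
        Subgroup.mem_centralizer_singleton_iff.2 (by simp), Subgroup.card_top] at h
    exact_mod_cast h
  rw [hcard]
  have : 0 < Nat.card K.P := Nat.card_pos
  omega

end FreeData

end Cfsg.Agent.BrauerPairs.FreeAbelian
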