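import Mathlib.Algebra.Order.Chebyshev
import Mathlib.Tactic

/-!
Integer matrices whose Gram matrix is `1 + e J`: the number of their rows.
-/

set_option maxHeartbeats 400000

namespace Cfsg.Agent.BrauerPairs.FreeAbelian

open Finset
open scoped Classical

variable {X ι : Type*} [Fintype X] [Fintype ι] {a : X → ι → ℤ} {e : ℕ}

/-- The weight of a non-zero integer row. -/
theorem row_weight_nonneg (v : ι → ℤ) (hv : ∃ i, v i ≠ 0) :
    (Fintype.card ι : ℤ) ≤
      ((Fintype.card ι : ℤ) + 1) * ∑ i, v i ^ 2 - (∑ i, v i) ^ 2 := by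
  set m : ℤ := (Fintype.card ι : ℤ) with hm
  set R := ∑ i, v i ^ 2 with hR
  set s := ∑ i, v i with hs
  have hR1 : 1 ≤ R := by
    obtain ⟨i, hi⟩ := hv
    refine le_trans ?_ (Finset.single_le_sum (fun j _ => sq_nonneg (v j)) (Finset.mem_univ i))
    exact (sq_pos_of_ne_zero hi)
  have h1 : s ^ 2 ≤ m * R := by
    have := sq_sum_le_card_mul_sum_sq (s := (Finset.univ : Finset ι)) (f := v)
    simpa [Finset.card_univ] using this
  have h2 : s ^ 2 ≤ R ^ 2 := by
    rw [← sq_abs s]
    refine pow_le_pow_left₀ (abs_nonneg s) ((Finset.abs_sum_le_sum_abs _ _).trans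
      (Finset.sum_le_sum fun i _ => ?_)) 2
    have := Int.le_self_sq (|v i|)
    rwa [sq_abs] at this
  by_cases h : m ≤ R
  · nlinarith
  · nlinarith [mul_nonneg (sub_nonneg.2 hR1) (sub_nonneg.2 (le_of_lt (not_le.1 h)))]

theorem card_le [Nonempty ι]
    (hG : ∀ i j, ∑ x, a x i * a x j = (if i = j then 1 else 0) + (e : ℤ))
    (hne : ∀ x, ∃ i, a x i ≠ 0) : Fintype.card X ≤ Fintype.card ι + e := by
  set m : ℤ := (Fintype.card ι : ℤ) with hm
  have hm1 : 1 ≤ m := by rw [hm]; exact_mod_cast Fintype.card_pos
  have h := Finset.sum_le_sum fun x (_ : x ∈ (Finset.univ : Finset X)) =>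
    row_weight_nonneg (a x) (hne x)
  have hsq : ∑ x, ∑ i, a x i ^ 2 = m * (1 + e) := by
    rw [Finset.sum_comm, Finset.sum_congr rfl fun i _ => by
      rw [Finset.sum_congr rfl fun x _ => sq (a x i), hG i i, if_pos rfl]]
    simp [hm]
  have hsum : ∑ x, (∑ i, a x i) ^ 2 = m + e * m ^ 2 := by
    simp only [sq, Finset.sum_mul_sum]
    rw [Finset.sum_comm, Finset.sum_congr rfl fun i _ => by
      rw [Finset.sum_comm, Finset.sum_congr rfl fun j _ => hG i j]]
    simp only [Finset.sum_add_distrib, Finset.sum_ite_eq, Finset.mem_univ, if_true,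
      Finset.sum_const, Finset.card_univ, nsmul_eq_mul, mul_one]
    rw [hm]; ring
  rw [Finset.sum_sub_distrib, ← Finset.mul_sum, hsq, hsum, Finset.sum_const, Finset.card_univ,
    nsmul_eq_mul] at h
  have h2 : m * (Fintype.card X : ℤ) ≤ m * (m + e) := by nlinarith
  have h3 := le_of_mul_le_mul_left h2 (by omega : (0 : ℤ) < m)
  rw [hm] at h3
  exact_mod_cast h3

/-- With `e ≤ 3` there are as many rows as possible, up to small exceptions. -/
theorem card_eq_or
    (hG : ∀ i j, ∑ x, a x i * a x j = (if i = j then 1 else 0) + (e : ℤ))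
    (hne : ∀ x, ∃ i, a x i ≠ 0) (he : e ≤ 3) (hk : Fintype.card ι < Fintype.card X) :
    Fintype.card X = Fintype.card ι + e ∨
      (3 ≤ Fintype.card ι ∧ Fintype.card ι ≤ e + 1 ∧ Fintype.card X = e + 2) := by
  have hnorm : ∀ i, ∑ x, a x i ^ 2 = 1 + (e : ℤ) := fun i => by
    rw [Finset.sum_congr rfl fun x _ => sq (a x i), hG i i, if_pos rfl]
  have hle : ∀ x i, a x i ^ 2 ≤ 4 := fun x i =>
    (Finset.single_le_sum (fun y _ => sq_nonneg (a y i)) (Finset.mem_univ x)).trans
      (by rw [hnorm i]; omega)
  have hbnd : ∀ x i, -2 ≤ a x i ∧ a x i ≤ 2 := fun x i =>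
    ⟨by nlinarith [hle x i], by nlinarith [hle x i]⟩
  have htwo : ∀ x i, a x i ^ 2 = 4 → e = 3 ∧ ∀ y, y ≠ x → a y i = 0 := by
    intro x i h
    have h1 := Finset.add_sum_erase Finset.univ (fun y => a y i ^ 2) (Finset.mem_univ x)
    simp only [hnorm i, h] at h1
    have h2 : 0 ≤ ∑ y ∈ Finset.univ.erase x, a y i ^ 2 := Finset.sum_nonneg fun y _ => sq_nonneg _
    refine ⟨by omega, fun y hy => ?_⟩
    have h3 : ∑ y ∈ Finset.univ.erase x, a y i ^ 2 = 0 := by omega
    exact pow_eq_zero_iff two_ne_zero |>.1 ((Finset.sum_eq_zero_iff_of_nonneg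
      fun y _ => sq_nonneg (a y i)).1 h3 y (Finset.mem_erase.2 ⟨hy, Finset.mem_univ _⟩))
  -- the entries are signs
  have hone : ∀ x i, a x i ≠ 0 → a x i ^ 2 = 1 := by
    intro x i hxi
    by_contra hne1
    obtain ⟨h1, h2⟩ := hbnd x i
    have h4 : a x i ^ 2 = 4 := by
      interval_cases h : a x i <;> simp_all
    obtain ⟨he3, hzero⟩ := htwo x i h4
    by_cases hsub : ∃ j, j ≠ i
    · obtain ⟨j, hj⟩ := hsub
      have h := hG i j
      rw [if_neg hj.symm, Finset.sum_eq_single x (fun y _ hy => by rw [hzero y hy, zero_mul])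
        (by simp), zero_add, he3] at h
      interval_cases h' : a x i <;> simp_all <;> omega
    · push Not at hsub
      have hall : ∀ y, y = x := by
        intro y
        by_contra hy
        obtain ⟨j, hj⟩ := hne y
        exact hj (hsub j ▸ hzero y hy)
      have : Fintype.card X ≤ 1 := Fintype.card_le_one_iff.2 fun y z => (hall y).trans (hall z).symm
      have : 0 < Fintype.card ι := Fintype.card_pos_iff.2 ⟨i⟩
      omega
  let S : ι → Finset X := fun i => Finset.univ.filter fun x => a x i ≠ 0
  have hmem : ∀ x i, x ∈ S i ↔ a x i ≠ 0 := fun x i => by simp [S]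
  have hS : ∀ i, (S i).card = e + 1 := by
    intro i
    have h := hnorm i
    rw [← Finset.sum_filter_add_sum_filter_not _ (fun x => a x i ≠ 0)] at h
    rw [Finset.sum_eq_zero (s := Finset.univ.filter fun x => ¬ a x i ≠ 0) (fun x hx => by
      simp [not_not.1 (Finset.mem_filter.1 hx).2]), add_zero,
      Finset.sum_congr rfl fun x hx => hone x i (Finset.mem_filter.1 hx).2] at h
    simp only [Finset.sum_const, nsmul_eq_mul, mul_one] at h
    show (Finset.univ.filter fun x => a x i ≠ 0).card = e + 1
    omega
  have hI : ∀ i j, i ≠ j → (S i ∩ S j).card = e := by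
    intro i j hij
    have h := hG i j
    rw [if_neg hij, zero_add, ← Finset.sum_subset (Finset.subset_univ (S i ∩ S j)) (fun x _ hx => by
      simp only [Finset.mem_inter, hmem, not_and_or, not_not] at hx
      rcases hx with hx | hx <;> simp [hx])] at h
    have hsign : ∀ x ∈ S i ∩ S j, a x i * a x j = 1 ∨ a x i * a x j = -1 := fun x hx => by
      obtain ⟨h1, h2⟩ := Finset.mem_inter.1 hx
      refine sq_eq_one_iff.1 ?_
      rw [mul_pow, hone x i ((hmem x i).1 h1), hone x j ((hmem x j).1 h2), mul_one]
    rw [← Finset.sum_filter_add_sum_filter_not _ (fun x => a x i * a x j = 1),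
      Finset.sum_congr rfl (fun x hx => (Finset.mem_filter.1 hx).2),
      Finset.sum_congr rfl (g := fun _ => (-1 : ℤ)) (fun x hx =>
        (hsign x (Finset.mem_filter.1 hx).1).resolve_left (Finset.mem_filter.1 hx).2)] at h
    simp only [Finset.sum_const, nsmul_eq_mul, mul_one, mul_neg] at h
    have h2 := Finset.card_filter_add_card_filter_not (s := S i ∩ S j)
      (fun x => a x i * a x j = 1)
    have h3 : (S i ∩ S j).card ≤ (S i).card := Finset.card_le_card Finset.inter_subset_left
    rw [hS i] at h3
    omega
  have hcover : ∀ x, ∃ i, x ∈ S i := fun x => (hne x).imp fun i hi => (hmem x i).2 hi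
  by_cases hι : ∃ i j : ι, i ≠ j
  · obtain ⟨i, j, hij⟩ := hι
    set C := S i ∩ S j with hC
    have hCc : C.card = e := hI i j hij
    by_cases hcore : ∀ l, C ⊆ S l
    · left
      have hx : ∀ l, ∃ x, S l \ C = {x} := fun l => Finset.card_eq_one.1 (by
        rw [Finset.card_sdiff_of_subset (hcore l), hS l, hCc]; omega)
      choose x hx using hx
      have hinj : Function.Injective x := by
        intro l r h
        by_contra hlr
        have h1 : S l = S r := by
          rw [← Finset.sdiff_union_of_subset (hcore l), ← Finset.sdiff_union_of_subset (hcore r),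
            hx l, hx r, h]
        have h2 := hI l r hlr
        rw [h1, Finset.inter_self, hS r] at h2
        omega
      have hdisj : Disjoint C (Finset.univ.image x) := by
        refine Finset.disjoint_left.2 fun y hy hy' => ?_
        obtain ⟨l, -, rfl⟩ := Finset.mem_image.1 hy'
        have : x l ∈ S l \ C := by rw [hx l]; exact Finset.mem_singleton_self _
        exact (Finset.mem_sdiff.1 this).2 hy
      have huniv : C ∪ Finset.univ.image x = Finset.univ := by
        refine Finset.eq_univ_iff_forall.2 fun y => ?_
        obtain ⟨l, hl⟩ := hcover y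
        by_cases hy : y ∈ C
        · exact Finset.mem_union_left _ hy
        · refine Finset.mem_union_right _ (Finset.mem_image.2 ⟨l, Finset.mem_univ _, ?_⟩)
          have : y ∈ S l \ C := Finset.mem_sdiff.2 ⟨hl, hy⟩
          rw [hx l, Finset.mem_singleton] at this
          exact this.symm
      rw [← Finset.card_univ, ← huniv, Finset.card_union_of_disjoint hdisj, hCc,
        Finset.card_image_of_injective _ hinj, Finset.card_univ]
      omega
    · right
      push Not at hcore
      obtain ⟨l, hl⟩ := hcore
      have hli : l ≠ i := fun h => hl (h ▸ Finset.inter_subset_left)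
      have hlj : l ≠ j := fun h => hl (h ▸ Finset.inter_subset_right)
      set U := S i ∪ S j with hU
      have hUc : U.card = e + 2 := by
        have := Finset.card_union_add_card_inter (S i) (S j)
        rw [hS i, hS j, hI i j hij] at this
        rw [hU]
        omega
      have hsubU : ∀ r, r ≠ i → r ≠ j → ¬ C ⊆ S r → S r ⊆ U := by
        intro r hri hrj hrC
        have h1 : (C ∩ S r).card < e := by
          rw [← hCc]
          refine Finset.card_lt_card (Finset.ssubset_iff_subset_ne.2 ⟨Finset.inter_subset_left,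
            fun h => hrC ?_⟩)
          rw [← h]
          exact Finset.inter_subset_right
        have h2 := Finset.card_union_add_card_inter (S r ∩ S i) (S r ∩ S j)
        rw [hI r i hri, hI r j hrj, ← Finset.inter_union_distrib_left,
          show S r ∩ S i ∩ (S r ∩ S j) = C ∩ S r by
            ext y; simp [hC]; tauto] at h2
        have h3 : (S r ∩ U).card ≤ (S r).card := Finset.card_le_card Finset.inter_subset_left
        rw [← hU] at h2
        have h4 : S r ∩ U = S r :=
          Finset.eq_of_subset_of_card_le Finset.inter_subset_left (by rw [hS r]; omega)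
        rw [← h4]
        exact Finset.inter_subset_right
      have hlU := hsubU l hli hlj hl
      have hall : ∀ r, S r ⊆ U := by
        intro r
        by_cases hri : r = i
        · exact hri ▸ Finset.subset_union_left
        by_cases hrj : r = j
        · exact hrj ▸ Finset.subset_union_right
        by_cases hrC : C ⊆ S r
        · intro y hy
          by_contra hyU
          have hrl : r ≠ l := fun h => hl (h ▸ hrC)
          have h1 : S r ∩ S l ⊆ C ∩ S l := by
            intro z hz
            obtain ⟨hz1, hz2⟩ := Finset.mem_inter.1 hz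
            refine Finset.mem_inter.2 ⟨?_, hz2⟩
            by_contra hzC
            have h2 : (S r \ C).card = 1 := by
              rw [Finset.card_sdiff_of_subset hrC, hS r, hCc]; omega
            obtain ⟨w, hw⟩ := Finset.card_eq_one.1 h2
            have hyw : y ∈ S r \ C := Finset.mem_sdiff.2 ⟨hy, fun h =>
              hyU (Finset.mem_union_left _ (Finset.mem_inter.1 h).1)⟩
            have hzw : z ∈ S r \ C := Finset.mem_sdiff.2 ⟨hz1, hzC⟩
            rw [hw, Finset.mem_singleton] at hyw hzw
            exact hyU (hyw.trans hzw.symm ▸ hlU hz2)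
          have h3 := Finset.card_le_card h1
          rw [hI r l hrl] at h3
          have h4 : (C ∩ S l).card < C.card := Finset.card_lt_card
            (Finset.ssubset_iff_subset_ne.2 ⟨Finset.inter_subset_left, fun h => hl (by
              rw [← h]; exact Finset.inter_subset_right)⟩)
          omega
        · exact hsubU r hri hrj hrC
      have hX : Fintype.card X = e + 2 := by
        rw [← hUc, ← Finset.card_univ]
        congr 1
        refine (Finset.eq_univ_iff_forall.2 fun y => ?_).symm
        obtain ⟨r, hr⟩ := hcover y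
        exact hall r hr
      have h3 : ({i, j, l} : Finset ι).card = 3 := by
        rw [Finset.card_insert_of_notMem (by simp [hij, hli.symm]),
          Finset.card_insert_of_notMem (by simp [hlj.symm]), Finset.card_singleton]
      have := Finset.card_le_univ ({i, j, l} : Finset ι)
      exact ⟨by omega, by omega, hX⟩
  · left
    push Not at hι
    rcases isEmpty_or_nonempty ι with hempty | ⟨⟨i⟩⟩
    · exfalso
      have : IsEmpty X := ⟨fun x => (hne x).elim fun i _ => hempty.elim i⟩
      simp at hk
    · have h1 : Fintype.card ι = 1 := Fintype.card_eq_one_iff.2 ⟨i, fun r => hι r i⟩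
      have h2 : S i = Finset.univ := Finset.eq_univ_iff_forall.2 fun y => by
        obtain ⟨r, hr⟩ := hcover y
        rwa [hι r i] at hr
      rw [h1, ← Finset.card_univ, ← h2, hS i]
      omega

end Cfsg.Agent.BrauerPairs.FreeAbelian
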