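import Cfsg.Agent.BrauerPairs.FreeAbelian.Idems
import Cfsg.Agent.BlockCount.CyclicForm

/-!
The generalized decomposition numbers at the non-trivial elements of the defect group of a block
with freely acting inertial quotient: orthogonality and invariance.
-/

set_option maxHeartbeats 400000
set_option linter.unusedSectionVars false
set_option linter.style.haveILetI false

namespace Cfsg.Agent.BrauerPairs.FreeAbelian

open MonoidAlgebra Cfsg
open Cfsg.Agent.BrauerPairs Cfsg.Agent.BrauerPairs.Nil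
open Cfsg.Agent.BlkChar.Contrib
open scoped ComplexConjugate Classical

universe u

variable {p : ℕ} [hp : Fact p.Prime] {M : Ideal AlgInt} [M.IsPrime] [CharP (Block.ResF M) p]
  {G : Type u} [Group G] [Fintype G]

namespace FreeData

variable (K : FreeData p M G)

theorem coe_ne_one {u : K.P} (hu : u ≠ 1) : (u : G) ≠ 1 := fun h => hu (Subtype.ext h)

theorem zpowers_ne_bot {u : K.P} (hu : u ≠ 1) : Subgroup.zpowers u ≠ ⊥ := fun h =>
  hu (Subgroup.zpowers_eq_bot.1 h)

theorem isCharacter_res (χ : IrrCharacter G) (W : Subgroup K.P) :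
    IsCharacter (K.cen W) (fun x : K.cen W => (χ : G → ℂ) x) :=
  Char.isCharacter_restrict (Char.isCharacter_of_irr χ.2) _

/-- The generalized decomposition number. -/
noncomputable def d (χ : IrrCharacter G) (u : K.P) : ℂ :=
  if h : u = 1 then 0 else
    (K.exists_part (K.zpowers_ne_bot h) (K.mem_emb (Subgroup.mem_zpowers u))
      (K.isCharacter_res χ (Subgroup.zpowers u))).choose

theorem d_isIntegral (χ : IrrCharacter G) (u : K.P) : IsIntegral ℤ (K.d χ u) := by
  unfold d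
  split_ifs with h
  · exact isIntegral_zero
  · exact (K.exists_part (K.zpowers_ne_bot h) (K.mem_emb (Subgroup.mem_zpowers u))
      (K.isCharacter_res χ (Subgroup.zpowers u))).choose_spec.1

theorem phi_eq_d (χ : IrrCharacter G) {u : K.P} (hu : u ≠ 1) {y : G}
    (hy : y ∈ K.cen (Subgroup.zpowers u)) (hreg : ¬ p ∣ orderOf y) :
    Phi (K.pairW (Subgroup.zpowers u)) (u : G) (χ : G → ℂ) y =
      K.d χ u * K.th (Subgroup.zpowers u) y := by
  rw [d, dif_neg hu]
  exact (K.exists_part (K.zpowers_ne_bot hu) (K.mem_emb (Subgroup.mem_zpowers u))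
    (K.isCharacter_res χ (Subgroup.zpowers u))).choose_spec.2 y hy hreg

theorem phi_one_eq_d (χ : IrrCharacter G) {u : K.P} (hu : u ≠ 1) :
    Phi (K.pairW (Subgroup.zpowers u)) (u : G) (χ : G → ℂ) 1 =
      K.d χ u * K.th (Subgroup.zpowers u) 1 :=
  K.phi_eq_d χ hu (one_mem _) not_dvd_orderOf_one

theorem pow_lev_coe (u : K.P) : (u : G) ^ p ^ K.lev = 1 := congrArg Subtype.val (K.pow_lev u)

theorem one_lt_pow_lev : 1 < p ^ K.lev :=
  Nat.one_lt_pow (Nat.succ_ne_zero _) hp.out.one_lt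

/-- The value at the source idempotent. -/
theorem charLin_src (χ : IrrCharacter G) {u : K.P} (hu : u ≠ 1) :
    Block.charLin (χ : G → ℂ) (single (u : G) 1 * Block.toC M K.src) =
      K.d χ u * (K.num (Subgroup.zpowers u) : ℂ) := by
  obtain ⟨k, hk⟩ := K.exists_orderOf u
  rw [charLin_eq_of_trunc_eq K.isPModular hk (K.emb_zpowers u).symm K.src_idem
    (K.fixed_emb K.src_fixed _) (K.eps_idem (Subgroup.zpowers u))
    (K.fixed_emb (K.eps_fixed _) _)
    (by rw [K.toF_eps, trunc_trunc le_rfl]) (Char.irr_isClassFunction χ.2)]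
  exact K.eval_eps (K.mem_emb (Subgroup.mem_zpowers u)) (K.isCharacter_res χ _)
    fun y hy hreg => K.phi_eq_d χ hu hy hreg

theorem secReg_both (χ ψ : IrrCharacter G) {u : K.P} (hu : u ≠ 1) :
    secReg p (K.pairW (Subgroup.zpowers u)) (u : G) (χ : G → ℂ) (ψ : G → ℂ) =
      K.d χ u * conj (K.d ψ u) *
        ((Nat.card (K.cen (Subgroup.zpowers u)) : ℂ) / (Nat.card K.P : ℂ)) := by
  rw [← K.sum_th_sq (K.zpowers_ne_bot hu), secReg, Finset.mul_sum]
  refine Finset.sum_congr rfl fun y hy => ?_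
  obtain ⟨-, hy1, hy2⟩ := Finset.mem_filter.1 hy
  rw [K.phi_eq_d χ hu hy1 hy2, K.phi_eq_d ψ hu hy1 hy2, map_mul (starRingEnd ℂ)]
  ring

theorem card_cen_div_ne_zero (W : Subgroup K.P) :
    (Nat.card (K.cen W) : ℂ) / (Nat.card K.P : ℂ) ≠ 0 :=
  div_ne_zero (Nat.cast_ne_zero.2 Nat.card_pos.ne') (Nat.cast_ne_zero.2 Nat.card_pos.ne')

theorem d_eq_zero {χ : IrrCharacter G} (hχ : χ ∉ K.B.1) {u : K.P} (hu : u ≠ 1) :
    K.d χ u = 0 := by
  obtain ⟨i, hi⟩ := K.exists_orderOf u
  obtain ⟨f, hf⟩ := K.pair_block u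
  have hy : (1 : G) ∈ Subgroup.centralizer (Subgroup.zpowers (u : G) : Set G) := one_mem _
  have h := phi_eq_zero K.isPModular hi (B := (⟨_, Block.isPBlock_blockOf χ⟩ : Blk M G))
    (Block.mem_blockOf_self χ) f (fun hpair => hχ ?_) hy not_dvd_orderOf_one
  · rw [← hf, K.phi_one_eq_d χ hu] at h
    exact (mul_eq_zero.1 h).resolve_right (K.th_one_ne_zero _)
  · have h2 := (existsUnique_pairOf (blockSysTop M) (pairSys M G) (p := p)
      (a := (⟨Subgroup.zpowers (u : G), f⟩ : PairIdx M G)) hpair.1).unique hpair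
        (hf ▸ K.pairOf (Subgroup.zpowers u))
    rw [← h2]
    exact Block.mem_blockOf_self χ

theorem d_ne_zero {χ : IrrCharacter G} (hχ : χ ∈ K.B.1) {u : K.P} (hu : u ≠ 1) :
    K.d χ u ≠ 0 := by
  haveI : Fact (1 < p ^ K.lev) := ⟨K.one_lt_pow_lev⟩
  obtain ⟨f, hf⟩ := K.pair_block u
  haveI := Fintype.ofFinite (Subgroup.centralizer (Subgroup.zpowers (u : G) : Set G))
  obtain ⟨h1, h2⟩ := BlockHeight.isDefIn_conj (g := 1) K.maxPair (z := (u : G))
    (fun x hx => K.comm x hx u u.2) (f := f) (hf ▸ K.sle (Subgroup.zpowers u)) (u := (u : G))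
    (β := f) ⟨by ext; simp, (cj_one _).symm⟩
  have hind : IsInducedBlock M (Subgroup.centralizer (Subgroup.zpowers (u : G) : Set G)) f.1
      K.B.1 := (BlockCover.isInducedBlock_iff_pairOf h2.1 f K.B).2 h2
  have hd := BlockHeight.blockDefect_eq_of_isDefIn K.isPModular K.maxPair (g := 1) h1
  obtain ⟨χh, hχh, h0⟩ := BlockVal.exists_height_zero (p := p) (Block.pBlock_nonempty K.B.2)
  have hS : IsSection p K.lev (u : G) (Subgroup.centralizer (Subgroup.zpowers (u : G) : Set G)) :=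
    isSection_of_zpowers rfl (K.pow_lev_coe u)
  intro hzero
  refine cM_ne_zero_major hS K.isPModular hind hd hχ hχh h0
    (isUnit_one : IsUnit (1 : ZMod (p ^ K.lev))) ?_
  rw [← secReg_eq_cM hS f χ χh 1, ← hf, ZMod.val_one, pow_one, K.secReg_both χ χh hu, hzero,
    zero_mul, zero_mul, mul_zero]

theorem sum_d_self {u : K.P} (hu : u ≠ 1) :
    ∑ χ : IrrCharacter G, K.d χ u * conj (K.d χ u) = (Nat.card K.P : ℂ) := by
  obtain ⟨ψ, hψ⟩ := Block.pBlock_nonempty K.B.2
  have h := BlockCount.sum_secReg_mul K.isPModular (a := K.pairW (Subgroup.zpowers u))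
    (b := K.pairW (Subgroup.zpowers u)) (K.emb_zpowers u) (K.emb_zpowers u)
    (K.exists_orderOf u) ψ
  rw [if_pos rfl] at h
  simp only [K.secReg_both _ ψ hu, map_mul, Complex.conj_conj, map_div₀, map_natCast] at h
  rw [show (Nat.card (Subgroup.centralizer (Subgroup.zpowers (u : G) : Set G)) : ℂ) =
      (Nat.card (K.cen (Subgroup.zpowers u)) : ℂ) by
    rw [cen, K.emb_zpowers]] at h
  have hane : K.d ψ u ≠ 0 := K.d_ne_zero hψ hu
  have hC : (Nat.card (K.cen (Subgroup.zpowers u)) : ℂ) ≠ 0 :=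
    Nat.cast_ne_zero.2 Nat.card_pos.ne'
  have hq : (Nat.card K.P : ℂ) ≠ 0 := Nat.cast_ne_zero.2 Nat.card_pos.ne'
  set a := K.d ψ u
  set C : ℂ := (Nat.card (K.cen (Subgroup.zpowers u)) : ℂ)
  set q : ℂ := (Nat.card K.P : ℂ)
  have e : ∀ z : ℂ, z * conj a * (C / q) * (conj z * a * (C / q)) =
      (a * conj a * (C / q) ^ 2) * (z * conj z) := fun z => by ring
  rw [Finset.sum_congr rfl fun χ _ => e _, ← Finset.mul_sum] at h
  refine mul_left_cancel₀ (mul_ne_zero (mul_ne_zero hane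
    ((map_ne_zero (starRingEnd ℂ)).2 hane)) (pow_ne_zero 2 (div_ne_zero hC hq))) (h.trans ?_)
  field_simp

/-- Conjugation by the stabilizer fixes the numbers. -/
theorem d_conj (χ : IrrCharacter G) {t : G} (ht : t ∈ stab (⟨K.P, K.c⟩ : PairIdx M G))
    {u u' : K.P} (htu : t * (u : G) * t⁻¹ = u') : K.d χ u' = K.d χ u := by
  rcases eq_or_ne u 1 with rfl | hu
  · obtain rfl : u' = 1 := Subtype.ext (by rw [← htu]; simp)
    rfl
  have hu' : u' ≠ 1 := fun h => K.coe_ne_one hu (by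
    rw [h, OneMemClass.coe_one] at htu
    exact conj_eq_one_iff.1 htu)
  obtain ⟨b, hb⟩ := exists_cjRel (S := pairSys M G) t (K.pairW (Subgroup.zpowers u))
  have hsle := (K.sle (Subgroup.zpowers u)).cjRel hb (cjRel_self_of_mem_stab ht)
  obtain rfl : b = K.pairW (Subgroup.zpowers u') := K.eq_pairW hsle (by
    rw [← hb.1, K.emb_zpowers, ← htu]
    show (K.emb (Subgroup.zpowers u)).map _ = _
    rw [K.emb_zpowers]
    exact MonoidHom.map_zpowers _ _)
  have hrel : ∀ ξ : IrrCharacter G, K.d ξ u' * K.th (Subgroup.zpowers u') 1 =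
      K.d ξ u * K.th (Subgroup.zpowers u) 1 := by
    intro ξ
    have h := phi_cjRel hb (u : G) (Char.irr_isClassFunction ξ.2) 1
    rw [htu, mul_one, mul_inv_cancel, K.phi_one_eq_d ξ hu', K.phi_one_eq_d ξ hu] at h
    exact h
  obtain ⟨a, ha⟩ := Char.isCharacter_one_nat (Char.isCharacter_of_irr (K.θ (Subgroup.zpowers u)).2)
  obtain ⟨a', ha'⟩ :=
    Char.isCharacter_one_nat (Char.isCharacter_of_irr (K.θ (Subgroup.zpowers u')).2)
  have hth : ∀ W : Subgroup K.P, K.th W 1 = (K.θ W : K.cen W → ℂ) 1 := fun W =>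
    K.th_coe W 1
  simp only [hth, ha, ha'] at hrel
  have ha0 : (a' : ℂ) ≠ 0 := ha' ▸ Char.irr_one_ne_zero (K.θ (Subgroup.zpowers u')).2
  have hsq : (Nat.card K.P : ℂ) * (a' : ℂ) ^ 2 = (Nat.card K.P : ℂ) * (a : ℂ) ^ 2 := by
    conv_lhs => rw [← K.sum_d_self hu']
    conv_rhs => rw [← K.sum_d_self hu]
    rw [Finset.sum_mul, Finset.sum_mul]
    refine Finset.sum_congr rfl fun ξ _ => ?_
    have h := congrArg (fun z : ℂ => z * conj z) (hrel ξ)
    simp only [map_mul, map_natCast] at h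
    linear_combination h
  have haa : a' = a := by
    have h := mul_left_cancel₀ (Nat.cast_ne_zero.2 Nat.card_pos.ne') hsq
    exact Nat.pow_left_injective two_ne_zero (by exact_mod_cast h)
  have h := hrel χ
  rw [← haa] at h
  exact mul_right_cancel₀ ha0 h

theorem sum_d_orth {u u' : K.P} (hu : u ≠ 1) (hu' : u' ≠ 1)
    (hn : ¬ ∃ t ∈ stab (⟨K.P, K.c⟩ : PairIdx M G), t * (u : G) * t⁻¹ = u') :
    ∑ χ : IrrCharacter G, K.d χ u * conj (K.d χ u') = 0 := by
  obtain ⟨ψ, hψ⟩ := Block.pBlock_nonempty K.B.2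
  suffices h : ∑ χ : IrrCharacter G,
      secReg p (K.pairW (Subgroup.zpowers u)) (u : G) (χ : G → ℂ) (ψ : G → ℂ) *
        conj (secReg p (K.pairW (Subgroup.zpowers u')) (u' : G) (χ : G → ℂ) (ψ : G → ℂ)) = 0 by
    simp only [K.secReg_both _ ψ hu, K.secReg_both _ ψ hu', map_mul, Complex.conj_conj,
      map_div₀, map_natCast] at h
    have hne : conj (K.d ψ u) * K.d ψ u' *
        (((Nat.card (K.cen (Subgroup.zpowers u)) : ℂ) / (Nat.card K.P : ℂ)) *
        ((Nat.card (K.cen (Subgroup.zpowers u')) : ℂ) / (Nat.card K.P : ℂ))) ≠ 0 :=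
      mul_ne_zero (mul_ne_zero ((map_ne_zero (starRingEnd ℂ)).2 (K.d_ne_zero hψ hu))
        (K.d_ne_zero hψ hu'))
        (mul_ne_zero (K.card_cen_div_ne_zero _) (K.card_cen_div_ne_zero _))
    refine (mul_eq_zero.1 ?_).resolve_left hne
    rw [← h, Finset.mul_sum]
    exact Finset.sum_congr rfl fun χ _ => by ring
  obtain ⟨f, hf⟩ := K.pair_block u
  obtain ⟨f', hf'⟩ := K.pair_block u'
  rw [hf, hf']
  have hsle : SLE (pairSys M G) p ⟨Subgroup.zpowers (u : G), f⟩ ⟨K.P, K.c⟩ := hf ▸ K.sle _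
  have hsle' : SLE (pairSys M G) p ⟨Subgroup.zpowers (u' : G), f'⟩ ⟨K.P, K.c⟩ := hf' ▸ K.sle _
  by_cases hconj : ∃ k : G, k * (u : G) * k⁻¹ = u'
  · obtain ⟨k, hk⟩ := hconj
    obtain ⟨b', hb'⟩ :=
      exists_cjRel (S := pairSys M G) k⁻¹ (⟨Subgroup.zpowers (u' : G), f'⟩ : PairIdx M G)
    have hkv : k⁻¹ * (u' : G) * k⁻¹⁻¹ = u := by rw [← hk]; group
    have hb1 : b'.1 = Subgroup.zpowers (u : G) := by
      rw [← hb'.1, ← hkv]
      exact MonoidHom.map_zpowers _ _
    have hne : (⟨Subgroup.zpowers (u : G), f⟩ : PairIdx M G) ≠ b' := by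
      intro he
      apply hn
      subst he
      have hrel := hb'.symm
      rw [inv_inv] at hrel
      obtain ⟨y, hy, hyk⟩ := BlockHeight.exists_stab_of_cjRel K.maxPair
        (fun g hg => K.comm g hg _ u'.2) (fun g hg => K.comm g hg _ u.2) hsle' hsle hrel
      refine ⟨y * k, hyk, ?_⟩
      rw [show y * k * (u : G) * (y * k)⁻¹ = y * (k * u * k⁻¹) * y⁻¹ by group, hk,
        ← Subgroup.mem_centralizer_iff.1 hy _ (Subgroup.mem_zpowers _), mul_inv_cancel_right]
    have e : ∀ χ : IrrCharacter G,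
        secReg p (⟨Subgroup.zpowers (u' : G), f'⟩ : PairIdx M G) (u' : G) (χ : G → ℂ) (ψ : G → ℂ) =
          secReg p b' (u : G) (χ : G → ℂ) (ψ : G → ℂ) := by
      intro χ
      rw [← secReg_cjRel hb' (u' : G) (Char.irr_isClassFunction χ.2)
        (Char.irr_isClassFunction ψ.2), hkv]
    simp only [e]
    rw [BlockCount.sum_secReg_mul K.isPModular rfl hb1 (K.exists_orderOf u) ψ, if_neg hne, mul_zero]
  · obtain ⟨i, hi⟩ := K.exists_orderOf u
    obtain ⟨i', hi'⟩ := K.exists_orderOf u'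
    have hterm : ∀ c c' : G, c ∈ Subgroup.centralizer (Subgroup.zpowers (u : G) : Set G) →
        c' ∈ Subgroup.centralizer (Subgroup.zpowers (u' : G) : Set G) →
        ¬ p ∣ orderOf c → ¬ p ∣ orderOf c' →
        ∑ χ : IrrCharacter G, (χ : G → ℂ) (u * c) * conj ((χ : G → ℂ) (u' * c')) = 0 := by
      intro c c' hc hc' hr hr'
      rw [Char.sum_irr_mul_conj, if_neg]
      intro hcj
      apply hconj
      obtain ⟨k, hk⟩ := isConj_iff.1 hcj
      refine ⟨k, ?_⟩
      have e1 := (Brauer.orderOf_mul_coprime_parts hi hr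
        (Subgroup.mem_centralizer_iff.1 hc _ (Subgroup.mem_zpowers _))).1
      have e2 := (Brauer.orderOf_mul_coprime_parts hi' hr'
        (Subgroup.mem_centralizer_iff.1 hc' _ (Subgroup.mem_zpowers _))).1
      have h1 := (Element.pPart_conj hp.out k ((u : G) * c)).1
      rw [hk, e1, e2] at h1
      exact h1.symm
    have hsec : ∀ (w : G) (k : ℕ), orderOf w = p ^ k →
        ∀ (g : Blk M (Subgroup.centralizer (Subgroup.zpowers w : Set G))) (χ : IrrCharacter G),
        secReg p (⟨Subgroup.zpowers w, g⟩ : PairIdx M G) w (χ : G → ℂ) (ψ : G → ℂ) =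
        ∑ y ∈ Finset.univ.filter (fun y : G =>
          y ∈ Subgroup.centralizer (Subgroup.zpowers w : Set G) ∧ ¬ p ∣ orderOf y),
          (χ : G → ℂ) (w * y) *
            conj (Phi (⟨Subgroup.zpowers w, g⟩ : PairIdx M G) w (ψ : G → ℂ) y) := by
      intro w k hw g χ
      rw [secReg]
      simp only [← sum_phi (M := M) (Subgroup.zpowers w) w (χ : G → ℂ), Finset.sum_mul]
      rw [Finset.sum_comm (t := (Finset.univ : Finset
          (Blk M (Subgroup.centralizer (Subgroup.zpowers w : Set G))))),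
        Finset.sum_eq_single g]
      · intro e' _ hne
        exact cross_eq_zero K.isPModular hw hne χ ψ
      · simp
    simp only [hsec _ _ hi, hsec _ _ hi', map_sum, Finset.sum_mul_sum, map_mul, Complex.conj_conj]
    rw [Finset.sum_comm]
    refine Finset.sum_eq_zero fun y hy => ?_
    rw [Finset.sum_comm]
    refine Finset.sum_eq_zero fun y' hy' => ?_
    obtain ⟨-, hy1, hy2⟩ := Finset.mem_filter.1 hy
    obtain ⟨-, hy1', hy2'⟩ := Finset.mem_filter.1 hy'
    rw [← mul_zero (conj (Phi (⟨Subgroup.zpowers (u : G), f⟩ : PairIdx M G) (u : G) (ψ : G → ℂ) y) *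
      Phi (⟨Subgroup.zpowers (u' : G), f'⟩ : PairIdx M G) (u' : G) (ψ : G → ℂ) y'),
      ← hterm y y' hy1 hy1' hy2 hy2', Finset.mul_sum]
    exact Finset.sum_congr rfl fun χ _ => by ring

theorem sum_B (f : IrrCharacter G → ℂ) (hf : ∀ χ, χ ∉ K.B.1 → f χ = 0) :
    ∑ ξ ∈ Finset.univ.filter (· ∈ K.B.1), f ξ = ∑ χ : IrrCharacter G, f χ :=
  Finset.sum_filter_of_ne fun χ _ h => by_contra fun h' => h (hf χ h')

/-- Orthogonality to the columns follows from vanishing on the singular elements. -/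
theorem sum_d_eq_zero (v : IrrCharacter G → ℂ)
    (hv : ∀ g : G, p ∣ orderOf g →
      ∑ ξ ∈ Finset.univ.filter (· ∈ K.B.1), v ξ * (ξ : G → ℂ) g = 0)
    {u : K.P} (hu : u ≠ 1) :
    ∑ ξ ∈ Finset.univ.filter (· ∈ K.B.1), v ξ * K.d ξ u = 0 := by
  obtain ⟨f, hf⟩ := K.pair_block u
  haveI := Fintype.ofFinite (Subgroup.centralizer (Subgroup.zpowers (u : G) : Set G))
  set F : G → ℂ := fun g => ∑ ξ ∈ Finset.univ.filter (· ∈ K.B.1), v ξ * (ξ : G → ℂ) g with hF
  have hFc : IsClassFunction G F := fun g h => by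
    simp only [hF, Char.irr_isClassFunction (Subtype.prop _) g h]
  have h1 : Phi (K.pairW (Subgroup.zpowers u)) (u : G) F 1 =
      (∑ ξ ∈ Finset.univ.filter (· ∈ K.B.1), v ξ * K.d ξ u) * K.th (Subgroup.zpowers u) 1 := by
    rw [hF, BlockCount.phi_sum, Finset.sum_mul]
    refine Finset.sum_congr rfl fun ξ _ => ?_
    rw [K.phi_one_eq_d ξ hu, mul_assoc]
  have h2 : Phi (K.pairW (Subgroup.zpowers u)) (u : G) F 1 = 0 := by
    rw [hf, show (1 : G) =
        ((1 : Subgroup.centralizer (Subgroup.zpowers (u : G) : Set G)) : G) from rfl,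
      phi_eq_blockPart (⟨Subgroup.zpowers (u : G), f⟩ : PairIdx M G) (Subgroup.mem_zpowers _) hFc]
    have hcl : IsClassFunction (Subgroup.centralizer (Subgroup.zpowers (u : G) : Set G))
        (fun c : Subgroup.centralizer (Subgroup.zpowers (u : G) : Set G) =>
          F ((u : G) * (c : G))) := by
      intro c b
      have hb : Commute (u : G) (b : G) :=
        Subgroup.mem_centralizer_iff.1 b.2 _ (Subgroup.mem_zpowers _)
      show F ((u : G) * (↑(b * c * b⁻¹) : G)) = _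
      rw [Subgroup.coe_mul, Subgroup.coe_mul, Subgroup.coe_inv, ← mul_assoc, ← mul_assoc, hb.eq,
        mul_assoc (b : G) (u : G)]
      exact hFc _ _
    rw [blockPart_eq_regular (p := p) K.isPModular f.2 _ (by simpa using hp.out.one_lt.ne')]
    refine mul_eq_zero_of_right _ (Finset.sum_eq_zero fun c hc => ?_)
    obtain ⟨i, hi⟩ := K.exists_orderOf u
    have hi0 : i ≠ 0 := by
      rintro rfl
      exact K.coe_ne_one hu (orderOf_eq_one_iff.1 (by rw [hi, pow_zero]))
    have hcr : ¬ p ∣ orderOf (c : G) := by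
      rw [Subgroup.orderOf_coe]
      exact (Finset.mem_filter.1 hc).2
    have hsing : p ∣ orderOf ((u : G) * (c : G)) := by
      rw [Commute.orderOf_mul_eq_mul_orderOf_of_coprime
        (Subgroup.mem_centralizer_iff.1 c.2 _ (Subgroup.mem_zpowers _))
        (by rw [hi]; exact (hp.out.coprime_iff_not_dvd.2 hcr).pow_left i), hi]
      exact dvd_mul_of_dvd_left (dvd_pow_self p hi0) _
    simp only [hF, hv _ hsing, zero_mul]
  exact (mul_eq_zero.1 (h1.symm.trans h2)).resolve_right (K.th_one_ne_zero _)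

/-- Vanishing on the singular elements follows from orthogonality to the columns. -/
theorem sum_eq_zero_of_d (v : IrrCharacter G → ℂ)
    (hv : ∀ u : K.P, u ≠ 1 → ∑ ξ ∈ Finset.univ.filter (· ∈ K.B.1), v ξ * K.d ξ u = 0)
    (g : G) (hg : p ∣ orderOf g) :
    ∑ ξ ∈ Finset.univ.filter (· ∈ K.B.1), v ξ * (ξ : G → ℂ) g = 0 := by
  set U := Element.pPart p g with hU
  set y := Element.pComplPart p g with hy
  obtain ⟨i, hi⟩ : ∃ i, orderOf U = p ^ i := ⟨_, Element.orderOf_pPart_eq_pow hp.out g⟩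
  have hU1 : U ≠ 1 := fun h => by
    have h1 := Element.orderOf_pPart_eq_pow hp.out g
    rw [← hU, h, orderOf_one] at h1
    exact absurd h1 (Nat.one_lt_pow (hp.out.factorization_pos_of_dvd (orderOf_pos g).ne' hg).ne'
      hp.out.one_lt).ne
  have hreg : ¬ p ∣ orderOf y :=
    hp.out.coprime_iff_not_dvd.1 (Element.coprime_orderOf_pComplPart hp.out g).symm
  have hyC : y ∈ Subgroup.centralizer (Subgroup.zpowers U : Set G) := by
    rw [Brauer.centralizer_zpowers_eq, Subgroup.mem_centralizer_singleton_iff]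
    exact (Element.commute_pPart_pComplPart p g).symm
  have hgUy : g = U * y := (Element.pPart_mul_pComplPart p g).symm
  rw [hgUy]
  simp only [← sum_phi (M := M) (Subgroup.zpowers U) U, Finset.mul_sum]
  rw [Finset.sum_comm]
  refine Finset.sum_eq_zero fun f _ => ?_
  by_cases hpair : PairOf (blockSysTop M) (pairSys M G) p K.B ⟨Subgroup.zpowers U, f⟩
  swap
  · refine Finset.sum_eq_zero fun ξ hξ => ?_
    rw [phi_eq_zero K.isPModular hi (Finset.mem_filter.1 hξ).2 f hpair hyC hreg, mul_zero]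
  obtain ⟨k, b', hk, hb'⟩ := K.maxPair.exists_conj_sle hpair
  have h1 : b'.1 = Subgroup.zpowers (k * U * k⁻¹) := by
    rw [← hk.1]
    exact MonoidHom.map_zpowers _ _
  obtain ⟨u, hj⟩ : ∃ u : K.P, (u : G) = k * U * k⁻¹ :=
    ⟨⟨_, hb'.le (h1 ▸ Subgroup.mem_zpowers _)⟩, rfl⟩
  have hj0 : u ≠ 1 := by
    rintro rfl
    exact hU1 (conj_eq_one_iff.1 hj.symm)
  rw [← hj, ← K.emb_zpowers] at h1
  have hb'' := K.eq_pairW hb' h1
  subst hb''
  have hy' : k * y * k⁻¹ ∈ K.cen (Subgroup.zpowers u) := by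
    rw [cen, K.emb_zpowers, Brauer.centralizer_zpowers_eq, Subgroup.mem_centralizer_singleton_iff,
      hj]
    have := Subgroup.mem_centralizer_iff.1 hyC _ (Subgroup.mem_zpowers U)
    calc k * y * k⁻¹ * (k * U * k⁻¹) = k * (y * U) * k⁻¹ := by group
      _ = k * (U * y) * k⁻¹ := by rw [this]
      _ = k * U * k⁻¹ * (k * y * k⁻¹) := by group
  have hreg' : ¬ p ∣ orderOf (k * y * k⁻¹) := by
    rwa [show k * y * k⁻¹ = MulAut.conj k y from rfl, MulEquiv.orderOf_eq]
  have e : ∀ ξ : IrrCharacter G, Phi (⟨Subgroup.zpowers U, f⟩ : PairIdx M G) U (ξ : G → ℂ) y =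
      K.d ξ u * K.th (Subgroup.zpowers u) (k * y * k⁻¹) := by
    intro ξ
    rw [← phi_cjRel hk U (Char.irr_isClassFunction ξ.2) y, ← hj, K.phi_eq_d ξ hj0 hy' hreg']
  simp only [e, ← mul_assoc, ← Finset.sum_mul, hv u hj0, zero_mul]

end FreeData

end Cfsg.Agent.BrauerPairs.FreeAbelian
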