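import Cfsg.Agent.BrauerPairs.FreeAbelian.Local
import Cfsg.Agent.BrauerPairs.FreeAbelian.Sections
import Cfsg.Agent.BrauerPairs.FreeAbelian.Action

/-!
The rows of the generalized decomposition numbers, with invariant signs, as local combinations of
the characters of the defect group.
-/

set_option maxHeartbeats 400000
set_option linter.unusedSectionVars false
set_option linter.style.haveILetI false

namespace Cfsg.Agent.BrauerPairs.FreeAbelian

open MonoidAlgebra Cfsg
open Cfsg.Agent.BrauerPairs Cfsg.Agent.BrauerPairs.Nil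
open scoped ComplexConjugate Classical

universe u

variable {p : ℕ} [hp : Fact p.Prime] {M : Ideal AlgInt} [M.IsPrime] [CharP (Block.ResF M) p]

/-- Units among the residues give the same cyclic subgroup. -/
theorem zpowers_pow_unit {P : Type u} [Group P] {K : ℕ} (hK : ∀ u : P, u ^ p ^ K = 1) (u : P)
    {j : ℕ} (hj : j.Coprime (p ^ K)) : Subgroup.zpowers (u ^ j) = Subgroup.zpowers u := by
  obtain ⟨l, hl⟩ := exists_pow_eq_self_of_coprime
    (hj.coprime_dvd_right (orderOf_dvd_of_pow_eq_one (hK u)))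
  exact le_antisymm (Subgroup.zpowers_le.2 (Subgroup.pow_mem _ (Subgroup.mem_zpowers u) _))
    (Subgroup.zpowers_le.2 ⟨(l : ℤ), by simpa using hl⟩)

theorem sign_mul_self {z : ℤ} (h : z = 1 ∨ z = -1) : z * z = 1 := by
  rcases h with rfl | rfl <;> rfl

variable {G : Type u} [Group G] [Fintype G]

namespace FreeData

variable (K : FreeData p M G)

/-- The rows with invariant signs. -/
theorem exists_signed_rows (hP : K.P ≠ ⊥) :
    ∃ (f : IrrCharacter G → K.P → ℂ) (s : K.P → ℤ),
      (∀ χ, LV M (f χ) ∧ Fam p K.lev (f χ)) ∧ (∀ u, s u = 1 ∨ s u = -1) ∧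
      (∀ (a : K.E) (u : K.P), u ≠ 1 → s ((a : MulAut K.P) u) = s u) ∧
      ∀ χ (u : K.P), u ≠ 1 → f χ u = (s u : ℂ) * conj (K.d χ u) := by
  haveI : Nontrivial K.P := (Subgroup.nontrivial_iff_ne_bot _).2 hP
  obtain ⟨N, hN⟩ := K.exists_card
  have hord : ∀ u : K.P, ∃ k, orderOf u = p ^ k := fun u => by
    obtain ⟨k, hk⟩ := K.exists_orderOf u
    exact ⟨k, by rwa [← Subgroup.orderOf_coe]⟩
  set F : IrrCharacter G → K.P → ℂ := fun χ u =>
    conj (Block.charLin (χ : G → ℂ) (single (u : G) 1 * Block.toC M K.src)) with hF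
  have hchar0 : ∀ χ : IrrCharacter G, IsCharacter K.P
      (fun u : K.P => Block.charLin (χ : G → ℂ) (single (u : G) 1 * Block.toC M K.src)) := fun χ =>
    isCharacter_charLin_single (Char.isCharacter_of_irr χ.2) K.P
      (by rw [← map_mul, K.src_idem]) fun v hv => commute_single_toC K.src_fixed hv
  have hchar : ∀ χ, IsCharacter K.P (F χ) := fun χ => Char.isCharacter_conjFun (hchar0 χ)
  have hFd : ∀ χ (u : K.P), u ≠ 1 →
      F χ u = conj (K.d χ u) * (K.num (Subgroup.zpowers u) : ℂ) := fun χ u hu => by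
    simp only [hF, K.charLin_src χ hu, map_mul, map_natCast]
  have hunit1 : ¬ MemLocalIdeal M (F K.χ₀ 1) := by
    have h1 : F K.χ₀ 1 = Block.charLin (K.χ₀ : G → ℂ) (Block.toC M K.src) := by
      have h2 := (Char.isCharacter_inv (hchar0 K.χ₀) 1).symm
      simp only [inv_one] at h2
      refine h2.trans ?_
      rw [OneMemClass.coe_one, ← MonoidAlgebra.one_def, one_mul]
    intro h
    apply K.src_chiBar
    have hloc : ∀ g, MemLocalRing M ((K.χ₀ : G → ℂ) g) := fun g =>
      Block.memLocalRing_of_isIntegral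
        (Char.isCharacter_isIntegral (Char.isCharacter_of_irr K.χ₀.2) g)
    rw [← redC_charLin_toC hloc, ← h1, Block.redC_eq_zero_iff ((LV.of_isCharacter (hchar K.χ₀)).mem 1)]
    exact h
  have hunit : ∀ u, ¬ MemLocalIdeal M (F K.χ₀ u) :=
    (LV.of_isCharacter (hchar K.χ₀)).unit K.isPModular hord hunit1
  have hnum : ∀ u : K.P, u ≠ 1 → ¬ p ∣ K.num (Subgroup.zpowers u) := fun u hu h => by
    refine hunit u ?_
    rw [hFd K.χ₀ u hu]
    exact Block.memLocalIdeal_mul_left (Block.memLocalRing_of_isIntegral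
      ((K.d_isIntegral _ _).map (starRingEnd ℂ).toIntAlgHom))
      ((Block.memLocalIdeal_natCast_iff K.isPModular _).2 h)
  obtain ⟨g, hgLV, hgn, hgu, hgz⟩ := exists_signed K.isPModular K.commP hN K.num
    (fun V hV => K.exists_rat hV fun W hW => K.num_unit_of_cyclic hnum hW) hnum
  have hg0 : ∀ u, g u ≠ 0 := fun u h => hgu u (h ▸ dvd_zero _)
  have hgfam : ∀ u (j : (ZMod (p ^ K.lev))ˣ), g (u ^ (j : ZMod (p ^ K.lev)).val) = g u :=
    fun u j => hgz _ _ (zpowers_pow_unit K.pow_lev u (ZMod.val_coe_unit_coprime j))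
  have hgideal : ∀ u, ¬ MemLocalIdeal M (g u : ℂ) := fun u h =>
    hgu u ((Block.memLocalIdeal_intCast_iff K.isPModular _).1 h)
  -- the signs
  let s : K.P → ℤ := fun u => if g u = K.num (Subgroup.zpowers u) then 1 else -1
  have hs : ∀ u, s u = 1 ∨ s u = -1 := fun u => by simp only [s]; split_ifs <;> simp
  have hss : ∀ u v, Subgroup.zpowers u = Subgroup.zpowers v → s u = s v := fun u v h => by
    simp only [s, hgz u v h, h]
  have hgs : ∀ u, u ≠ 1 → (g u : ℂ) = (s u : ℂ) * (K.num (Subgroup.zpowers u) : ℂ) := by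
    intro u hu
    simp only [s]
    split_ifs with h
    · rw [h]; simp
    · rw [(hgn u hu).resolve_left h]; simp
  set f₀ : IrrCharacter G → K.P → ℂ := fun χ u => F χ u / (g u : ℂ) with hf₀
  have hf₀LV : ∀ χ, LV M (f₀ χ) := fun χ => (LV.of_isCharacter (hchar χ)).div hgLV hgideal
  have hf₀fam : ∀ χ, Fam p K.lev (f₀ χ) := fun χ =>
    (fam_of_isCharacter K.pow_lev (hchar χ)).div_int g hg0 hgfam
  have hf₀d : ∀ χ (u : K.P), u ≠ 1 → f₀ χ u = (s u : ℂ) * conj (K.d χ u) := by
    intro χ u hu
    have h2 : (s u : ℂ) * (s u : ℂ) = 1 := by exact_mod_cast sign_mul_self (hs u)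
    have hn0 : (K.num (Subgroup.zpowers u) : ℂ) ≠ 0 :=
      Nat.cast_ne_zero.2 fun h => hnum u hu (h ▸ dvd_zero p)
    show F χ u / (g u : ℂ) = _
    rw [hFd χ u hu, div_eq_iff (Int.cast_ne_zero.2 (hg0 u)), hgs u hu]
    linear_combination (-(conj (K.d χ u)) * (K.num (Subgroup.zpowers u) : ℂ)) * h2
  have hf₀u : ∀ u, ¬ MemLocalIdeal M (f₀ K.χ₀ u) := fun u h => hunit u (by
    have h2 := Block.memLocalIdeal_mul_left (hgLV.mem u) h
    rwa [show (g u : ℂ) * f₀ K.χ₀ u = F K.χ₀ u by
      show _ * (_ / _) = _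
      rw [mul_div_cancel₀ _ (Int.cast_ne_zero.2 (hg0 u))]] at h2)
  -- the quotients of signs are characters
  have hν : ∀ a : K.E, ∃ ν : IrrCharacter K.P,
      ∀ u, (ν : K.P → ℂ) u = ((s ((a : MulAut K.P) u) * s u : ℤ) : ℂ) := by
    intro a
    refine exists_irr_of_signs K.isPModular K.commP hN (fun u => ?_) ?_ (fun u j hj => ?_) ?_
    · rcases hs u with h | h <;> rcases hs ((a : MulAut K.P) u) with h' | h' <;> simp [h, h']
    · have h := ((hf₀LV K.χ₀).comp (a : MulAut K.P).toMonoidHom).div (hf₀LV K.χ₀) hf₀u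
      convert h using 1
      funext u
      show _ = f₀ K.χ₀ ((a : MulAut K.P) u) / f₀ K.χ₀ u
      rcases eq_or_ne u 1 with rfl | hu
      · rw [map_one, div_self fun h => hf₀u 1 (by rw [h]; exact Block.memLocalIdeal_zero), sign_mul_self (hs 1),
          Int.cast_one]
      · obtain ⟨t, ht, htu⟩ := K.exists_of_mem_E a
        have hd : K.d K.χ₀ ((a : MulAut K.P) u) = K.d K.χ₀ u :=
          K.d_conj K.χ₀ ht (htu u).symm
        have hd0 : conj (K.d K.χ₀ u) ≠ 0 :=
          (map_ne_zero (starRingEnd ℂ)).2 (K.d_ne_zero K.χ₀_mem hu)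
        have h2 : (s u : ℂ) * (s u : ℂ) = 1 := by exact_mod_cast sign_mul_self (hs u)
        rw [hf₀d _ _ hu, hf₀d _ _ (K.apply_ne_one a hu), hd, eq_div_iff (mul_ne_zero (by
          intro h0; rw [h0, zero_mul] at h2; exact zero_ne_one h2) hd0), Int.cast_mul]
        linear_combination ((s ((a : MulAut K.P) u) : ℂ) * conj (K.d K.χ₀ u)) * h2
    · have hz : Subgroup.zpowers (u ^ j) = Subgroup.zpowers u :=
        zpowers_pow_unit K.pow_lev u (hj.pow_right K.lev)
      rw [hss _ _ hz, hss _ _ (K.zpowers_apply a hz)]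
    · rw [map_one, sign_mul_self (hs 1)]
  choose ν hν using hν
  let t : K.P → ℤ := fun u => ∏ a : K.E, (s ((a : MulAut K.P) u) * s u)
  have ht : (fun u => (t u : ℂ)) = ∏ a : K.E, (ν a : K.P → ℂ) := by
    funext u
    simp only [t, Finset.prod_apply, Int.cast_prod, hν]
  have htLV : LV M (fun u => (t u : ℂ)) := ht ▸ LV.prod _ fun a _ => LV.of_irr (ν a)
  have htfam : Fam p K.lev (fun u => (t u : ℂ)) := by
    rw [ht]
    exact Finset.prod_induction _ (fun h => Fam p K.lev h) (fun _ _ => Fam.mul)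
      (by
        have h := fam_const (P := K.P) (p := p) (K := K.lev) 1
        rw [Int.cast_one] at h
        exact h)
      fun a _ => fam_of_isCharacter K.pow_lev (Char.isCharacter_of_irr (ν a).2)
  refine ⟨fun χ u => f₀ χ u * (t u : ℂ), fun u => s u * t u,
    fun χ => ⟨(hf₀LV χ).mul htLV, (hf₀fam χ).mul htfam⟩, fun u => ?_, fun a u hu => ?_,
    fun χ u hu => ?_⟩
  · have ht1 : t u = 1 ∨ t u = -1 := Finset.prod_induction _ (fun z => z = 1 ∨ z = -1)
      (fun x y hx hy => by rcases hx with rfl | rfl <;> rcases hy with rfl | rfl <;> simp)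
      (Or.inl rfl)
      fun a _ => by
        rcases hs u with h | h <;> rcases hs ((a : MulAut K.P) u) with h' | h' <;> simp [h, h']
    rcases hs u with h | h <;> rcases ht1 with h' | h' <;> simp [h, h']
  · by_cases he : Odd (Nat.card K.E)
    · have hS : ∀ v, s v * t v = ∏ b : K.E, s ((b : MulAut K.P) v) := by
        intro v
        simp only [t, Finset.prod_mul_distrib, Finset.prod_const, Finset.card_univ,
          ← Nat.card_eq_fintype_card]
        obtain ⟨l, hl⟩ := he
        rw [hl, pow_succ, pow_mul, sq, sign_mul_self (hs v), one_pow, one_mul, mul_left_comm,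
          sign_mul_self (hs v), mul_one]
      show s _ * t _ = s u * t u
      rw [hS, hS]
      exact Fintype.prod_equiv (Equiv.mulRight a) _ _ fun b => rfl
    · have hp2 : Odd p := by
        refine hp.out.odd_of_ne_two fun h2 => he ?_
        obtain ⟨m, -, hm, -⟩ := K.exists_elem_reps
        have hN0 : N ≠ 0 := fun h0 => by
          have := Finite.one_lt_card (α := K.P)
          rw [hN, h0, pow_zero] at this
          exact lt_irrefl _ this
        rw [hN] at hm
        have hev : Even (p ^ N) := Nat.even_pow.2 ⟨even_iff_two_dvd.2 (dvd_of_eq h2.symm), hN0⟩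
        rw [← hm, Nat.even_add_one, Nat.not_even_iff_odd] at hev
        exact (Nat.odd_mul.1 hev).2
      have hone : ∀ (b : K.E) (v : K.P), s ((b : MulAut K.P) v) * s v = 1 := by
        intro b v
        have hsgn : s ((b : MulAut K.P) v) * s v = 1 ∨ s ((b : MulAut K.P) v) * s v = -1 := by
          rcases hs v with h | h <;> rcases hs ((b : MulAut K.P) v) with h' | h' <;> simp [h, h']
        refine hsgn.resolve_right fun h => ?_
        have hlin : ∀ n : ℕ, (ν b : K.P → ℂ) (v ^ n) = (ν b : K.P → ℂ) v ^ n := by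
          intro n
          induction n with
          | zero => rw [pow_zero, pow_zero, CharInd.irr_one_of_comm K.commP (ν b).2]
          | succ n ih =>
            rw [pow_succ, BlocksChar.linear_mul (Char.isCharacter_of_irr (ν b).2)
              (CharInd.irr_one_of_comm K.commP (ν b).2), ih, pow_succ]
        have h1 := hlin (p ^ K.lev)
        rw [K.pow_lev, CharInd.irr_one_of_comm K.commP (ν b).2, hν b v, h] at h1
        push_cast at h1
        rw [(hp2.pow).neg_one_pow] at h1
        norm_num at h1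
      have ht1 : ∀ v, t v = 1 := fun v => Finset.prod_eq_one fun b _ => hone b v
      show s _ * t _ = s u * t u
      rw [ht1, ht1, mul_one, mul_one]
      have h := hone a u
      linear_combination (s u) * h - (s ((a : MulAut K.P) u)) * sign_mul_self (hs u)
  · show f₀ χ u * (t u : ℂ) = _
    rw [hf₀d χ u hu, Int.cast_mul]
    ring

end FreeData

end Cfsg.Agent.BrauerPairs.FreeAbelian
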