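import Cfsg.Agent.BrauerPairs.FreeAbelian.Combin
import Cfsg.Agent.BrauerPairs.FreeAbelian.Signed

/-!
The number of characters and of Brauer characters of a block with abelian defect group and freely
acting inertial quotient.
-/

set_option maxHeartbeats 400000
set_option linter.unusedSectionVars false
set_option linter.style.haveILetI false

namespace Cfsg.Agent.BrauerPairs.FreeAbelian

open MonoidAlgebra Cfsg
open Cfsg.Agent.BrauerPairs Cfsg.Agent.BrauerPairs.Nil
open scoped ComplexConjugate Classical

universe u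

variable {p : ℕ} [hp : Fact p.Prime] {M : Ideal AlgInt} [M.IsPrime] [CharP (Block.ResF M) p]
  {G : Type u} [Group G] [Fintype G]

namespace FreeData

variable (K : FreeData p M G)

theorem sum_block_eq (f : IrrCharacter G → ℂ) (hf : ∀ χ, χ ∉ K.B.1 → f χ = 0) :
    ∑ x : K.B.1, f x.1 = ∑ χ : IrrCharacter G, f χ := by
  rw [← K.sum_B f hf]
  exact (Finset.sum_subtype (Finset.univ.filter (· ∈ K.B.1)) (by simp) f).symm

theorem sum_block_filter (f : IrrCharacter G → ℂ) :
    ∑ x : K.B.1, f x.1 = ∑ χ ∈ Finset.univ.filter (· ∈ K.B.1), f χ :=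
  (Finset.sum_subtype (Finset.univ.filter (· ∈ K.B.1)) (by simp) f).symm

/-- The orthogonality of the columns. -/
theorem sum_col {u v : K.P} (hu : u ≠ 1) (hv : v ≠ 1) :
    ∑ x : K.B.1, K.d x.1 u * conj (K.d x.1 v) =
      if ∃ a : K.E, (a : MulAut K.P) u = v then (Nat.card K.P : ℂ) else 0 := by
  rw [K.sum_block_eq (fun χ => K.d χ u * conj (K.d χ v))
    fun χ hχ => by rw [K.d_eq_zero hχ hu, zero_mul]]
  split_ifs with h
  · obtain ⟨a, rfl⟩ := h
    obtain ⟨t, ht, htu⟩ := K.exists_of_mem_E a
    rw [← K.sum_d_self hu]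
    exact Finset.sum_congr rfl fun χ _ => by rw [K.d_conj χ ht (htu u).symm]
  · exact K.sum_d_orth hu hv fun ⟨t, ht, htu⟩ => h (K.exists_E_apply ht htu)

/-- The columns span the kernel of the restriction to the regular elements. -/
theorem card_eq_rank_add {m : ℕ} (r : Fin m → K.P) (hr : ∀ i, r i ≠ 1)
    (hsep : ∀ i j (a : K.E), (a : MulAut K.P) (r i) = r j → i = j ∧ a = 1)
    (hcov : ∀ u : K.P, u ≠ 1 → ∃ i, ∃ a : K.E, (a : MulAut K.P) (r i) = u) :
    Nat.card K.B.1 = blockRank p K.B.1 + m ∧ 0 < blockRank p K.B.1 := by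
  have hq : (Nat.card K.P : ℂ) ≠ 0 := Nat.cast_ne_zero.2 Nat.card_pos.ne'
  have horth : ∀ i j, ∑ x : K.B.1, conj (K.d x.1 (r i)) * K.d x.1 (r j) =
      if i = j then (Nat.card K.P : ℂ) else 0 := by
    intro i j
    simp only [mul_comm (conj _)]
    rw [K.sum_col (hr j) (hr i)]
    by_cases hij : i = j
    · subst hij
      rw [if_pos rfl, if_pos ⟨1, rfl⟩]
    · rw [if_neg hij, if_neg fun ⟨a, ha⟩ => hij (hsep j i a ha).1.symm]
  let A : (K.B.1 → ℂ) →ₗ[ℂ] (Fin m → ℂ) :=
    { toFun := fun v i => ∑ x : K.B.1, v x * K.d x.1 (r i)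
      map_add' := fun v w => funext fun i => by
        simp only [Pi.add_apply, add_mul, Finset.sum_add_distrib]
      map_smul' := fun c v => funext fun i => by
        simp only [Pi.smul_apply, smul_eq_mul, RingHom.id_apply, Finset.mul_sum, mul_assoc] }
  let C : (Fin m → ℂ) →ₗ[ℂ] (K.B.1 → ℂ) :=
    { toFun := fun w x => ∑ i, w i / (Nat.card K.P : ℂ) * conj (K.d x.1 (r i))
      map_add' := fun v w => funext fun x => by
        simp only [Pi.add_apply, add_div, add_mul, Finset.sum_add_distrib]
      map_smul' := fun c v => funext fun x => by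
        simp only [Pi.smul_apply, smul_eq_mul, RingHom.id_apply, Finset.mul_sum, mul_assoc,
          mul_div_assoc] }
  have hAC : ∀ w, A (C w) = w := by
    intro w
    funext j
    show ∑ x : K.B.1, (∑ i, w i / (Nat.card K.P : ℂ) * conj (K.d x.1 (r i))) * K.d x.1 (r j) = w j
    simp only [Finset.sum_mul, mul_assoc]
    rw [Finset.sum_comm]
    simp only [← Finset.mul_sum, horth]
    simp only [mul_ite, mul_zero, Finset.sum_ite_eq', Finset.mem_univ, if_true]
    rw [div_mul_cancel₀ _ hq]
  let Φ : (K.B.1 → ℂ) →ₗ[ℂ] (G → ℂ) :=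
    Fintype.linearCombination ℂ fun x : K.B.1 => pRegularPart p ((x.1 : IrrCharacter G) : G → ℂ)
  have hΦ : ∀ v g, Φ v g = if ¬ p ∣ orderOf g then
      ∑ x : K.B.1, v x * ((x.1 : IrrCharacter G) : G → ℂ) g else 0 := by
    intro v g
    simp only [Φ, Fintype.linearCombination_apply, Finset.sum_apply, Pi.smul_apply, smul_eq_mul,
      pRegularPart, IsPRegular]
    by_cases hg : p ∣ orderOf g <;> simp [hg]
  have hrange : blockRank p K.B.1 = Module.finrank ℂ (LinearMap.range Φ) := by
    rw [Fintype.range_linearCombination, blockRank]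
    have e : ((fun χ : IrrCharacter G => pRegularPart p (χ : G → ℂ)) '' K.B.1) =
        Set.range fun x : K.B.1 => pRegularPart p ((x.1 : IrrCharacter G) : G → ℂ) :=
      Set.image_eq_range _ _
    rw [e]
  -- the columns vanish on the regular elements
  have hCker : LinearMap.range C ≤ LinearMap.ker Φ := by
    rintro _ ⟨w, rfl⟩
    refine LinearMap.mem_ker.2 (funext fun g => ?_)
    rw [hΦ]
    split_ifs with hg
    · rfl
    have hzero : ∀ i, ∑ x : K.B.1, conj (K.d x.1 (r i)) * ((x.1 : IrrCharacter G) : G → ℂ) g = 0 := by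
      intro i
      have h := K.sum_d_eq_zero (fun χ => conj ((χ : G → ℂ) g)) (fun y hy => ?_) (hr i)
      · have h2 := congrArg conj h
        rw [map_sum, map_zero, ← K.sum_block_filter] at h2
        refine Eq.trans ?_ h2
        exact Finset.sum_congr rfl fun x _ => by rw [map_mul, Complex.conj_conj, mul_comm]
      · have h := Brauer.weakOrth_of_integral K.isPModular K.B.1
          (Block.blockCoeff_memLocalRing K.B.2) hg hy
        rw [finsum_mem_eq_toFinset_sum] at h
        have h2 := congrArg conj h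
        rw [map_sum, map_zero,
          show K.B.1.toFinset = Finset.univ.filter (· ∈ K.B.1) by ext; simp] at h2
        rw [← h2]
        exact Finset.sum_congr rfl fun χ _ => by rw [map_mul, Complex.conj_conj]
    show ∑ x : K.B.1, (∑ i, w i / (Nat.card K.P : ℂ) * conj (K.d x.1 (r i))) *
      ((x.1 : IrrCharacter G) : G → ℂ) g = 0
    simp only [Finset.sum_mul, mul_assoc]
    rw [Finset.sum_comm]
    simp only [← Finset.mul_sum, hzero, mul_zero, Finset.sum_const_zero]
  -- combinations orthogonal to the columns vanish on the singular elements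
  have hAker : ∀ v ∈ LinearMap.ker A, ∀ g : G, p ∣ orderOf g →
      ∑ x : K.B.1, v x * ((x.1 : IrrCharacter G) : G → ℂ) g = 0 := by
    intro v hv g hg
    let v' : IrrCharacter G → ℂ := fun χ => if h : χ ∈ K.B.1 then v ⟨χ, h⟩ else 0
    have hv' : ∀ x : K.B.1, v' x.1 = v x := fun x => dif_pos x.2
    have h := K.sum_eq_zero_of_d v' (fun u hu => ?_) g hg
    · rw [← K.sum_block_filter] at h
      simpa only [hv'] using h
    · obtain ⟨i, a, rfl⟩ := hcov u hu
      obtain ⟨t, ht, htu⟩ := K.exists_of_mem_E a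
      rw [← K.sum_block_filter]
      refine Eq.trans ?_ (congrFun (LinearMap.mem_ker.1 hv) i)
      exact Finset.sum_congr rfl fun x _ => by rw [hv', K.d_conj x.1 ht (htu (r i)).symm]
  have hAsurj : Function.Surjective A := fun w => ⟨C w, hAC w⟩
  have hdimA := LinearMap.finrank_range_add_finrank_ker A
  rw [LinearMap.range_eq_top.2 hAsurj, finrank_top, Module.finrank_fintype_fun_eq_card,
    Module.finrank_fintype_fun_eq_card, Fintype.card_fin] at hdimA
  have hdimΦ := LinearMap.finrank_range_add_finrank_ker Φ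
  rw [Module.finrank_fintype_fun_eq_card] at hdimΦ
  have hCm : Module.finrank ℂ (LinearMap.range C) = m := by
    rw [LinearMap.finrank_range_of_inj (Function.LeftInverse.injective hAC),
      Module.finrank_fintype_fun_eq_card, Fintype.card_fin]
  have hm_le : m ≤ Module.finrank ℂ (LinearMap.ker Φ) :=
    hCm.symm.le.trans (Submodule.finrank_mono hCker)
  -- a combination vanishing everywhere is zero
  have hinj : Function.Injective (Φ.domRestrict (LinearMap.ker A)) := by
    rw [injective_iff_map_eq_zero]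
    rintro ⟨v, hv⟩ h
    rw [LinearMap.domRestrict_apply] at h
    have hall : (fun g => ∑ x : K.B.1, v x * ((x.1 : IrrCharacter G) : G → ℂ) g) = 0 := by
      funext g
      by_cases hg : p ∣ orderOf g
      · exact hAker v hv g hg
      · have h2 := congrFun h g
        rw [hΦ, if_pos hg] at h2
        exact h2
    refine Subtype.ext (funext fun x => ?_)
    have e : (fun g => ∑ y : K.B.1, v y * ((y.1 : IrrCharacter G) : G → ℂ) g) =
        ∑ y : K.B.1, v y • ((y.1 : IrrCharacter G) : G → ℂ) := by
      funext g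
      simp [Finset.sum_apply]
    have h2 := congrArg (fun f => classInner f ((x.1 : IrrCharacter G) : G → ℂ)) (e ▸ hall)
    simp only [Char.classInner_sum_left, Char.classInner_smul_left] at h2
    rw [Finset.sum_eq_single x (fun y _ hy => by
        rw [Char.classInner_irr_ne y.1.2 x.1.2 fun h' => hy (Subtype.ext (Subtype.ext h')),
          mul_zero]) (by simp), Char.classInner_irr_self x.1.2, mul_one] at h2
    show v x = 0
    rw [h2]
    simp [classInner]
  have hle : Module.finrank ℂ (LinearMap.ker A) ≤ Module.finrank ℂ (LinearMap.range Φ) := by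
    rw [← LinearMap.finrank_range_of_inj hinj]
    exact Submodule.finrank_mono (LinearMap.range_comp_le_range _ _)
  have hpos : 0 < Module.finrank ℂ (LinearMap.range Φ) := by
    refine Module.finrank_pos_iff.2 ?_
    rw [Submodule.nontrivial_iff_ne_bot]
    intro h
    obtain ⟨χ, hχ⟩ := Block.pBlock_nonempty K.B.2
    have h2 : Φ (Pi.single ⟨χ, hχ⟩ 1) = 0 := by
      have h3 := LinearMap.mem_range_self Φ (Pi.single (⟨χ, hχ⟩ : K.B.1) 1)
      rwa [h, Submodule.mem_bot] at h3
    have h4 := congrFun h2 1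
    rw [hΦ, if_pos not_dvd_orderOf_one, Finset.sum_eq_single ⟨χ, hχ⟩
      (fun y _ hy => by rw [Pi.single_eq_of_ne hy, zero_mul]) (by simp), Pi.single_eq_same,
      one_mul] at h4
    exact Char.irr_one_ne_zero χ.2 h4
  rw [hrange, Nat.card_eq_fintype_card]
  exact ⟨by omega, hpos⟩

/-- The coefficients of the rows: an integer matrix with Gram matrix `1 + e J`. -/
theorem exists_matrix (hP : K.P ≠ ⊥) {m : ℕ} (r : Fin m → IrrCharacter K.P)
    (hr : ∀ i, ∃ u, (r i : K.P → ℂ) u ≠ 1)
    (hsep : ∀ i j (a : K.E), K.moveChar a (r i) = r j → i = j ∧ a = 1)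
    (hcov : ∀ η : IrrCharacter K.P, (∃ u, (η : K.P → ℂ) u ≠ 1) →
      ∃ i, ∃ a : K.E, K.moveChar a (r i) = η)
    (hm : m * Nat.card K.E + 1 = Nat.card K.P) :
    ∃ a : K.B.1 → Fin m → ℤ,
      (∀ i j, ∑ x, a x i * a x j = (if i = j then 1 else 0) + (Nat.card K.E : ℤ)) ∧
      ∀ x, ∃ i, a x i ≠ 0 := by
  haveI : Nontrivial K.P := (Subgroup.nontrivial_iff_ne_bot _).2 hP
  obtain ⟨N, hN⟩ := K.exists_card
  obtain ⟨f, s, hf, hs, hsE, hfd⟩ := K.exists_signed_rows hP
  set e := Nat.card K.E with he
  set q := Nat.card K.P with hqdef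
  have hpe : ¬ p ∣ e := fun h => by
    have hN0 : N ≠ 0 := fun h0 => by
      have := Finite.one_lt_card (α := K.P)
      rw [← hqdef, hN, h0, pow_zero] at this
      exact lt_irrefl _ this
    have h1 : p ∣ m * e := dvd_mul_of_dvd_right h m
    have h2 : p ∣ m * e + 1 := by rw [hm, hN]; exact dvd_pow_self p hN0
    exact hp.out.one_lt.ne' (Nat.dvd_one.1 ((Nat.dvd_add_right h1).1 h2))
  have he0 : (e : ℂ) ≠ 0 := Nat.cast_ne_zero.2 Nat.card_pos.ne'
  have hq0 : (q : ℂ) ≠ 0 := Nat.cast_ne_zero.2 Nat.card_pos.ne'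
  let μ : Fin m → K.P → ℂ := fun i u =>
    ∑ a : K.E, ((r i : K.P → ℂ) ((a : MulAut K.P) u) - 1)
  have hμ1 : ∀ i, μ i 1 = 0 := fun i => Finset.sum_eq_zero fun a _ => by
    rw [map_one, CharInd.irr_one_of_comm K.commP (r i).2, sub_self]
  have hμinv : ∀ i (b : K.E) u, μ i ((b : MulAut K.P) u) = μ i u := fun i b u =>
    Fintype.sum_equiv (Equiv.mulRight b) _ _ fun a => rfl
  have hμint : ∀ i u, IsIntegral ℤ (μ i u) := fun i u => IsIntegral.sum _ fun a _ =>
    (Char.isCharacter_isIntegral (Char.isCharacter_of_irr (r i).2) _).sub isIntegral_one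
  have hirr : ∀ i (a : K.E), (fun u => (r i : K.P → ℂ) ((a : MulAut K.P) u)) =
      (K.moveChar a⁻¹ (r i) : K.P → ℂ) := fun i a => funext fun u => by
    show _ = (r i : K.P → ℂ) _
    simp
  have hμLV : ∀ i, LV M (μ i) := fun i => by
    have e1 : μ i = ∑ a : K.E, ((fun u => (r i : K.P → ℂ) ((a : MulAut K.P) u)) +
        -(fun _ => (1 : ℂ))) := by
      funext u
      simp [μ, sub_eq_add_neg]
    rw [e1]
    refine LV.sum _ fun a _ => ?_
    have h1 : LV M (fun u => (r i : K.P → ℂ) ((a : MulAut K.P) u)) := by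
      rw [hirr]
      exact LV.of_irr _
    have h2 := (LV.const (M := M) (P := K.P) (c := 1) (Block.localRing M).one_mem).neg
    refine ⟨fun x y => ?_, fun η => ?_⟩
    · simp only [Pi.add_apply, Pi.neg_apply, h1.1 x y]
    · rw [Char.classInner_add_left]
      exact (Block.localRing M).add_mem (h1.2 η) (h2.2 η)
  have hμfam : ∀ i, Fam p K.lev (μ i) := fun i =>
    Fam.sum _ fun a _ => by
      have h1 : Fam p K.lev (fun u => (r i : K.P → ℂ) ((a : MulAut K.P) u)) :=
        (fam_of_isCharacter K.pow_lev (Char.isCharacter_of_irr (r i).2)).comp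
          (a : MulAut K.P).toMonoidHom
      have h2 := Fam.sum (Finset.univ : Finset Bool)
        (F := fun b u => if b then (r i : K.P → ℂ) ((a : MulAut K.P) u) else ((-1 : ℤ) : ℂ))
        (fun b _ => by
          cases b
          · simpa using fam_const (P := K.P) (p := p) (K := K.lev) (-1)
          · simpa using h1)
      simpa [sub_eq_add_neg] using h2
  -- the coefficients
  have hrow : ∀ χ i u, u ≠ 1 → μ i u * f χ u = μ i u * ((s u : ℂ) * conj (K.d χ u)) :=
    fun χ i u hu => by rw [hfd χ u hu]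
  obtain ⟨mE, R, hmE, hR1, hRsep, hRcov⟩ := K.exists_elem_reps
  have hbij : Function.Bijective (fun z : Fin mE × K.E =>
      (⟨(z.2 : MulAut K.P) (R z.1), K.apply_ne_one z.2 (hR1 z.1)⟩ : {u : K.P // u ≠ 1})) := by
    refine ⟨fun ⟨i, a⟩ ⟨j, b⟩ h => ?_, fun ⟨u, hu⟩ => ?_⟩
    · simp only [Subtype.mk.injEq] at h
      have h' : ((b⁻¹ * a : K.E) : MulAut K.P) (R i) = R j := by
        show ((b : MulAut K.P)⁻¹) ((a : MulAut K.P) (R i)) = R j
        rw [h]
        exact (b : MulAut K.P).symm_apply_apply _
      obtain ⟨rfl, hba⟩ := hRsep _ _ _ h'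
      rw [inv_mul_eq_one] at hba
      rw [hba]
    · obtain ⟨i, a, h⟩ := hRcov u hu
      exact ⟨(i, a), Subtype.ext h⟩
  have horbit : ∀ (h : K.P → ℂ), h 1 = 0 →
      (∀ (a : K.E) u, u ≠ 1 → h ((a : MulAut K.P) u) = h u) →
      ∑ u, h u = (e : ℂ) * ∑ i, h (R i) := by
    intro h h1 hinv
    rw [← Finset.sum_erase Finset.univ (a := (1 : K.P)) h1,
      Finset.sum_subtype (Finset.univ.erase (1 : K.P)) (p := fun u : K.P => u ≠ 1) (by simp) h,
      ← hbij.sum_comp, Fintype.sum_prod_type, Finset.mul_sum]
    refine Finset.sum_congr rfl fun i _ => ?_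
    rw [Finset.sum_congr rfl fun a _ => hinv a (R i) (hR1 i), Finset.sum_const, Finset.card_univ,
      nsmul_eq_mul, he, Nat.card_eq_fintype_card]
  have hprod : ∀ χ i, (∀ (a : K.E) u, u ≠ 1 →
      μ i ((a : MulAut K.P) u) * f χ ((a : MulAut K.P) u) = μ i u * f χ u) := by
    intro χ i a u hu
    obtain ⟨t, ht, htu⟩ := K.exists_of_mem_E a
    rw [hμinv, hfd χ _ (K.apply_ne_one a hu), hsE a u hu, K.d_conj χ ht (htu u).symm, hfd χ u hu]
  have hex : ∀ (χ : IrrCharacter G) i, ∃ z : ℤ,
      ∑ u, μ i u * f χ u = (e : ℂ) * (q : ℂ) * z := by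
    intro χ i
    refine exists_int_of_mean K.isPModular hN K.card_dvd ((hμLV i).mul (hf χ).1)
      ((hμfam i).mul (hf χ).2) hpe ?_
    simp only [Pi.mul_apply]
    rw [horbit (fun u => μ i u * f χ u) (by rw [hμ1, zero_mul]) (hprod χ i),
      mul_div_cancel_left₀ _ he0]
    refine IsIntegral.sum _ fun l _ => (hμint i _).mul ?_
    rw [hfd χ _ (hR1 l)]
    exact (isIntegral_algebraMap (R := ℤ) (x := s (R l))).mul
      ((K.d_isIntegral _ _).map (starRingEnd ℂ).toIntAlgHom)
  choose c hc using hex
  refine ⟨fun x i => c x.1 i, fun i j => ?_, fun x => ?_⟩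
  · -- the Gram matrix
    have hinner : classInner (μ i) (μ j) =
        (e : ℂ) * ((if i = j then 1 else 0) + (e : ℂ)) := by
      have hone : IsIrrCharacter K.P (fun _ => (1 : ℂ)) := by
        have h := CharInd.irr_of_linHom (1 : K.P →* ℂˣ)
        simpa using h
      let one : IrrCharacter K.P := ⟨_, hone⟩
      have hne : ∀ k (a : K.E), K.moveChar a (r k) ≠ one := by
        intro k a h
        obtain ⟨u, hu⟩ := hr k
        apply hu
        rw [← K.moveChar_apply a (r k) u, h]
      let S : Fin m → (K.P → ℂ) := fun k =>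
        ∑ a : K.E, ((K.moveChar a (r k) : K.P → ℂ) + (-1 : ℂ) • (one : K.P → ℂ))
      have hS : ∀ k, μ k = S k := fun k => by
        funext u
        simp only [μ, S, Finset.sum_apply, Pi.add_apply, Pi.smul_apply, smul_eq_mul]
        refine Fintype.sum_equiv (Equiv.inv K.E) _ _ fun a => ?_
        rw [show (Equiv.inv K.E) a = a⁻¹ from rfl, ← congrFun (hirr k a) u]
        show _ = _ + -1 * (1 : ℂ)
        ring
      have hpair : ∀ a b : K.E, classInner
          ((K.moveChar a (r i) : K.P → ℂ) + (-1 : ℂ) • (one : K.P → ℂ))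
          ((K.moveChar b (r j) : K.P → ℂ) + (-1 : ℂ) • (one : K.P → ℂ)) =
          (if i = j ∧ a = b then 1 else 0) + 1 := by
        intro a b
        rw [Char.classInner_add_left, Char.classInner_add_right, Char.classInner_add_right,
          Char.classInner_smul_left, Char.classInner_smul_left, Char.classInner_smul_right,
          Char.classInner_smul_right, Char.classInner_irr_self one.2,
          Char.classInner_irr_ne (K.moveChar a (r i)).2 one.2
            (fun h => hne i a (Subtype.ext h)),
          Char.classInner_irr_ne one.2 (K.moveChar b (r j)).2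
            (fun h => hne j b (Subtype.ext h.symm))]
        by_cases hab : K.moveChar a (r i) = K.moveChar b (r j)
        · have h' : K.moveChar (b⁻¹ * a) (r i) = r j := by
            refine Subtype.ext (funext fun u => ?_)
            have h2 := congrFun (congrArg Subtype.val hab) ((b : MulAut K.P) u)
            rw [K.moveChar_apply] at h2
            rw [← h2]
            show (r i : K.P → ℂ) _ = (r i : K.P → ℂ) _
            simp
          obtain ⟨hij, hba⟩ := hsep _ _ _ h'
          rw [inv_mul_eq_one] at hba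
          rw [hab, Char.classInner_irr_self (K.moveChar b (r j)).2, if_pos ⟨hij, hba.symm⟩]
          simp
        · rw [Char.classInner_irr_ne (K.moveChar a (r i)).2 (K.moveChar b (r j)).2
            (fun h => hab (Subtype.ext h)), if_neg (fun ⟨h1, h2⟩ => hab (by rw [h1, h2]))]
          simp
      rw [hS, hS, Char.classInner_sum_left, Finset.sum_congr rfl fun a _ => by
        rw [Char.classInner_sum_right, Finset.sum_congr rfl fun b _ => hpair a b,
          Finset.sum_add_distrib, Finset.sum_const, Finset.card_univ, nsmul_one,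
          ← Nat.card_eq_fintype_card, ← he]]
      by_cases hij : i = j
      · simp only [hij, true_and, Finset.sum_ite_eq, Finset.mem_univ, if_true]
        rw [Finset.sum_const, Finset.card_univ, ← Nat.card_eq_fintype_card, ← he, nsmul_eq_mul]
      · simp only [hij, false_and, if_false, Finset.sum_const_zero, zero_add]
        rw [Finset.sum_const, Finset.card_univ, ← Nat.card_eq_fintype_card, ← he, nsmul_eq_mul]
    have hgram : ((e : ℂ) * q) * ((e : ℂ) * q) *
        ∑ x : K.B.1, (c x.1 i : ℂ) * (c x.1 j : ℂ) =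
        (e : ℂ) * q * ((q : ℂ) * classInner (μ i) (μ j)) := by
      have hreal : ∀ χ, (e : ℂ) * (q : ℂ) * (c χ j : ℂ) = ∑ v, conj (μ j v * f χ v) := fun χ => by
        rw [← map_sum, hc, map_mul, map_mul, map_natCast, map_natCast, map_intCast]
      calc ((e : ℂ) * q) * ((e : ℂ) * q) * ∑ x : K.B.1, (c x.1 i : ℂ) * (c x.1 j : ℂ)
          = ∑ x : K.B.1, (∑ u, μ i u * f x.1 u) * ∑ v, conj (μ j v * f x.1 v) := by
            rw [Finset.mul_sum]
            refine Finset.sum_congr rfl fun x _ => ?_
            rw [← hreal, hc]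
            ring
        _ = ∑ u, ∑ v, ∑ x : K.B.1, μ i u * f x.1 u * conj (μ j v * f x.1 v) := by
            simp only [Finset.sum_mul_sum]
            rw [Finset.sum_comm]
            exact Finset.sum_congr rfl fun u _ => Finset.sum_comm
        _ = ∑ u, (q : ℂ) * ((e : ℂ) * (μ i u * conj (μ j u))) := by
            refine Finset.sum_congr rfl fun u _ => ?_
            rcases eq_or_ne u 1 with rfl | hu
            · simp [hμ1]
            have hterm : ∀ v, ∑ x : K.B.1, μ i u * f x.1 u * conj (μ j v * f x.1 v) =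
                if ∃ a : K.E, (a : MulAut K.P) u = v then (q : ℂ) * (μ i u * conj (μ j u)) else 0 := by
              intro v
              rcases eq_or_ne v 1 with rfl | hv
              · rw [if_neg fun ⟨a, ha⟩ => K.apply_ne_one a hu ha]
                simp [hμ1]
              have e1 : ∀ x : K.B.1, μ i u * f x.1 u * conj (μ j v * f x.1 v) =
                  μ i u * conj (μ j v) * ((s u : ℂ) * (s v : ℂ)) *
                    (K.d x.1 v * conj (K.d x.1 u)) := fun x => by
                rw [hfd _ u hu, hfd _ v hv, map_mul, map_mul, Complex.conj_conj, map_intCast]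
                ring
              simp only [e1, ← Finset.mul_sum, K.sum_col hv hu]
              by_cases hex : ∃ a : K.E, (a : MulAut K.P) u = v
              · rw [if_pos hex]
                obtain ⟨a, rfl⟩ := hex
                have h2 : (s u : ℂ) * (s u : ℂ) = 1 := by exact_mod_cast sign_mul_self (hs u)
                rw [if_pos ⟨a⁻¹, by simp⟩, hμinv, hsE a u hu, h2, ← hqdef]
                ring
              · rw [if_neg hex, if_neg fun ⟨a, ha⟩ => hex ⟨a⁻¹, by rw [← ha]; simp⟩, mul_zero]
            simp only [hterm]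
            have hcard : (Finset.univ.filter fun v => ∃ a : K.E, (a : MulAut K.P) u = v).card = e := by
              rw [show (Finset.univ.filter fun v => ∃ a : K.E, (a : MulAut K.P) u = v) =
                  Finset.univ.image (fun a : K.E => (a : MulAut K.P) u) by ext v; simp,
                Finset.card_image_of_injective _ fun a b hab => ?_, Finset.card_univ, he,
                Nat.card_eq_fintype_card]
              have h' : ((b⁻¹ * a : K.E) : MulAut K.P) u = u := by
                show ((b : MulAut K.P)⁻¹) ((a : MulAut K.P) u) = u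
                rw [show (a : MulAut K.P) u = (b : MulAut K.P) u from hab]
                exact (b : MulAut K.P).symm_apply_apply _
              exact (inv_mul_eq_one.1 (K.E_free hu h')).symm
            rw [← Finset.sum_filter, Finset.sum_const, hcard, nsmul_eq_mul]
            ring
        _ = (e : ℂ) * q * ((q : ℂ) * classInner (μ i) (μ j)) := by
            rw [classInner, ← hqdef, mul_inv_cancel_left₀ hq0, Finset.mul_sum]
            exact Finset.sum_congr rfl fun u _ => by ring
    rw [hinner] at hgram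
    have h3 : ∑ x : K.B.1, (c x.1 i : ℂ) * (c x.1 j : ℂ) =
        (if i = j then 1 else 0) + (e : ℂ) := by
      refine mul_left_cancel₀ (mul_ne_zero (mul_ne_zero he0 hq0) (mul_ne_zero he0 hq0))
        (hgram.trans ?_)
      ring
    have h4 : ((∑ x : K.B.1, c x.1 i * c x.1 j : ℤ) : ℂ) =
        (((if i = j then 1 else 0) + (e : ℤ) : ℤ) : ℂ) := by
      push_cast
      rw [h3]
    exact Int.cast_injective h4
  · -- every row is seen
    by_contra hall
    push Not at hall
    let h : K.P → ℂ := fun u => if u = 1 then 0 else f x.1 u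
    have hμh : ∀ i, ∑ u, μ i u * h u = 0 := fun i => by
      rw [show ∑ u, μ i u * h u = ∑ u, μ i u * f x.1 u from Finset.sum_congr rfl fun u _ => by
        rcases eq_or_ne u 1 with rfl | hu
        · simp [hμ1]
        · simp [h, hu], hc x.1 i, hall i]
      simp
    have hhE : ∀ (a : K.E) u, h ((a : MulAut K.P) u) = h u := by
      intro a u
      rcases eq_or_ne u 1 with rfl | hu
      · rw [map_one]
      · obtain ⟨t, ht, htu⟩ := K.exists_of_mem_E a
        simp only [h, if_neg hu, if_neg (K.apply_ne_one a hu)]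
        rw [hfd _ _ (K.apply_ne_one a hu), hfd _ _ hu, hsE a u hu, K.d_conj x.1 ht (htu u).symm]
    have hsame : ∀ η : IrrCharacter K.P, ∑ u, ((η : K.P → ℂ) u - 1) * h u = 0 := by
      intro η
      by_cases hη : ∃ u, (η : K.P → ℂ) u ≠ 1
      · obtain ⟨i, a, rfl⟩ := hcov η hη
        have h1 : ∀ b : K.E, ∑ u, ((r i : K.P → ℂ) ((b : MulAut K.P) u) - 1) * h u =
            ∑ u, ((r i : K.P → ℂ) u - 1) * h u := fun b =>
          Fintype.sum_equiv (b : MulAut K.P).toEquiv _ _ fun u => by
            show _ = ((r i : K.P → ℂ) ((b : MulAut K.P) u) - 1) * h ((b : MulAut K.P) u)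
            rw [hhE]
        have h2 : (e : ℂ) * ∑ u, ((r i : K.P → ℂ) u - 1) * h u = 0 := by
          rw [he, Nat.card_eq_fintype_card, ← nsmul_eq_mul, ← Finset.card_univ,
            ← Finset.sum_const, ← Finset.sum_congr rfl (fun b _ => h1 b), Finset.sum_comm]
          refine Eq.trans (Finset.sum_congr rfl fun u _ => ?_) (hμh i)
          rw [← Finset.sum_mul]
        rw [← (mul_eq_zero.1 h2).resolve_left he0, ← h1 a⁻¹]
        rfl
      · push Not at hη
        exact Finset.sum_eq_zero fun u _ => by rw [hη u, sub_self, zero_mul]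
    obtain ⟨v, hv⟩ := exists_ne (1 : K.P)
    have hzero : h v = 0 := by
      have h1 : ∑ u, h u * ∑ η : IrrCharacter K.P, (η : K.P → ℂ) u * conj ((η : K.P → ℂ) v) =
          (∑ u, h u) * ∑ η : IrrCharacter K.P, (1 : ℂ) * conj ((η : K.P → ℂ) v) := by
        simp only [Finset.mul_sum]
        rw [Finset.sum_comm]
        refine Finset.sum_congr rfl fun η _ => ?_
        rw [← sub_eq_zero, Finset.sum_mul, ← Finset.sum_sub_distrib]
        refine Eq.trans ?_ (mul_eq_zero_of_left (hsame η) (conj ((η : K.P → ℂ) v)))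
        rw [Finset.sum_mul]
        exact Finset.sum_congr rfl fun u _ => by ring
      have hone : ∑ η : IrrCharacter K.P, (1 : ℂ) * conj ((η : K.P → ℂ) v) = 0 := by
        have h2 := Char.sum_irr_mul_conj (1 : K.P) v
        rw [if_neg fun hcj => hv (isConj_one_right.1 hcj)] at h2
        refine Eq.trans (Finset.sum_congr rfl fun η _ => ?_) h2
        rw [CharInd.irr_one_of_comm K.commP η.2]
      rw [hone, mul_zero, Finset.sum_eq_single v (fun u _ hu => by
          rw [Char.sum_irr_mul_conj, if_neg (fun hcj => hu (by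
            obtain ⟨w, hw⟩ := isConj_iff.1 hcj
            rw [← hw, K.commP w, mul_inv_cancel_right])), mul_zero])
          (by simp), Char.sum_irr_mul_conj, if_pos (IsConj.refl v)] at h1
      exact (mul_eq_zero.1 h1).resolve_right (Nat.cast_ne_zero.2 Nat.card_pos.ne')
    simp only [h, if_neg hv] at hzero
    rw [hfd _ _ hv] at hzero
    rcases mul_eq_zero.1 hzero with h0 | h0
    · rcases hs v with h' | h' <;> simp [h'] at h0
    · exact K.d_ne_zero x.2 hv ((map_eq_zero _).1 h0)

/-- The counts. -/
theorem exists_counts (hP : K.P ≠ ⊥) : ∃ m : ℕ, 0 < m ∧ m * Nat.card K.E + 1 = Nat.card K.P ∧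
    Nat.card K.B.1 ≤ m + Nat.card K.E ∧ Nat.card K.B.1 = blockRank p K.B.1 + m ∧
    (Nat.card K.E ≤ 3 → Nat.card K.B.1 = m + Nat.card K.E ∨
      (3 ≤ m ∧ m ≤ Nat.card K.E + 1 ∧ Nat.card K.B.1 = Nat.card K.E + 2)) := by
  haveI : Nontrivial K.P := (Subgroup.nontrivial_iff_ne_bot _).2 hP
  obtain ⟨m, r, hm, hr, hsep, hcov⟩ := K.exists_char_reps
  obtain ⟨m', R, hm', hR1, hRsep, hRcov⟩ := K.exists_elem_reps
  obtain rfl : m' = m := Nat.eq_of_mul_eq_mul_right (Nat.card_pos (α := K.E)) (by omega)
  obtain ⟨hk, hl⟩ := K.card_eq_rank_add R hR1 hRsep hRcov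
  obtain ⟨a, hG, hne⟩ := K.exists_matrix hP r hr hsep hcov hm
  have hm0 : 0 < m' := Nat.pos_of_ne_zero fun h => by
    have := Finite.one_lt_card (α := K.P)
    rw [h, zero_mul] at hm
    omega
  haveI : Nonempty (Fin m') := ⟨⟨0, hm0⟩⟩
  have hG' : ∀ i j, ∑ x, a x i * a x j =
      (@ite ℤ (i = j) (Classical.propDecidable _) 1 0) + (Nat.card K.E : ℤ) := fun i j => by
    rw [hG i j]
    congr!
  have hkle := card_le hG' hne
  rw [← Nat.card_eq_fintype_card, Fintype.card_fin] at hkle
  refine ⟨m', hm0, hm, hkle, hk, fun he => ?_⟩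
  have h := card_eq_or hG' hne he (by rw [Fintype.card_fin, ← Nat.card_eq_fintype_card]; omega)
  rwa [← Nat.card_eq_fintype_card, Fintype.card_fin] at h

end FreeData

end Cfsg.Agent.BrauerPairs.FreeAbelian
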