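import Cfsg.Agent.BrauerPairs.Nil.Main
import Cfsg.Agent.BrauerPairs.AbelianLocal
import Cfsg.Agent.BlockCount.LiftPhi
import Cfsg.Agent.BlkChar.ContribBounds

/-!
A block with abelian defect group whose inertial quotient acts freely: the local blocks, their
Brauer characters and the parts of characters on them.
-/

set_option maxHeartbeats 400000
set_option linter.unusedSectionVars false
set_option linter.style.haveILetI false

namespace Cfsg.Agent.BrauerPairs.FreeAbelian

open MonoidAlgebra Cfsg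
open Cfsg.Agent.BrauerPairs Cfsg.Agent.BrauerPairs.Nil
open Cfsg.Agent.BlkChar.Contrib
open scoped ComplexConjugate Classical

universe u

variable {p : ℕ} [hp : Fact p.Prime] {M : Ideal AlgInt} [M.IsPrime] [CharP (Block.ResF M) p]
  {G : Type u} [Group G] [Fintype G]

/-- A block with abelian defect group and freely acting inertial quotient. -/
structure FreeData (p : ℕ) (M : Ideal AlgInt) (G : Type u) [Group G] [Fintype G] [M.IsPrime]
    [Fact p.Prime] [CharP (Block.ResF M) p] where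
  /-- The block. -/
  B : Blk M G
  /-- The defect group. -/
  P : Subgroup G
  /-- The block of its centralizer. -/
  c : Blk M (Subgroup.centralizer (P : Set G))
  isPModular : IsPModular p M
  isMax : IsMaximalBrauerPair p M B.1 P c.1
  comm : ∀ x ∈ P, ∀ y ∈ P, x * y = y * x
  free : ∀ t ∈ stab (⟨P, c⟩ : PairIdx M G), ∀ x ∈ P, x ≠ 1 → t * x * t⁻¹ = x →
    t ∈ Subgroup.centralizer (P : Set G)

namespace FreeData

variable (K : FreeData p M G)

theorem maxPair : MaxPair (blockSysTop M) (pairSys M G) p K.B ⟨K.P, K.c⟩ := maxPair_of K.isMax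

theorem isPGroup : IsPGroup p K.P := K.isMax.1.1.1

theorem commP : ∀ a b : K.P, a * b = b * a := fun a b => Subtype.ext (K.comm a a.2 b b.2)

theorem exists_orderOf (u : K.P) : ∃ i, orderOf (u : G) = p ^ i := by
  obtain ⟨i, hi⟩ := (IsPGroup.iff_orderOf.1 K.isPGroup) u
  exact ⟨i, by rwa [Subgroup.orderOf_coe]⟩

theorem exists_card : ∃ n, Nat.card K.P = p ^ n := IsPGroup.iff_card.1 K.isPGroup

/-- The exponent bound. -/
noncomputable def lev : ℕ := K.exists_card.choose + 1

theorem card_dvd : Nat.card K.P ∣ p ^ K.lev := by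
  rw [K.exists_card.choose_spec]
  exact pow_dvd_pow p (Nat.le_succ _)

theorem pow_lev (u : K.P) : u ^ p ^ K.lev = 1 :=
  orderOf_dvd_iff_pow_eq_one.1 ((orderOf_dvd_natCard u).trans K.card_dvd)

/-- A subgroup of the defect group, seen in the group. -/
abbrev emb (W : Subgroup K.P) : Subgroup G := W.map K.P.subtype

theorem emb_le (W : Subgroup K.P) : K.emb W ≤ K.P := Subgroup.map_subtype_le W

theorem emb_zpowers (u : K.P) : K.emb (Subgroup.zpowers u) = Subgroup.zpowers (u : G) :=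
  MonoidHom.map_zpowers _ _

theorem emb_ne_bot {W : Subgroup K.P} (h : W ≠ ⊥) : K.emb W ≠ ⊥ := fun h0 =>
  h ((Subgroup.map_eq_bot_iff_of_injective W K.P.subtype_injective).1 h0)

theorem mem_emb {W : Subgroup K.P} {u : K.P} (h : u ∈ W) : (u : G) ∈ K.emb W := ⟨u, h, rfl⟩

/-- The centralizer of a subgroup of the defect group. -/
abbrev cen (W : Subgroup K.P) : Subgroup G := Subgroup.centralizer (K.emb W : Set G)

theorem le_cen (W : Subgroup K.P) : K.P ≤ K.cen W := le_centralizer_of_abelian K.comm (K.emb_le W)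

theorem centralizer_le_cen (W : Subgroup K.P) :
    Subgroup.centralizer (K.P : Set G) ≤ K.cen W := centralizer_anti (K.emb_le W)

/-- The block of the subpair. -/
noncomputable def blk (W : Subgroup K.P) : Blk M (K.cen W) :=
  (existsUnique_sle (S := pairSys M G) (b := ⟨K.P, K.c⟩) K.isPGroup (K.emb_le W)).exists.choose

/-- The subpair. -/
noncomputable abbrev pairW (W : Subgroup K.P) : PairIdx M G := ⟨K.emb W, K.blk W⟩

theorem sle (W : Subgroup K.P) : SLE (pairSys M G) p (K.pairW W) ⟨K.P, K.c⟩ :=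
  (existsUnique_sle (S := pairSys M G) (b := ⟨K.P, K.c⟩)
    K.isPGroup (K.emb_le W)).exists.choose_spec

theorem eq_pairW {a : PairIdx M G} {W : Subgroup K.P}
    (ha : SLE (pairSys M G) p a ⟨K.P, K.c⟩) (h : a.1 = K.emb W) : a = K.pairW W := by
  obtain ⟨Q, f⟩ := a
  obtain rfl : Q = K.emb W := h
  rw [show f = K.blk W from
    (existsUnique_sle (S := pairSys M G) (b := ⟨K.P, K.c⟩) K.isPGroup ha.le).unique ha (K.sle W)]

theorem pair_block (u : K.P) :
    ∃ f : Blk M (Subgroup.centralizer (Subgroup.zpowers (u : G) : Set G)),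
      K.pairW (Subgroup.zpowers u) = ⟨Subgroup.zpowers (u : G), f⟩ := by
  obtain ⟨f, hf, -⟩ := existsUnique_sle (S := pairSys M G) (b := (⟨K.P, K.c⟩ : PairIdx M G))
    K.isPGroup (Subgroup.zpowers_le.2 u.2)
  exact ⟨f, (K.eq_pairW hf (K.emb_zpowers u).symm).symm⟩

theorem pairOf (W : Subgroup K.P) : PairOf (blockSysTop M) (pairSys M G) p K.B (K.pairW W) :=
  (K.sle W).pairOf_iff.1 K.maxPair.1

theorem nsub (W : Subgroup K.P) : NSub (pairSys M G) p (K.pairW W) ⟨K.P, K.c⟩ :=
  nsub_of_sle_of_le_normalizer K.isPGroup (K.sle W)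
    ((K.le_cen W).trans (Subgroup.centralizer_le_normalizer _))

theorem nilpotent_blk {W : Subgroup K.P} (hW : W ≠ ⊥) : IsNilpotentBlock p M (K.blk W).1 := by
  rw [isNilpotentBlock_local_iff K.isMax K.comm (K.nsub W)]
  rintro t ⟨ht, htW⟩
  obtain ⟨x, hx, hx1⟩ := W.bot_or_exists_ne_one.resolve_left hW
  refine K.free t ht x x.2 (fun h => hx1 (Subtype.ext h)) ?_
  rw [← Subgroup.mem_centralizer_iff.1 htW _ (K.mem_emb hx), mul_inv_cancel_right]

theorem exists_loc {W : Subgroup K.P} (hW : W ≠ ⊥) : ∃ D : NilData p M (K.cen W),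
    D.B = K.blk W ∧ Lifts (K.cen W) ⟨D.P, D.e⟩ ⟨K.P, K.c⟩ := by
  obtain ⟨a', ha', hmax⟩ := BlockCount.exists_local_maxPair K.isMax K.comm (K.nsub W)
  exact ⟨⟨K.blk W, a'.1, a'.2, K.isPModular, hmax, K.nilpotent_blk hW⟩, rfl, ha'⟩

/-- A character of height zero of the local block. -/
noncomputable def θ (W : Subgroup K.P) : IrrCharacter (K.cen W) :=
  (BlockVal.exists_height_zero (p := p) (Block.pBlock_nonempty (K.blk W).2)).choose

theorem θ_mem (W : Subgroup K.P) : K.θ W ∈ (K.blk W).1 :=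
  (BlockVal.exists_height_zero (p := p) (Block.pBlock_nonempty (K.blk W).2)).choose_spec.1

theorem θ_height (W : Subgroup K.P) :
    blockHeight p (K.blk W).1 (K.θ W : K.cen W → ℂ) = 0 :=
  (BlockVal.exists_height_zero (p := p) (Block.pBlock_nonempty (K.blk W).2)).choose_spec.2

theorem exists_mult {W : Subgroup K.P} (hW : W ≠ ⊥) {η : IrrCharacter (K.cen W)}
    (hη : η ∈ (K.blk W).1) : ∃ m : ℕ, ∀ y : K.cen W, ¬ p ∣ orderOf y →
      (η : K.cen W → ℂ) y = (m : ℂ) * (K.θ W : K.cen W → ℂ) y := by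
  obtain ⟨D, hD, -⟩ := K.exists_loc hW
  obtain ⟨Φ, hΦ⟩ := D.exists_equiv (χ := K.θ W) (hD.symm ▸ K.θ_mem W)
    (hD.symm ▸ K.θ_height W)
  exact ⟨_, hΦ ⟨η, hD.symm ▸ hη⟩⟩

theorem card_lifted {W : Subgroup K.P} {D : NilData p M (K.cen W)}
    (hD : Lifts (K.cen W) ⟨D.P, D.e⟩ ⟨K.P, K.c⟩) : Nat.card D.P = Nat.card K.P := by
  have h : D.P.map (K.cen W).subtype = K.P := hD.1
  rw [← h, Subgroup.card_map_of_injective (K.cen W).subtype_injective]

theorem regSum_θ {W : Subgroup K.P} (hW : W ≠ ⊥) :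
    Brauer.regSum p (K.θ W : K.cen W → ℂ) (K.θ W : K.cen W → ℂ) =
      (Nat.card (K.cen W) : ℂ) / (Nat.card K.P : ℂ) := by
  obtain ⟨D, hD, hl⟩ := K.exists_loc hW
  have hθ : K.θ W ∈ D.B.1 := hD.symm ▸ K.θ_mem W
  have h := D.A_self_eq_one hθ (hD.symm ▸ K.θ_height W) 1
  rw [D.A_central 1 (by simp) hθ hθ, K.card_lifted hl] at h
  simp only [OneMemClass.coe_one, one_mul] at h
  have hP : (Nat.card K.P : ℂ) ≠ 0 := Nat.cast_ne_zero.2 Nat.card_pos.ne'
  have hC : (Nat.card (K.cen W) : ℂ) ≠ 0 := Nat.cast_ne_zero.2 Nat.card_pos.ne'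
  rw [div_mul_eq_mul_div, div_eq_one_iff_eq hC] at h
  rw [eq_div_iff hP, mul_comm, h]

/-- The Brauer character of the local block, as a function on the group. -/
noncomputable def th (W : Subgroup K.P) : G → ℂ :=
  BlockCount.extFun (K.cen W) (K.θ W : K.cen W → ℂ)

theorem th_coe (W : Subgroup K.P) (y : K.cen W) : K.th W (y : G) = (K.θ W : K.cen W → ℂ) y :=
  BlockCount.extFun_coe _ _ y

theorem th_one_ne_zero (W : Subgroup K.P) : K.th W 1 ≠ 0 := by
  rw [show (1 : G) = ((1 : K.cen W) : G) from rfl, K.th_coe]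
  exact Char.irr_one_ne_zero (K.θ W).2

theorem sum_th_sq {W : Subgroup K.P} (hW : W ≠ ⊥) :
    ∑ y ∈ Finset.univ.filter (fun y : G => y ∈ K.cen W ∧ ¬ p ∣ orderOf y),
      K.th W y * conj (K.th W y) = (Nat.card (K.cen W) : ℂ) / (Nat.card K.P : ℂ) := by
  rw [sum_regular_centralizer, ← K.regSum_θ hW, Brauer.regSum]
  simp only [K.th_coe]

theorem not_dvd_orderOf_one : ¬ p ∣ orderOf (1 : G) := by
  simpa using hp.out.one_lt.ne'

theorem th_conj (W : Subgroup K.P) {h : G} (hh : h ∈ K.cen W) {y : G} (hy : y ∈ K.cen W) :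
    K.th W (h * y * h⁻¹) = K.th W y := by
  rw [show h * y * h⁻¹ = ((⟨h, hh⟩ * ⟨y, hy⟩ * ⟨h, hh⟩⁻¹ : K.cen W) : G) from rfl, K.th_coe,
    Char.irr_isClassFunction (K.θ W).2, ← K.th_coe W ⟨y, hy⟩]

/-- The part of a function restricting to a character, as a block part. -/
theorem phi_eq_part_of_char (W : Subgroup K.P) {u : G} (hu : u ∈ K.emb W) {φ : G → ℂ}
    (hφ : IsCharacter (K.cen W) (fun x : K.cen W => φ x)) (y : K.cen W) :
    Phi (K.pairW W) u φ y =
      blockPart (K.blk W).1 (fun x : K.cen W => φ (u * (x : G))) y := by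
  have hcl : IsClassFunction (K.cen W) (fun x : K.cen W => φ (u * (x : G))) := by
    intro x b
    have hb : Commute u (b : G) := Subgroup.mem_centralizer_iff.1 b.2 u hu
    have hub : u ∈ K.cen W := K.le_cen W (K.emb_le W hu)
    show φ (u * (↑(b * x * b⁻¹) : G)) = φ (u * (x : G))
    have h1 := Char.isCharacter_isClassFunction hφ (⟨u, hub⟩ * x) b
    simp only [Subgroup.coe_mul, Subgroup.coe_inv] at h1 ⊢
    rw [← h1]
    congr 1
    rw [← mul_assoc (b : G) u, ← hb.eq]
    simp only [mul_assoc]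
  rw [blockPart_eq_sum_blockCoeff _ hcl, phi_eq_sum]
  symm
  refine Finset.sum_bij_ne_zero (fun c _ _ => (c : G)) (fun _ _ _ => Finset.mem_univ _)
    (fun _ _ _ _ _ _ h => Subtype.ext h) (fun g _ hg => ?_) fun c _ _ => ?_
  · have hgC : g ∈ K.cen W := by
      by_contra hn
      apply hg
      show subgroupBlockCoeff (K.cen W) (K.blk W).1 g * _ = 0
      unfold subgroupBlockCoeff
      rw [dif_neg hn, zero_mul]
    refine ⟨⟨g, hgC⟩, Finset.mem_univ _, fun h0 => hg ?_, rfl⟩
    simp only [Subgroup.coe_mul] at h0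
    show subgroupBlockCoeff (K.cen W) (K.blk W).1 g * _ = 0
    rw [subgroupBlockCoeff, dif_pos hgC, mul_assoc u g]
    exact h0
  · simp only [subgroupBlockCoeff, dif_pos c.2, Subgroup.coe_mul, mul_assoc]

theorem phi_conj_cen (W : Subgroup K.P) {u : G} (hu : u ∈ K.emb W) {φ : G → ℂ}
    (hφ : IsCharacter (K.cen W) (fun x : K.cen W => φ x)) {h y : G} (hh : h ∈ K.cen W)
    (hy : y ∈ K.cen W) :
    Phi (K.pairW W) u φ (h * y * h⁻¹) = Phi (K.pairW W) u φ y := by
  have e := K.phi_eq_part_of_char W hu hφ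
  show Phi (K.pairW W) u φ (((⟨h, hh⟩ * ⟨y, hy⟩ * ⟨h, hh⟩⁻¹ : K.cen W)) : G) =
    Phi (K.pairW W) u φ ((⟨y, hy⟩ : K.cen W) : G)
  rw [e, e, blockPart_eq_sum, blockPart_eq_sum]
  refine Finset.sum_congr rfl fun η _ => ?_
  rw [Char.irr_isClassFunction η.2]

/-- On a local block the parts are multiples of the Brauer character, by integral numbers. -/
theorem exists_part {W : Subgroup K.P} (hW : W ≠ ⊥) {u : G} (hu : u ∈ K.emb W) {φ : G → ℂ}
    (hφ : IsCharacter (K.cen W) (fun x : K.cen W => φ x)) :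
    ∃ d : ℂ, IsIntegral ℤ d ∧ ∀ y ∈ K.cen W, ¬ p ∣ orderOf y →
      Phi (K.pairW W) u φ y = d * K.th W y := by
  have huc : u ∈ K.cen W := K.le_cen W (K.emb_le W hu)
  have hcen : (⟨u, huc⟩ : K.cen W) ∈ Subgroup.center (K.cen W) :=
    Subgroup.mem_center_iff.2 fun w => Subtype.ext
      (Subgroup.mem_centralizer_iff.1 w.2 u hu).symm
  obtain ⟨m, hm, -⟩ := Char.isCharacter_exists_coeff hφ
  choose ω hω1 hω2 hω3 using fun η : IrrCharacter (K.cen W) => Char.irr_mul_center η.2 hcen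
  have hexp : ∀ x : K.cen W, φ (u * (x : G)) =
      ∑ η : IrrCharacter (K.cen W), (m η : ℂ) * ω η * (η : K.cen W → ℂ) x := by
    intro x
    have h1 := congrFun hm (⟨u, huc⟩ * x)
    simp only [Subgroup.coe_mul, Finset.sum_apply, Pi.smul_apply, nsmul_eq_mul] at h1
    rw [h1]
    refine Finset.sum_congr rfl fun η _ => ?_
    simp only [Pi.mul_apply, Pi.natCast_apply, hω3]
    ring
  choose! mult hmult using fun η (hη : η ∈ (K.blk W).1) => K.exists_mult hW hη
  refine ⟨∑ η ∈ (K.blk W).1.toFinset, (m η : ℂ) * ω η * (mult η : ℂ),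
    IsIntegral.sum _ fun η _ => (((isIntegral_algebraMap (R := ℤ) (x := (m η : ℤ))).mul
      (IsIntegral.of_pow (orderOf_pos _) (hω1 η ▸ isIntegral_one))).mul
      (isIntegral_algebraMap (R := ℤ) (x := (mult η : ℤ)))), fun y hy hreg => ?_⟩
  have hreg' : ¬ p ∣ orderOf (⟨y, hy⟩ : K.cen W) := by rwa [← Subgroup.orderOf_coe]
  rw [show y = ((⟨y, hy⟩ : K.cen W) : G) from rfl, K.phi_eq_part_of_char W hu hφ, K.th_coe,
    blockPart_eq_sum, Finset.sum_mul]
  refine Finset.sum_congr rfl fun η hη => ?_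
  have hcoef : classInner (fun x : K.cen W => φ (u * (x : G))) (η : K.cen W → ℂ) =
      (m η : ℂ) * ω η := by
    rw [show (fun x : K.cen W => φ (u * (x : G))) = ∑ ζ : IrrCharacter (K.cen W),
      ((m ζ : ℂ) * ω ζ) • (ζ : K.cen W → ℂ) from funext fun x => by
        rw [hexp x, Finset.sum_apply]; rfl, Char.classInner_sum_left, Finset.sum_eq_single η]
    · rw [Char.classInner_smul_left, Char.classInner_irr_self η.2, mul_one]
    · intro ζ _ hne
      rw [Char.classInner_smul_left,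
        Char.classInner_irr_ne ζ.2 η.2 (fun h => hne (Subtype.ext h)), mul_zero]
    · simp
  rw [hcoef, hmult η (Set.mem_toFinset.1 hη) _ hreg']
  push_cast
  ring

end FreeData

end Cfsg.Agent.BrauerPairs.FreeAbelian
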