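import Cfsg.Agent.BrauerPairs.FreeAbelian.Sign

/-!
Gluing functions given on the quotients by all non-trivial subgroups, by the Möbius function of the
subgroups, and the signed version for functions with unit values.
-/

set_option maxHeartbeats 400000
set_option linter.unusedSectionVars false
set_option linter.style.haveILetI false

namespace Cfsg.Agent.BrauerPairs.FreeAbelian

open Cfsg
open scoped ComplexConjugate Classical

universe u

variable {p : ℕ} [hp : Fact p.Prime] {M : Ideal AlgInt} [M.IsPrime] [CharP (Block.ResF M) p]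
  {P : Type u} [Group P] [Fintype P]

/-- The Möbius function on the subgroups, from the trivial one. -/
noncomputable def mobius {P : Type u} [Group P] [Finite P] (V : Subgroup P) : ℤ :=
  if V = ⊥ then 1
  else -(haveI := Fintype.ofFinite {W : Subgroup P // W < V}; ∑ W : {W : Subgroup P // W < V}, mobius W.1)
termination_by Nat.card V
decreasing_by exact card_lt_of_lt W.2

theorem mobius_bot : mobius (⊥ : Subgroup P) = 1 := by
  rw [mobius]; simp

theorem sum_mobius {V : Subgroup P} (hV : V ≠ ⊥) :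
    ∑ W ∈ Finset.univ.filter (fun W : Subgroup P => W ≤ V), mobius W = 0 := by
  have h1 : Finset.univ.filter (fun W : Subgroup P => W ≤ V) =
      insert V (Finset.univ.filter fun W : Subgroup P => W < V) := by
    ext W
    simp [le_iff_lt_or_eq, or_comm]
  rw [h1, Finset.sum_insert (by simp)]
  conv_lhs => arg 1; rw [mobius, if_neg hV]
  rw [← Finset.sum_subtype (Finset.univ.filter fun W : Subgroup P => W < V) (by simp)
    (fun W => mobius W), neg_add_cancel]

theorem sum_mobius_sup {Z : Subgroup P} (hZ : Z ≠ ⊥) :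
    ∀ W : Subgroup P, Z ≤ W →
      ∑ V ∈ Finset.univ.filter (fun V : Subgroup P => V ⊔ Z = W), mobius V = 0 := by
  intro W
  induction W using WellFoundedLT.induction with
  | _ W ih =>
  intro hZW
  have h := sum_mobius (V := W) (fun h => hZ (le_bot_iff.1 (h ▸ hZW)))
  rw [← Finset.sum_fiberwise_of_maps_to (g := fun V : Subgroup P => V ⊔ Z)
    (t := Finset.univ.filter fun W' : Subgroup P => Z ≤ W' ∧ W' ≤ W)
    (fun V hV => Finset.mem_filter.2 ⟨Finset.mem_univ _, le_sup_right,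
      sup_le (Finset.mem_filter.1 hV).2 hZW⟩)] at h
  have e : ∀ W' : Subgroup P, W' ≤ W →
      (Finset.univ.filter fun V : Subgroup P => V ≤ W).filter (fun V => V ⊔ Z = W') =
        Finset.univ.filter fun V : Subgroup P => V ⊔ Z = W' := by
    intro W' hW'
    rw [Finset.filter_filter]
    refine Finset.filter_congr fun V _ => ?_
    exact ⟨fun h => h.2, fun h => ⟨(h ▸ le_sup_left : V ≤ W').trans hW', h⟩⟩
  rw [Finset.sum_eq_single W (fun W' hW' hne => ?_)
    (fun h => absurd (Finset.mem_filter.2 ⟨Finset.mem_univ _, hZW, le_rfl⟩) h), e W le_rfl] at h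
  · exact h
  · obtain ⟨-, h1, h2⟩ := Finset.mem_filter.1 hW'
    rw [e W' h2]
    exact ih W' (lt_of_le_of_ne h2 hne) h1

/-- Functions on the quotients by all non-trivial subgroups glue. -/
theorem exists_glue (F : Subgroup P → ℤ)
    (hF : ∀ V : Subgroup P, V ≠ ⊥ → LV M (fun u => (F (V ⊔ Subgroup.zpowers u) : ℂ))) :
    ∃ g : P → ℤ, LV M (fun u => (g u : ℂ)) ∧ (∀ u, u ≠ 1 → g u = F (Subgroup.zpowers u)) ∧
      ∀ u v : P, Subgroup.zpowers u = Subgroup.zpowers v → g u = g v := by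
  let g : P → ℤ := fun u => -∑ V ∈ Finset.univ.filter (fun V : Subgroup P => V ≠ ⊥),
    mobius V * F (V ⊔ Subgroup.zpowers u)
  refine ⟨g, ?_, fun u hu => ?_, fun u v h => by simp only [g, h]⟩
  · have e : (fun u => (g u : ℂ)) =
        -∑ V ∈ Finset.univ.filter (fun V : Subgroup P => V ≠ ⊥),
          ((mobius V : ℂ) • fun u => (F (V ⊔ Subgroup.zpowers u) : ℂ)) := by
      funext u
      simp [g, Finset.sum_apply]
    rw [e]
    exact LV.neg (LV.sum _ fun V hV =>
      LV.smul (intCast_mem (Block.localRing M) _) (hF V (Finset.mem_filter.1 hV).2))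
  · set Z := Subgroup.zpowers u
    have hZ : Z ≠ ⊥ := fun h => hu (Subgroup.zpowers_eq_bot.1 h)
    have h0 : ∑ V : Subgroup P, mobius V * F (V ⊔ Z) = 0 := by
      rw [← Finset.sum_fiberwise_of_maps_to (g := fun V : Subgroup P => V ⊔ Z)
        (t := Finset.univ.filter fun W : Subgroup P => Z ≤ W)
        (fun V _ => Finset.mem_filter.2 ⟨Finset.mem_univ _, le_sup_right⟩)]
      refine Finset.sum_eq_zero fun W hW => ?_
      rw [Finset.sum_congr rfl (g := fun V => mobius V * F W) (fun V hV => by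
        rw [(Finset.mem_filter.1 hV).2]), ← Finset.sum_mul,
        sum_mobius_sup hZ W (Finset.mem_filter.1 hW).2, zero_mul]
    rw [← Finset.sum_filter_add_sum_filter_not Finset.univ (fun V : Subgroup P => V ≠ ⊥)] at h0
    have h1 : Finset.univ.filter (fun V : Subgroup P => ¬ V ≠ ⊥) = {⊥} := by ext V; simp
    rw [h1, Finset.sum_singleton, mobius_bot, bot_sup_eq, one_mul] at h0
    show -_ = F Z
    linarith

variable (hM : IsPModular p M) (hc : ∀ a b : P, a * b = b * a) {N : ℕ} (hN : Nat.card P = p ^ N)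

include hM hc hN

/-- Values known up to sign on the quotients glue with canonical signs. -/
theorem exists_signed [Nontrivial P] (n : Subgroup P → ℕ)
    (hn : ∀ V : Subgroup P, V ≠ ⊥ → ∃ z : P → ℤ, LV M (fun u => (z u : ℂ)) ∧
      (∀ u (j : ℕ), j.Coprime p → z (u ^ j) = z u) ∧
      ∀ u, z u = n (V ⊔ Subgroup.zpowers u) ∨ z u = -(n (V ⊔ Subgroup.zpowers u) : ℤ))
    (hunit : ∀ u : P, u ≠ 1 → ¬ p ∣ n (Subgroup.zpowers u)) :
    ∃ g : P → ℤ, LV M (fun u => (g u : ℂ)) ∧
      (∀ u, u ≠ 1 → g u = n (Subgroup.zpowers u) ∨ g u = -(n (Subgroup.zpowers u) : ℤ)) ∧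
      (∀ u, ¬ (p : ℤ) ∣ g u) ∧
      ∀ u v : P, Subgroup.zpowers u = Subgroup.zpowers v → g u = g v := by
  have hord : ∀ u : P, ∃ k, orderOf u = p ^ k := fun u => by
    obtain ⟨k, -, hk⟩ := (Nat.dvd_prime_pow hp.out).1 (hN ▸ orderOf_dvd_natCard u)
    exact ⟨k, hk⟩
  -- one step
  have hstep : ∀ (W : Subgroup P) (x : P), W ≠ ⊥ → ¬ p ∣ n W →
      ¬ p ∣ n (W ⊔ Subgroup.zpowers x) ∧ ((modulus p : ℤ) ∣ (n (W ⊔ Subgroup.zpowers x) : ℤ) - n W ∨
        (modulus p : ℤ) ∣ (n (W ⊔ Subgroup.zpowers x) : ℤ) + n W) := by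
    intro W x hW hu
    obtain ⟨z, hz, hpow, hzv⟩ := hn W hW
    have hz1 : z 1 = n W ∨ z 1 = -(n W : ℤ) := by simpa using hzv 1
    have h1 : ¬ (p : ℤ) ∣ z 1 := by
      rcases hz1 with h | h <;> rw [h] <;> simpa [Int.natCast_dvd_natCast] using hu
    obtain ⟨ν, hν⟩ := exists_sign hM hc hN hz hpow h1
    obtain ⟨s, hs, -, hd⟩ := hν x
    refine ⟨fun h => h1 ?_, ?_⟩
    · have h2 : (p : ℤ) ∣ z x := by
        rcases hzv x with h' | h' <;> rw [h'] <;> simpa [Int.natCast_dvd_natCast] using h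
      have h3 := dvd_sub (dvd_mul_of_dvd_right h2 s) (dvd_modulus.trans hd)
      rwa [sub_sub_cancel] at h3
    · obtain ⟨d, hd⟩ := hd
      rcases hs with h | h <;> rcases hzv x with h' | h' <;> rcases hz1 with h'' | h'' <;>
        rw [h, h', h''] at hd <;>
        first
        | exact Or.inl ⟨d, by linarith⟩
        | exact Or.inl ⟨-d, by linarith⟩
        | exact Or.inr ⟨d, by linarith⟩
        | exact Or.inr ⟨-d, by linarith⟩
  -- walking up
  have hwalk : ∀ V : Subgroup P, V ≠ ⊥ → ¬ p ∣ n V → ∀ W, V ≤ W →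
      ¬ p ∣ n W ∧ ((modulus p : ℤ) ∣ (n W : ℤ) - n V ∨ (modulus p : ℤ) ∣ (n W : ℤ) + n V) := by
    intro V hV hu W hVW
    obtain ⟨U, hU, hmax⟩ := Finset.exists_max_image
      (Finset.univ.filter fun U : Subgroup P => V ≤ U ∧ U ≤ W ∧ ¬ p ∣ n U ∧
        ((modulus p : ℤ) ∣ (n U : ℤ) - n V ∨ (modulus p : ℤ) ∣ (n U : ℤ) + n V))
      (fun U => Nat.card U)
      ⟨V, Finset.mem_filter.2 ⟨Finset.mem_univ _, le_rfl, hVW, hu, Or.inl (by simp)⟩⟩
    obtain ⟨-, hVU, hUW, hUu, hUd⟩ := Finset.mem_filter.1 hU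
    rcases eq_or_lt_of_le hUW with rfl | hlt
    · exact ⟨hUu, hUd⟩
    exfalso
    obtain ⟨x, hxW, hxU⟩ := SetLike.exists_of_lt hlt
    obtain ⟨h1, h2⟩ := hstep U x (fun h => hV (le_bot_iff.1 (h ▸ hVU))) hUu
    have h3 := hmax (U ⊔ Subgroup.zpowers x) (Finset.mem_filter.2 ⟨Finset.mem_univ _,
      hVU.trans le_sup_left, sup_le hUW (Subgroup.zpowers_le.2 hxW), h1, ?_⟩)
    · have h4 : U < U ⊔ Subgroup.zpowers x := lt_of_le_of_ne le_sup_left fun h => hxU (by
        rw [h]; exact le_sup_right (α := Subgroup P) (Subgroup.mem_zpowers x))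
      have := card_lt_of_lt h4
      omega
    · rcases h2 with ⟨a, ha⟩ | ⟨a, ha⟩ <;> rcases hUd with ⟨b, hb⟩ | ⟨b, hb⟩
      · exact Or.inl ⟨a + b, by linarith⟩
      · exact Or.inr ⟨a + b, by linarith⟩
      · exact Or.inr ⟨a - b, by linarith⟩
      · exact Or.inl ⟨a - b, by linarith⟩
  have hall : ∀ V : Subgroup P, V ≠ ⊥ → ¬ p ∣ n V := by
    intro V hV
    obtain ⟨u, hu, hu1⟩ := V.bot_or_exists_ne_one.resolve_left hV
    exact (hwalk _ (fun h => hu1 (Subgroup.zpowers_eq_bot.1 h)) (hunit u hu1) V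
      (Subgroup.zpowers_le.2 hu)).1
  let F : Subgroup P → ℤ := fun V =>
    if (modulus p : ℤ) ∣ (n ⊤ : ℤ) - n V then n V else -(n V : ℤ)
  have hcong : ∀ V : Subgroup P, V ≠ ⊥ → (modulus p : ℤ) ∣ (n ⊤ : ℤ) - F V := by
    intro V hV
    simp only [F]
    split_ifs with h
    · exact h
    · rw [sub_neg_eq_add]
      exact (hwalk V hV (hall V hV) ⊤ le_top).2.resolve_left h
  obtain ⟨g, hg, hgu, hgz⟩ := exists_glue (M := M) F fun V hV => by
    obtain ⟨z, hz, hpow, hzv⟩ := hn V hV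
    refine LV.canonical hM hc hN hz hpow ?_ (w := fun u => F (V ⊔ Subgroup.zpowers u))
      (fun u => ?_) fun u => ?_
    · have := hall V hV
      rcases hzv 1 with h | h <;> rw [h] <;> simpa [Int.natCast_dvd_natCast] using this
    · simp only [F]
      split_ifs <;> rcases hzv u with h | h <;> simp [h]
    · have hne : ∀ x, V ⊔ Subgroup.zpowers x ≠ ⊥ := fun x h => hV (sup_eq_bot_iff.1 h).1
      have := dvd_sub (hcong _ (hne 1)) (hcong _ (hne u))
      simpa using this
  refine ⟨g, hg, fun u hu => ?_, fun u => ?_, hgz⟩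
  · rw [hgu u hu]
    simp only [F]
    split_ifs <;> simp
  · intro hdiv
    have h1 : ∀ v, (p : ℤ) ∣ g v - g 1 := fun v => by
      rw [← Block.memLocalIdeal_intCast_iff hM, Int.cast_sub]
      exact hg.congr_one hM hord v
    obtain ⟨v, hv⟩ := exists_ne (1 : P)
    have h2 : (p : ℤ) ∣ g v := by
      have := dvd_add hdiv (dvd_sub (h1 v) (h1 u))
      simpa using this
    rw [hgu v hv] at h2
    have := hall _ (fun h => hv (Subgroup.zpowers_eq_bot.1 h))
    simp only [F] at h2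
    split_ifs at h2 <;> exact this (by simpa [Int.natCast_dvd_natCast] using h2)

end Cfsg.Agent.BrauerPairs.FreeAbelian
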