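import Cfsg.Agent.BrauerPairs.FreeAbelian.Data
import Cfsg.Agent.BrauerPairs.FreeAbelian.SectionEq

/-!
A source idempotent of a block with freely acting inertial quotient, its images at the subpairs and
their values on the local Brauer characters.
-/

set_option maxHeartbeats 400000
set_option linter.unusedSectionVars false
set_option linter.style.haveILetI false

namespace Cfsg.Agent.BrauerPairs.FreeAbelian

open MonoidAlgebra Cfsg
open Cfsg.Agent.BrauerPairs Cfsg.Agent.BrauerPairs.Nil
open scoped ComplexConjugate Classical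

universe u

variable {p : ℕ} [hp : Fact p.Prime] {M : Ideal AlgInt} [M.IsPrime] [CharP (Block.ResF M) p]
  {G : Type u} [Group G] [Fintype G]

theorem charLin_incl {H : Subgroup G} (φ : G → ℂ) (a : MonoidAlgebra ℂ H) :
    Block.charLin φ (Block.incl H a) = Block.charLin (fun x : H => φ x) a := by
  induction a using MonoidAlgebra.induction_linear with
  | zero => simp
  | add a b ha hb => rw [map_add, map_add, map_add, ha, hb]
  | single g c =>
    rw [show Block.incl H (single g c) = single (g : G) c by
      simp [Block.incl, MonoidAlgebra.mapDomainRingHom_apply, MonoidAlgebra.mapDomain_single],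
      Block.charLin_single, Block.charLin_single]

/-- Values on a section, computed inside a subgroup. -/
theorem charLin_single_restr {H : Subgroup G} (φ : G → ℂ) (u : H)
    {a : MonoidAlgebra (Block.localRing M) G} (ha : SuppIn H a) :
    Block.charLin φ (single (u : G) 1 * Block.toC M a) =
      Block.charLin (fun x : H => φ x) (single u 1 * Block.toC M (Block.restr H a)) := by
  rw [← charLin_incl φ, map_mul (Block.incl H)]
  congr 2
  · simp [Block.incl, MonoidAlgebra.mapDomainRingHom_apply, MonoidAlgebra.mapDomain_single]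
  · rw [show Block.incl H (Block.toC M (Block.restr H a)) =
      Block.toC M (Block.incl H (Block.restr H a)) from (Block.mapR_incl _ _ _).symm,
      Block.incl_restr_of_supported ha]

theorem toF_restr {H : Subgroup G} (a : MonoidAlgebra (Block.localRing M) G) :
    Block.toF M (Block.restr H a) = Block.restr H (Block.toF M a) :=
  Block.mapR_restr _ _ _

namespace FreeData

variable (K : FreeData p M G)

theorem exists_src : ∃ (χ : IrrCharacter G) (i : MonoidAlgebra (Block.localRing M) G),
    χ ∈ K.B.1 ∧ i * i = i ∧ Fixed K.P i ∧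
      SubsecNZ.chiBar (χ : G → ℂ) (Block.toF M i) ≠ 0 ∧
      ∀ (Q : Subgroup G) (f : Blk M (Subgroup.centralizer (Q : Set G))),
        SLE (pairSys M G) p ⟨Q, f⟩ ⟨K.P, K.c⟩ →
          trunc Q (Block.toF M i) * (pairSys M G Q).idem f = trunc Q (Block.toF M i) := by
  obtain ⟨χ, hχ, h0⟩ := BlockVal.exists_height_zero (p := p) (Block.pBlock_nonempty K.B.2)
  obtain ⟨i, h1, h2, h3, h4⟩ := exists_source_idem K.isPModular K.B hχ h0 K.maxPair
  exact ⟨χ, i, hχ, h1, h2, h3, h4⟩

/-- The character detected by the idempotent. -/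
noncomputable def χ₀ : IrrCharacter G := K.exists_src.choose

/-- The source idempotent. -/
noncomputable def src : MonoidAlgebra (Block.localRing M) G := K.exists_src.choose_spec.choose

theorem χ₀_mem : K.χ₀ ∈ K.B.1 := K.exists_src.choose_spec.choose_spec.1

theorem src_idem : K.src * K.src = K.src := K.exists_src.choose_spec.choose_spec.2.1

theorem src_fixed : Fixed K.P K.src := K.exists_src.choose_spec.choose_spec.2.2.1

theorem src_chiBar : SubsecNZ.chiBar (K.χ₀ : G → ℂ) (Block.toF M K.src) ≠ 0 :=
  K.exists_src.choose_spec.choose_spec.2.2.2.1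

theorem src_trunc (W : Subgroup K.P) :
    trunc (K.emb W) (Block.toF M K.src) * (pairSys M G (K.emb W)).idem (K.blk W) =
      trunc (K.emb W) (Block.toF M K.src) :=
  K.exists_src.choose_spec.choose_spec.2.2.2.2 _ _ (K.sle W)

theorem fixed_emb {R : Type*} [CommSemiring R] {a : MonoidAlgebra R G} (h : Fixed K.P a)
    (W : Subgroup K.P) : Fixed (K.emb W) a := h.mono (K.emb_le W)

theorem exists_eps (W : Subgroup K.P) : ∃ ε : MonoidAlgebra (Block.localRing M) G,
    ε * ε = ε ∧ SuppIn (K.cen W) ε ∧ ε * idemO (K.cen W) (K.blk W) = ε ∧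
      Block.toF M ε = trunc (K.emb W) (Block.toF M K.src) ∧ Fixed K.P ε := by
  have hQ : IsPGroup p (K.emb W) := K.isPGroup.to_le (K.emb_le W)
  have hPN : K.P ≤ Subgroup.normalizer (K.emb W : Set G) :=
    (K.le_cen W).trans (Subgroup.centralizer_le_normalizer _)
  set t := trunc (K.emb W) (Block.toF M K.src) with ht
  have hFi : Block.toF M K.src * Block.toF M K.src = Block.toF M K.src := by
    rw [← map_mul, K.src_idem]
  have ht2 : t * t = t := by
    rw [ht, ← trunc_mul hQ (K.fixed_emb (toF_fixed K.src_fixed) W)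
      (K.fixed_emb (toF_fixed K.src_fixed) W), hFi]
  set w₀ := trunc (K.emb W) K.src with hw₀
  have hw₀s : SuppIn (K.cen W) w₀ := suppIn_trunc _ _
  have hw₀t : trunc (K.emb W) (Block.toF M w₀) = t := by rw [hw₀, toF_trunc, trunc_trunc le_rfl]
  have hw₀P : Fixed K.P w₀ := K.src_fixed.trunc hPN
  obtain ⟨Q, -, hQ0, hQ1, hQi, -⟩ := exists_lift_poly w₀
  have hA : SuppIn (K.cen W) (Polynomial.aeval w₀ Q) := suppIn_aeval hw₀s Q
  set c := idemO (K.cen W) (K.blk W) with hc
  have hcC : CentralIn (K.cen W) c := centralIn_idemO _ _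
  have hc2 : c * c = c := idemO_mul_self _ _
  have hcA : Commute c (Polynomial.aeval w₀ Q) := CentralIn.commute hcC.fixed hA
  have hs : SuppIn (K.cen W) (Polynomial.aeval w₀ Q * c) := hA.mul hcC.supp
  refine ⟨Polynomial.aeval w₀ Q * c, ?_, hs, by rw [mul_assoc, hc2], ?_,
    (fixed_aeval hw₀P Q).mul (hcC.fixed.mono (K.le_cen W))⟩
  · rw [mul_assoc, ← mul_assoc c, hcA.eq, mul_assoc _ c c, hc2, ← mul_assoc, hQi]
  · rw [← trunc_eq_self_iff.2 (toF_suppIn hs), map_mul,
      trunc_mul hQ (toF_fixed (fixed_self_of_suppIn hA))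
        (toF_fixed (fixed_self_of_suppIn hcC.supp)),
      trunc_aeval_red hQ (fixed_self_of_suppIn hw₀s) hw₀t ht2 hQ0 hQ1,
      trunc_eq_self_iff.2 (toF_suppIn hcC.supp), hc, toF_idemO]
    exact K.src_trunc W

/-- The image of the source idempotent at a subpair. -/
noncomputable def eps (W : Subgroup K.P) : MonoidAlgebra (Block.localRing M) G :=
  (K.exists_eps W).choose

theorem eps_idem (W : Subgroup K.P) : K.eps W * K.eps W = K.eps W :=
  (K.exists_eps W).choose_spec.1

theorem eps_supp (W : Subgroup K.P) : SuppIn (K.cen W) (K.eps W) :=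
  (K.exists_eps W).choose_spec.2.1

theorem eps_mul_idemO (W : Subgroup K.P) :
    K.eps W * idemO (K.cen W) (K.blk W) = K.eps W := (K.exists_eps W).choose_spec.2.2.1

theorem toF_eps (W : Subgroup K.P) :
    Block.toF M (K.eps W) = trunc (K.emb W) (Block.toF M K.src) :=
  (K.exists_eps W).choose_spec.2.2.2.1

theorem eps_fixed (W : Subgroup K.P) : Fixed K.P (K.eps W) :=
  (K.exists_eps W).choose_spec.2.2.2.2

theorem exists_n (W : Subgroup K.P) :
    ∃ n : ℕ, Block.charLin (K.th W) (Block.toC M (K.eps W)) = n := by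
  have h1 : Block.restr (K.cen W) (K.eps W) * Block.restr (K.cen W) (K.eps W) =
      Block.restr (K.cen W) (K.eps W) := by
    rw [← Block.restr_mul_of_supported (K.eps_supp W), K.eps_idem]
  have h2 := isCharacter_charLin_single (Char.isCharacter_of_irr (K.θ W).2)
    (⊥ : Subgroup (K.cen W)) (e := Block.toC M (Block.restr (K.cen W) (K.eps W)))
    (by rw [← map_mul, h1]) (fun v hv => by
      rw [Subgroup.mem_bot.1 hv, ← MonoidAlgebra.one_def]
      exact Commute.one_left _)
  obtain ⟨n, hn⟩ := Char.isCharacter_one_nat h2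
  refine ⟨n, ?_⟩
  rw [← hn, ← one_mul (Block.toC M (K.eps W)), MonoidAlgebra.one_def,
    show (1 : G) = ((1 : K.cen W) : G) from rfl, charLin_single_restr _ _ (K.eps_supp W),
    show (fun x : K.cen W => K.th W x) = (K.θ W : K.cen W → ℂ) from funext (K.th_coe W)]
  rfl

/-- The value of the Brauer character at the idempotent. -/
noncomputable def num (W : Subgroup K.P) : ℕ := (K.exists_n W).choose

theorem num_spec (W : Subgroup K.P) :
    Block.charLin (K.th W) (Block.toC M (K.eps W)) = (K.num W : ℂ) :=
  (K.exists_n W).choose_spec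

theorem num_eq_sum (W : Subgroup K.P) :
    ∑ y ∈ Finset.univ.filter (fun y : G => y ∈ K.cen W ∧ ¬ p ∣ orderOf y),
      ((K.eps W).coeff y : ℂ) * K.th W y = (K.num W : ℂ) := by
  rw [← K.num_spec W, Block.charLin_eq_sum]
  simp only [Block.coeff_mapR]
  show _ = ∑ y : G, ((K.eps W).coeff y : ℂ) * K.th W y
  rw [← Finset.sum_subset (Finset.subset_univ (Finset.univ.filter (fun y : G => y ∈ K.cen W)))
      fun y _ hy => by
        rw [K.eps_supp W y (by simpa using hy), ZeroMemClass.coe_zero, zero_mul],
    ← Finset.sum_filter_add_sum_filter_not (Finset.univ.filter (fun y : G => y ∈ K.cen W))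
      (fun y : G => p ∣ orderOf y), Finset.filter_filter, Finset.filter_filter,
    sum_singular_eq_zero K.isPModular (K.eps_idem W) (K.eps_supp W)
      (fun h hh y hy => K.th_conj W hh hy), zero_add]

/-- The value of the idempotent on a section. -/
theorem eval_eps {W : Subgroup K.P} {u : G} (hu : u ∈ K.emb W) {φ : G → ℂ}
    (hφ : IsCharacter (K.cen W) (fun x : K.cen W => φ x)) {d : ℂ}
    (hd : ∀ y ∈ K.cen W, ¬ p ∣ orderOf y → Phi (K.pairW W) u φ y = d * K.th W y) :
    Block.charLin φ (single u 1 * Block.toC M (K.eps W)) = d * (K.num W : ℂ) := by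
  set ê := idemO (K.cen W) (K.blk W) with hê
  have hcomm : Commute (K.eps W) ê :=
    ((centralIn_idemO _ (K.blk W)).fixed |> fun h => (CentralIn.commute h (K.eps_supp W)).symm)
  have h1 : Block.toC M (K.eps W) = Block.toC M ê * Block.toC M (K.eps W) := by
    rw [← map_mul, ← hcomm.eq, K.eps_mul_idemO]
  rw [h1, ← mul_assoc, charLin_mul_toC]
  have hphi : ∀ y : G, Block.charLin φ (single u 1 * Block.toC M ê * single y 1) =
      Phi (K.pairW W) u φ y := fun y => rfl
  simp only [hphi]
  rw [← Finset.sum_subset (Finset.subset_univ (Finset.univ.filter (fun y : G => y ∈ K.cen W)))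
      fun y _ hy => by
        rw [K.eps_supp W y (by simpa using hy), ZeroMemClass.coe_zero, zero_mul],
    ← Finset.sum_filter_add_sum_filter_not (Finset.univ.filter (fun y : G => y ∈ K.cen W))
      (fun y : G => p ∣ orderOf y), Finset.filter_filter, Finset.filter_filter,
    sum_singular_eq_zero K.isPModular (K.eps_idem W) (K.eps_supp W)
      (fun h hh y hy => K.phi_conj_cen W hu hφ hh hy), zero_add, ← K.num_eq_sum W, Finset.mul_sum]
  refine Finset.sum_congr rfl fun y hy => ?_
  obtain ⟨-, h2, h3⟩ := Finset.mem_filter.1 hy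
  rw [hd y h2 h3]
  ring

end FreeData

end Cfsg.Agent.BrauerPairs.FreeAbelian
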