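import Cfsg.Agent.BrauerPairs.FreeAbelian.Idems
import Cfsg.Agent.BrauerPairs.FreeAbelian.Gluing

/-!
The values of the local idempotents inside the centralizer of a non-trivial subgroup of the defect
group: up to signs they are a combination of characters of the defect group.
-/

set_option maxHeartbeats 400000
set_option linter.unusedSectionVars false
set_option linter.style.haveILetI false

namespace Cfsg.Agent.BrauerPairs.FreeAbelian

open MonoidAlgebra Cfsg
open Cfsg.Agent.BrauerPairs Cfsg.Agent.BrauerPairs.Nil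
open scoped ComplexConjugate Classical

universe u

variable {p : ℕ} [hp : Fact p.Prime] {M : Ideal AlgInt} [M.IsPrime] [CharP (Block.ResF M) p]

/-- Integer valued families are constant on the generators of the cyclic subgroups. -/
theorem pow_invariant {P : Type u} [Group P] [Fintype P] {K : ℕ} {z : P → ℤ}
    (hK : ∀ u : P, u ^ p ^ K = 1) (hfam : Fam p K (fun u => (z u : ℂ))) (u : P) (j : ℕ)
    (hj : j.Coprime p) : z (u ^ j) = z u := by
  obtain ⟨L, hL, hf⟩ := hfam
  set a : (ZMod (p ^ K))ˣ := ZMod.unitOfCoprime j (hj.pow_right K) with ha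
  have h1 : u ^ j = u ^ (a : ZMod (p ^ K)).val := by
    rw [ha, ZMod.coe_unitOfCoprime, ZMod.val_natCast, ← pow_eq_pow_mod _ (hK u)]
  have h2 : u ^ ((1 : (ZMod (p ^ K))ˣ) : ZMod (p ^ K)).val = u := by
    rcases K with _ | K
    · have := hK u
      rw [pow_zero, pow_one] at this
      simp [this]
    · haveI : Fact (1 < p ^ (K + 1)) := ⟨Nat.one_lt_pow (by omega) hp.out.one_lt⟩
      rw [Units.val_one, ZMod.val_one, pow_one]
  have h3 := GalAvg.eq_zero_of_eq_zero
    (sub_mem (hf u) (intCast_mem (GalAvg.cycFun (p ^ K)) ((L : ℤ) * z u))) (a := 1)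
    (by simp only [Pi.sub_apply, Pi.intCast_apply, h2]; push_cast; ring)
  have h4 := h3 a
  simp only [Pi.sub_apply, Pi.intCast_apply, ← h1, sub_eq_zero] at h4
  push_cast at h4
  exact_mod_cast mul_left_cancel₀ (Nat.cast_ne_zero.2 hL : (L : ℂ) ≠ 0) h4

/-- Parts of a function on a subgroup, seen in the group. -/
theorem phi_incl {G : Type u} [Group G] [Fintype G] {L : Subgroup G} {a' : PairIdx M L}
    {a : PairIdx M G} (h : idemO (Subgroup.centralizer (a.1 : Set G)) a.2 =
      Block.incl L (idemO (Subgroup.centralizer (a'.1 : Set L)) a'.2)) (w y : L) (φ : L → ℂ) :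
    Phi a (w : G) (BlockCount.extFun L φ) (y : G) = Phi a' w φ y := by
  rw [phi_eq_sum, phi_eq_sum]
  symm
  refine Finset.sum_bij_ne_zero (fun c _ _ => (c : G)) (fun _ _ _ => Finset.mem_univ _)
    (fun _ _ _ _ _ _ he => Subtype.ext he) (fun g _ hg => ?_) fun c _ _ => ?_
  · have hgL : g ∈ L := by
      by_contra hn
      apply hg
      rw [← coeff_idemO, h, Block.coeff_incl_of_notMem L _ hn]
      simp
    refine ⟨⟨g, hgL⟩, Finset.mem_univ _, fun h0 => hg ?_, rfl⟩
    rw [← coeff_idemO, h, show g = ((⟨g, hgL⟩ : L) : G) from rfl,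
      Block.coeff_incl_coe, coeff_idemO, ← Subgroup.coe_mul, ← Subgroup.coe_mul,
      BlockCount.extFun_coe]
    exact h0
  · rw [← coeff_idemO, ← coeff_idemO, h, Block.coeff_incl_coe, ← Subgroup.coe_mul,
      ← Subgroup.coe_mul, BlockCount.extFun_coe]

variable {G : Type u} [Group G] [Fintype G]

namespace FreeData

variable (K : FreeData p M G)

/-- The values of the local idempotent on the local Brauer character. -/
noncomputable def H (V : Subgroup K.P) (u : K.P) : ℂ :=
  Block.charLin (K.th V) (single (u : G) 1 * Block.toC M (K.eps V))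

theorem emb_sup (V : Subgroup K.P) (u : K.P) :
    K.emb (V ⊔ Subgroup.zpowers u) = K.emb V ⊔ Subgroup.zpowers (u : G) := by
  show (V ⊔ Subgroup.zpowers u).map K.P.subtype = _
  rw [Subgroup.map_sup]
  congr 1
  exact MonoidHom.map_zpowers _ _

theorem cen_mono {V W : Subgroup K.P} (h : V ≤ W) : K.cen W ≤ K.cen V :=
  centralizer_anti (Subgroup.map_mono h)

theorem mem_cen_sup (V : Subgroup K.P) (u : K.P) (y : K.cen V) :
    y ∈ Subgroup.centralizer
      (Subgroup.zpowers (⟨(u : G), K.le_cen V u.2⟩ : K.cen V) : Set (K.cen V)) ↔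
      (y : G) ∈ K.cen (V ⊔ Subgroup.zpowers u) := by
  rw [Brauer.centralizer_zpowers_eq, Subgroup.mem_centralizer_singleton_iff]
  constructor
  · intro h
    have h' : (y : G) * u = u * y := congrArg Subtype.val h
    have hle : K.emb (V ⊔ Subgroup.zpowers u) ≤ Subgroup.centralizer ({(y : G)} : Set G) := by
      rw [K.emb_sup]
      refine sup_le (fun x hx => ?_) (Subgroup.zpowers_le.2 ?_)
      · rw [Subgroup.mem_centralizer_singleton_iff]
        exact Subgroup.mem_centralizer_iff.1 y.2 x hx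
      · rw [Subgroup.mem_centralizer_singleton_iff]
        exact h'.symm
    refine Subgroup.mem_centralizer_iff.2 fun x hx => ?_
    exact Subgroup.mem_centralizer_singleton_iff.1 (hle hx)
  · intro h
    refine Subtype.ext ?_
    exact (Subgroup.mem_centralizer_iff.1 h _ (K.mem_emb
      (le_sup_right (α := Subgroup K.P) (Subgroup.mem_zpowers u)))).symm

theorem th_isCharacter {V W : Subgroup K.P} (h : V ≤ W) :
    IsCharacter (K.cen W) (fun x : K.cen W => K.th V x) := by
  have h1 := Char.isCharacter_comp (Char.isCharacter_of_irr (K.θ V).2)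
    (Subgroup.inclusion (K.cen_mono h))
  convert h1 using 1
  funext x
  exact K.th_coe V (Subgroup.inclusion (K.cen_mono h) x)

theorem H_eq_local (V : Subgroup K.P) (u : K.P) : K.H V u =
    Block.charLin (K.θ V : K.cen V → ℂ) (single (⟨(u : G), K.le_cen V u.2⟩ : K.cen V) 1 *
      Block.toC M (Block.restr (K.cen V) (K.eps V))) := by
  show Block.charLin (K.th V) (single (((⟨(u : G), K.le_cen V u.2⟩ : K.cen V) : G)) 1 *
    Block.toC M (K.eps V)) = _
  rw [charLin_single_restr _ _ (K.eps_supp V),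
    show (fun x : K.cen V => K.th V x) = (K.θ V : K.cen V → ℂ) from funext (K.th_coe V)]

theorem isCharacter_H (V : Subgroup K.P) : IsCharacter K.P (K.H V) := by
  have h1 := isCharacter_charLin_single (Char.isCharacter_of_irr (K.θ V).2)
    (K.P.subgroupOf (K.cen V)) (e := Block.toC M (Block.restr (K.cen V) (K.eps V)))
    (by rw [← map_mul, ← Block.restr_mul_of_supported (K.eps_supp V), K.eps_idem])
    (fun v hv => commute_single_of_fixed (u := v) (fun h hh g => by
      rw [Block.coeff_mapR, Block.coeff_mapR, Block.coeff_restr, Block.coeff_restr]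
      congr 1
      refine K.eps_fixed V (h : G) ?_ (g : G)
      obtain ⟨k, rfl⟩ := Subgroup.mem_zpowers_iff.1 hh
      simpa using Subgroup.zpow_mem _ (Subgroup.mem_subgroupOf.1 hv) k) 1)
  let φ : K.P →* K.P.subgroupOf (K.cen V) :=
    { toFun := fun u => ⟨⟨(u : G), K.le_cen V u.2⟩, Subgroup.mem_subgroupOf.2 u.2⟩
      map_one' := rfl
      map_mul' := fun a b => rfl }
  have h2 := Char.isCharacter_comp h1 φ
  convert h2 using 1
  funext u
  exact K.H_eq_local V u

/-- The values are those of the idempotent at the join, times a number of absolute value one. -/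
theorem exists_H_eq {V : Subgroup K.P} (hV : V ≠ ⊥) (u : K.P) :
    ∃ d : ℂ, IsIntegral ℤ d ∧ d * conj d = 1 ∧
      K.H V u = d * (K.num (V ⊔ Subgroup.zpowers u) : ℂ) := by
  set W := V ⊔ Subgroup.zpowers u with hW
  have hW0 : W ≠ ⊥ := fun h => hV (sup_eq_bot_iff.1 h).1
  have huW : (u : G) ∈ K.emb W := K.mem_emb (le_sup_right (α := Subgroup K.P) (Subgroup.mem_zpowers u))
  have hφ := K.th_isCharacter (V := V) (W := W) le_sup_left
  obtain ⟨d, hd, hpart⟩ := K.exists_part hW0 huW hφ
  set u' : K.cen V := ⟨(u : G), K.le_cen V u.2⟩ with hu'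
  obtain ⟨D, hDB, hl⟩ := K.exists_loc hV
  have hmapP : D.P.map (K.cen V).subtype = K.P := hl.1
  have hu'P : u' ∈ D.P := by
    have h : (u : G) ∈ D.P.map (K.cen V).subtype := by rw [hmapP]; exact u.2
    obtain ⟨y, hy, he⟩ := h
    exact (show y = u' from Subtype.ext he) ▸ hy
  -- the block of the join, seen in the centralizer
  have hC : Subgroup.centralizer (K.emb W : Set G) =
      (Subgroup.centralizer (Subgroup.zpowers u' : Set (K.cen V))).map (K.cen V).subtype := by
    ext g
    constructor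
    · intro hg
      exact ⟨⟨g, K.cen_mono (le_sup_left (a := V) (b := Subgroup.zpowers u)) hg⟩,
        (K.mem_cen_sup V u _).2 hg, rfl⟩
    · rintro ⟨y, hy, rfl⟩
      exact (K.mem_cen_sup V u y).1 hy
  obtain ⟨f₀, hf₀⟩ := exists_idem_eq (pairSys M G (K.emb W))
    (mapSys (pairSys M (K.cen V) (Subgroup.zpowers u'))) hC (K.blk W)
  have hidem : (pairSys M G (K.emb W)).idem (K.blk W) =
      Block.incl (K.cen V) ((pairSys M (K.cen V) (Subgroup.zpowers u')).idem f₀) := hf₀.symm
  have hDP : ∀ a ∈ D.P, ∀ b ∈ D.P, a * b = b * a := fun a ha b hb => Subtype.ext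
    (K.comm _ (hmapP ▸ Subgroup.mem_map_of_mem _ ha) _ (hmapP ▸ Subgroup.mem_map_of_mem _ hb))
  have hDPC : D.P ≤ Subgroup.centralizer (Subgroup.zpowers u' : Set (K.cen V)) :=
    le_centralizer_of_abelian hDP (Subgroup.zpowers_le.2 hu'P)
  have hpair : D.pair ⟨u', hu'P⟩ = ⟨Subgroup.zpowers u', f₀⟩ := by
    refine D.eq_of_sle (D.pair_sle _) (Relation.ReflTransGen.single ⟨D.isPGroup,
      Subgroup.zpowers_le.2 hu'P, hDPC.trans (Subgroup.centralizer_le_normalizer _),
      ((pairSys M (K.cen V) (Subgroup.zpowers u')).central_idem f₀).fixed.mono hDPC,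
      lam_eq_one_of_mul_eq _ (centralIn_trunc
        (((pairSys M (K.cen V) (Subgroup.zpowers u')).central_idem f₀).fixed.mono
          (centralizer_anti (Subgroup.zpowers_le.2 hu'P)))
        (Subgroup.centralizer_le_normalizer _) le_rfl) ?_⟩) rfl
    apply Block.incl_injective (K.cen V)
    have hn := (K.nsub W).mul_idem
    simp only at hn
    have h3 : (pairSys M G K.P).idem K.c =
        Block.incl (K.cen V) ((pairSys M (K.cen V) D.P).idem D.e) := hl.2.2
    rw [hidem, h3] at hn
    rw [map_mul, ← trunc_incl, hmapP]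
    exact hn
  have hidemO : idemO (Subgroup.centralizer (K.emb W : Set G)) (K.blk W) =
      Block.incl (K.cen V) (idemO (Subgroup.centralizer (Subgroup.zpowers u' : Set (K.cen V))) f₀) := by
    refine lift_unique_in (centralIn_idemO _ _)
      (hC.symm ▸ BlockCount.centralIn_incl' (centralIn_idemO _ _))
      (idemO_mul_self _ _) (by rw [← map_mul, idemO_mul_self]) ?_
    rw [toF_idemO, show Block.toF M (Block.incl (K.cen V)
        (idemO (Subgroup.centralizer (Subgroup.zpowers u' : Set (K.cen V))) f₀)) =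
      Block.incl (K.cen V) (Block.toF M
        (idemO (Subgroup.centralizer (Subgroup.zpowers u' : Set (K.cen V))) f₀)) from
        Block.mapR_incl _ _ _, toF_idemO]
    exact hidem
  refine ⟨d, hd, ?_, ?_⟩
  · have hθ : K.θ V ∈ D.B.1 := hDB.symm ▸ K.θ_mem V
    have h := D.A_self_eq_one hθ (hDB.symm ▸ K.θ_height V) ⟨u', hu'P⟩
    rw [NilData.A, hpair] at h
    have hinf : D.P ⊓ Subgroup.centralizer (Subgroup.zpowers u' : Set (K.cen V)) = D.P :=
      inf_of_le_left hDPC
    have hsec : secReg p (⟨Subgroup.zpowers u', f₀⟩ : PairIdx M (K.cen V)) u'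
        (K.θ V : K.cen V → ℂ) (K.θ V : K.cen V → ℂ) =
        ∑ y ∈ Finset.univ.filter (fun y : G => y ∈ K.cen W ∧ ¬ p ∣ orderOf y),
          Phi (K.pairW W) (u : G) (K.th V) y * conj (Phi (K.pairW W) (u : G) (K.th V) y) := by
      rw [secReg]
      refine Finset.sum_bij' (fun y _ => (y : G))
        (fun y hy => (⟨y, K.cen_mono (le_sup_left (a := V) (b := Subgroup.zpowers u))
          (Finset.mem_filter.1 hy).2.1⟩ : K.cen V))
        (fun y hy => ?_) (fun y hy => ?_) (fun _ _ => rfl) (fun _ _ => rfl) fun y _ => ?_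
      · obtain ⟨-, h1, h2⟩ := Finset.mem_filter.1 hy
        exact Finset.mem_filter.2 ⟨Finset.mem_univ _, (K.mem_cen_sup V u y).1 h1,
          by rwa [Subgroup.orderOf_coe]⟩
      · obtain ⟨-, h1, h2⟩ := Finset.mem_filter.1 hy
        exact Finset.mem_filter.2 ⟨Finset.mem_univ _, (K.mem_cen_sup V u _).2 h1,
          by rwa [← Subgroup.orderOf_coe]⟩
      · have e := phi_incl (a := K.pairW W)
          (a' := (⟨Subgroup.zpowers u', f₀⟩ : PairIdx M (K.cen V))) hidemO u' y
          (K.θ V : K.cen V → ℂ)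
        rw [← e]
        rfl
    rw [hinf, K.card_lifted hl, hsec, Finset.sum_congr rfl (fun y hy => by
      obtain ⟨-, h1, h2⟩ := Finset.mem_filter.1 hy
      rw [hpart y h1 h2, map_mul (starRingEnd ℂ),
        mul_mul_mul_comm d (K.th W y) (conj d) (conj (K.th W y))]), ← Finset.mul_sum,
      K.sum_th_sq hW0] at h
    have hcard : (Nat.card (Subgroup.centralizer (Subgroup.zpowers u' : Set (K.cen V))) : ℂ) =
        (Nat.card (K.cen W) : ℂ) := by
      rw [show K.cen W = _ from hC, Subgroup.card_map_of_injective (K.cen V).subtype_injective]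
    rw [hcard] at h
    have hq : (Nat.card K.P : ℂ) ≠ 0 := Nat.cast_ne_zero.2 Nat.card_pos.ne'
    have hc : (Nat.card (K.cen W) : ℂ) ≠ 0 := Nat.cast_ne_zero.2 Nat.card_pos.ne'
    rw [← h]
    field_simp
  · obtain ⟨k, hk⟩ : ∃ k, orderOf u' = p ^ k := by
      obtain ⟨k, hk⟩ := K.exists_orderOf u
      exact ⟨k, by rw [← Subgroup.orderOf_coe]; exact hk⟩
    have hrestr : ∀ x : MonoidAlgebra (Block.ResF M) G,
        trunc (Subgroup.zpowers u') (Block.restr (K.cen V) x) =
          Block.restr (K.cen V) (trunc (K.emb W) x) := by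
      intro x
      refine Block.groupAlgebra_ext fun y => ?_
      by_cases hy : (y : G) ∈ K.cen W
      · rw [coeff_trunc_mem _ ((K.mem_cen_sup V u y).2 hy), Block.coeff_restr, Block.coeff_restr,
          coeff_trunc_mem _ hy]
      · rw [coeff_trunc_notMem _ (fun h => hy ((K.mem_cen_sup V u y).1 h)), Block.coeff_restr,
          coeff_trunc_notMem _ hy]
    have hsuppW : SuppIn (K.cen V) (K.eps W) := fun g hg =>
      K.eps_supp W g fun h => hg (K.cen_mono le_sup_left h)
    have hfix : ∀ a : MonoidAlgebra (Block.localRing M) G, Fixed K.P a →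
        Fixed (Subgroup.zpowers u') (Block.restr (K.cen V) a) := by
      intro a ha h hh g
      rw [Block.coeff_restr, Block.coeff_restr]
      refine ha (h : G) ?_ (g : G)
      obtain ⟨j, rfl⟩ := Subgroup.mem_zpowers_iff.1 hh
      simpa using Subgroup.zpow_mem _ u.2 j
    have hemb : K.emb V ≤ K.emb W := Subgroup.map_mono le_sup_left
    have hswap : Block.charLin (K.θ V : K.cen V → ℂ)
        (single u' 1 * Block.toC M (Block.restr (K.cen V) (K.eps V))) =
        Block.charLin (K.θ V : K.cen V → ℂ)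
          (single u' 1 * Block.toC M (Block.restr (K.cen V) (K.eps W))) := by
      refine charLin_eq_of_trunc_eq K.isPModular hk rfl
        (by rw [← Block.restr_mul_of_supported (K.eps_supp V), K.eps_idem])
        (hfix _ (K.eps_fixed V))
        (by rw [← Block.restr_mul_of_supported hsuppW, K.eps_idem]) (hfix _ (K.eps_fixed W)) ?_
        (Char.irr_isClassFunction (K.θ V).2)
      rw [toF_restr, toF_restr, hrestr, hrestr, K.toF_eps, K.toF_eps, trunc_trunc le_rfl,
        trunc_trunc hemb]
    rw [K.H_eq_local, hswap, show (K.θ V : K.cen V → ℂ) = fun x : K.cen V => K.th V x from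
      (funext (K.th_coe V)).symm, ← charLin_single_restr _ _ hsuppW]
    exact K.eval_eps huW hφ hpart

theorem num_unit_step {V : Subgroup K.P} (hV : V ≠ ⊥) (h : ¬ p ∣ K.num V) (u : K.P) :
    ¬ p ∣ K.num (V ⊔ Subgroup.zpowers u) := by
  obtain ⟨d, hd, -, hH⟩ := K.exists_H_eq hV u
  obtain ⟨d1, hd1, hn1, hH1⟩ := K.exists_H_eq hV 1
  rw [Subgroup.zpowers_one_eq_bot, sup_bot_eq] at hH1
  intro hdiv
  apply h
  have hcong := (LV.of_isCharacter (M := M) (K.isCharacter_H V)).congr_one K.isPModular
    (fun x => by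
      obtain ⟨i, hi⟩ := K.exists_orderOf x
      exact ⟨i, by rwa [← Subgroup.orderOf_coe]⟩) u
  have h1 : MemLocalIdeal M (K.H V u) := by
    rw [hH]
    exact Block.memLocalIdeal_mul_left (Block.memLocalRing_of_isIntegral hd)
      ((Block.memLocalIdeal_natCast_iff K.isPModular _).2 hdiv)
  have h2 : MemLocalIdeal M (K.H V 1) := by
    simpa using Block.memLocalIdeal_sub h1 hcong
  have hd1' : IsIntegral ℤ (conj d1) := hd1.map ((starRingEnd ℂ).toIntAlgHom)
  have h3 := Block.memLocalIdeal_mul_left (Block.memLocalRing_of_isIntegral (M := M) hd1') h2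
  rw [hH1, ← mul_assoc, mul_comm (conj d1), hn1, one_mul] at h3
  exact (Block.memLocalIdeal_natCast_iff K.isPModular _).1 h3

theorem num_unit_of_cyclic (hcyc : ∀ u : K.P, u ≠ 1 → ¬ p ∣ K.num (Subgroup.zpowers u))
    {V : Subgroup K.P} (hV : V ≠ ⊥) : ¬ p ∣ K.num V := by
  obtain ⟨x₀, hx₀, hx₁⟩ := V.bot_or_exists_ne_one.resolve_left hV
  obtain ⟨U, hU, hmax⟩ := Finset.exists_max_image
    (Finset.univ.filter fun U : Subgroup K.P => U ≠ ⊥ ∧ U ≤ V ∧ ¬ p ∣ K.num U)
    (fun U => Nat.card U)
    ⟨Subgroup.zpowers x₀, Finset.mem_filter.2 ⟨Finset.mem_univ _,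
      fun h => hx₁ (Subgroup.zpowers_eq_bot.1 h), Subgroup.zpowers_le.2 hx₀, hcyc x₀ hx₁⟩⟩
  obtain ⟨-, hU0, hUV, hUu⟩ := Finset.mem_filter.1 hU
  rcases eq_or_lt_of_le hUV with rfl | hlt
  · exact hUu
  exfalso
  obtain ⟨x, hxV, hxU⟩ := SetLike.exists_of_lt hlt
  have h3 := hmax (U ⊔ Subgroup.zpowers x) (Finset.mem_filter.2 ⟨Finset.mem_univ _,
    fun h => hU0 (sup_eq_bot_iff.1 h).1, sup_le hUV (Subgroup.zpowers_le.2 hxV),
    K.num_unit_step hU0 hUu x⟩)
  have h4 : U < U ⊔ Subgroup.zpowers x := lt_of_le_of_ne le_sup_left fun h => hxU (by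
    rw [h]; exact le_sup_right (α := Subgroup K.P) (Subgroup.mem_zpowers x))
  have := card_lt_of_lt h4
  omega

/-- Up to signs the values at the joins with `V` are a rational combination of characters. -/
theorem exists_rat {V : Subgroup K.P} (hV : V ≠ ⊥)
    (hunit : ∀ W : Subgroup K.P, W ≠ ⊥ → ¬ p ∣ K.num W) :
    ∃ z : K.P → ℤ, LV M (fun u => (z u : ℂ)) ∧
      (∀ u (j : ℕ), j.Coprime p → z (u ^ j) = z u) ∧
      ∀ u, z u = K.num (V ⊔ Subgroup.zpowers u) ∨
        z u = -(K.num (V ⊔ Subgroup.zpowers u) : ℤ) := by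
  choose d hdint hd1 hH using fun u => K.exists_H_eq hV u
  obtain ⟨N, hN⟩ := K.exists_card
  set n : K.P → ℕ := fun u => K.num (V ⊔ Subgroup.zpowers u) with hn
  have hne : ∀ u, V ⊔ Subgroup.zpowers u ≠ ⊥ := fun u h => hV (sup_eq_bot_iff.1 h).1
  have hn0 : ∀ u, (n u : ℂ) ≠ 0 := fun u =>
    Nat.cast_ne_zero.2 fun h => hunit _ (hne u) (by show p ∣ n u; rw [h]; exact dvd_zero p)
  have hd0 : ∀ u, d u ≠ 0 := fun u h => by simpa [h] using hd1 u
  have hord : ∀ u : K.P, ∃ i, orderOf u = p ^ i := fun u => by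
    obtain ⟨i, hi⟩ := K.exists_orderOf u
    exact ⟨i, by rwa [← Subgroup.orderOf_coe]⟩
  have hchar := K.isCharacter_H V
  have hchar' := Char.isCharacter_conjFun hchar
  have hLV : LV M (K.H V) := LV.of_isCharacter hchar
  have hu : ∀ u, ¬ MemLocalIdeal M (K.H V u) := by
    intro u h
    have h3 := Block.memLocalIdeal_mul_left
      (Block.memLocalRing_of_isIntegral (M := M) ((hdint u).map (starRingEnd ℂ).toIntAlgHom)) h
    simp only [RingHom.toIntAlgHom_apply] at h3
    rw [hH u, ← mul_assoc, mul_comm (conj (d u)), hd1, one_mul] at h3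
    exact hunit _ (hne u) ((Block.memLocalIdeal_natCast_iff K.isPModular _).1 h3)
  set θf : K.P → ℂ := fun u => conj (K.H V u) / K.H V u with hθ
  have hθ' : ∀ u, θf u = conj (d u) * conj (d u) := by
    intro u
    simp only [hθ, hH u, map_mul, map_natCast]
    rw [div_eq_iff (mul_ne_zero (hd0 u) (hn0 u))]
    linear_combination (-(conj (d u)) * (n u : ℂ)) * hd1 u
  have hθfam : Fam p K.lev θf := by
    have h := ((fam_of_isCharacter K.pow_lev hchar').mul
      (fam_of_isCharacter K.pow_lev hchar')).div_int (fun u => ((n u : ℤ)) ^ 2)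
        (fun u => pow_ne_zero _ (by exact_mod_cast hn0 u)) (fun u j => by
          show ((n _ : ℤ)) ^ 2 = _
          simp only [hn]
          congr 4
          have hco : Nat.Coprime (j : ZMod (p ^ K.lev)).val (p ^ K.lev) :=
            ZMod.val_coe_unit_coprime j
          obtain ⟨l, hl⟩ := exists_pow_eq_self_of_coprime
            (hco.coprime_dvd_right (orderOf_dvd_of_pow_eq_one (K.pow_lev u)))
          exact le_antisymm (Subgroup.zpowers_le.2 (Subgroup.pow_mem _ (Subgroup.mem_zpowers u) _))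
            (Subgroup.zpowers_le.2 ⟨(l : ℤ), by simpa using hl⟩))
    convert h using 1
    funext u
    rw [hθ', hH u, map_mul, map_natCast]
    show conj (d u) * conj (d u) = conj (d u) * (n u : ℂ) * (conj (d u) * (n u : ℂ)) /
      (((n u : ℤ) ^ 2 : ℤ) : ℂ)
    push_cast
    field_simp [hn0 u]
  have hθint : ∀ u, IsIntegral ℤ (θf u) := fun u => by
    rw [hθ']
    exact ((hdint u).map (starRingEnd ℂ).toIntAlgHom).mul
      ((hdint u).map (starRingEnd ℂ).toIntAlgHom)
  have hθnorm : ∀ u, θf u * conj (θf u) = 1 := fun u => by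
    rw [hθ', map_mul, Complex.conj_conj]
    linear_combination (d u * conj (d u) + 1) * hd1 u
  have hθLV : LV M θf := (LV.of_isCharacter hchar').div hLV hu
  have hH1 : conj (K.H V 1) = K.H V 1 := by
    rw [← Char.isCharacter_inv hchar, inv_one]
  have hθ1 : θf 1 = 1 := by
    simp only [hθ, hH1]
    exact div_self fun h => hu 1 (h ▸ Block.memLocalIdeal_zero)
  obtain hν | hν := exists_irr_of_norm_one K.isPModular hN K.card_dvd K.pow_lev hθLV hθfam hθint
    hθnorm
  swap
  · exfalso
    have h1 := CharInd.irr_one_of_comm K.commP hν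
    rw [Pi.neg_apply, hθ1] at h1
    norm_num at h1
  obtain ⟨η, hη⟩ := exists_sqrt K.commP ⟨θf, hν⟩ (fun u hu2 => by
    show θf u = 1
    have hinv : u⁻¹ = u := inv_eq_of_mul_eq_one_right (by rw [← sq, hu2])
    simp only [hθ]
    rw [← Char.isCharacter_inv hchar, hinv]
    exact div_self fun h => hu u (h ▸ Block.memLocalIdeal_zero))
  have hsign : ∀ u, d u * (η : K.P → ℂ) u = 1 ∨ d u * (η : K.P → ℂ) u = -1 := by
    intro u
    refine sq_eq_one_iff.1 ?_
    have h := hη u
    simp only [hθ'] at h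
    linear_combination (d u * d u) * h + (d u * conj (d u) + 1) * hd1 u
  let z : K.P → ℤ := fun u => if d u * (η : K.P → ℂ) u = 1 then (n u : ℤ) else -(n u : ℤ)
  have hz : (fun u => (z u : ℂ)) = K.H V * (η : K.P → ℂ) := by
    funext u
    simp only [Pi.mul_apply, z, hH u]
    split_ifs with h
    · rw [Int.cast_natCast]
      linear_combination -(n u : ℂ) * h
    · rw [Int.cast_neg, Int.cast_natCast]
      linear_combination -(n u : ℂ) * (hsign u).resolve_left h
  refine ⟨z, hz ▸ hLV.mul (LV.of_irr η), pow_invariant K.pow_lev ?_, fun u => ?_⟩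
  · rw [hz]
    exact (fam_of_isCharacter K.pow_lev hchar).mul
      (fam_of_isCharacter K.pow_lev (Char.isCharacter_of_irr η.2))
  · simp only [z]
    split_ifs
    · exact Or.inl rfl
    · exact Or.inr rfl

end FreeData

end Cfsg.Agent.BrauerPairs.FreeAbelian
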