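import Cfsg.Agent.BrauerPairs.FreeAbelian.LocalVirtual

/-!
Rational combinations of the characters of an abelian `p`-group modulo `p`, and modulo four for the
prime two: they are constant up to a linear character with values signs.
-/

set_option maxHeartbeats 400000
set_option linter.unusedSectionVars false
set_option linter.style.haveILetI false

namespace Cfsg.Agent.BrauerPairs.FreeAbelian

open Cfsg
open scoped ComplexConjugate Classical

universe u

variable {p : ℕ} [hp : Fact p.Prime] {M : Ideal AlgInt} [M.IsPrime] [CharP (Block.ResF M) p]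
  {P : Type u} [Group P] [Fintype P]

/-- The modulus telling signs apart. -/
def modulus (p : ℕ) : ℕ := if p = 2 then 4 else p

theorem dvd_modulus : (p : ℤ) ∣ (modulus p : ℤ) := by
  unfold modulus
  split_ifs with h
  · rw [h]; norm_num
  · exact dvd_refl _

theorem not_modulus_dvd_two_mul {a : ℤ} (ha : ¬ (p : ℤ) ∣ a) : ¬ (modulus p : ℤ) ∣ 2 * a := by
  unfold modulus
  split_ifs with h
  · intro h4
    apply ha
    rw [h]
    push_cast at h4 ⊢
    omega
  · intro hd
    rcases (Nat.prime_iff_prime_int.1 hp.out).dvd_or_dvd hd with h2 | h2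
    · exact h ((Nat.prime_dvd_prime_iff_eq hp.out Nat.prime_two).1 (by exact_mod_cast h2))
    · exact ha h2

/-- Numbers differing by a sign and congruent are equal. -/
theorem eq_of_sign_congr {a b : ℤ} (ha : ¬ (p : ℤ) ∣ a) (h : b = a ∨ b = -a)
    (hd : (modulus p : ℤ) ∣ a - b) : b = a := by
  rcases h with h | h
  · exact h
  · exfalso
    apply not_modulus_dvd_two_mul ha
    rw [h] at hd
    simpa [two_mul] using hd

/-- The powers of an irreducible character of an abelian group are irreducible. -/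
theorem irr_pow (hc : ∀ a b : P, a * b = b * a) (j : ℕ) (η : IrrCharacter P) :
    IsIrrCharacter P (fun u => (η : P → ℂ) (u ^ j)) := by
  obtain ⟨lam, hlam⟩ := CharInd.exists_linHom_of_degree_one (Char.isCharacter_of_irr η.2)
    (CharInd.irr_one_of_comm hc η.2)
  let φ : P →* P := { toFun := fun u => u ^ j, map_one' := one_pow j,
                      map_mul' := fun a b => Commute.mul_pow (hc a b) j }
  have h := CharInd.irr_of_linHom (lam.comp φ)
  have e : (fun u => (η : P → ℂ) (u ^ j)) = fun u => ((lam.comp φ) u : ℂ) := by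
    funext u
    exact (hlam (u ^ j)).symm
  rw [e]
  exact h

/-- The sign of a root of unity: itself if it is real. -/
noncomputable def rootSign (ζ : ℂ) : ℤ := if ζ = 1 then 1 else if ζ = -1 then -1 else 0

theorem rootSign_one : rootSign 1 = 1 := if_pos rfl

theorem rootSign_neg_one : rootSign (-1) = -1 := by
  rw [rootSign, if_neg (by norm_num), if_pos rfl]

theorem rootSign_of_ne {ζ : ℂ} (h : ζ ≠ 1) (h' : ζ ≠ -1) : rootSign ζ = 0 := by
  rw [rootSign, if_neg h, if_neg h']

theorem pow_val_mul {R : Type*} [Monoid R] {n : ℕ} [NeZero n] {x : R} (hx : x ^ n = 1)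
    (a b : ZMod n) : x ^ (a * b).val = (x ^ a.val) ^ b.val := by
  rw [ZMod.val_mul, ← pow_eq_pow_mod _ hx, pow_mul]

theorem odd_val {K : ℕ} (hK : K ≠ 0) (j : (ZMod (2 ^ K))ˣ) :
    Odd (j : ZMod (2 ^ K)).val := by
  rw [← Nat.not_even_iff_odd, even_iff_two_dvd]
  intro h
  exact Nat.not_coprime_of_dvd_of_dvd one_lt_two h (dvd_pow_self 2 hK) (ZMod.val_coe_unit_coprime j)

/-- The sum of the odd powers of a root of unity. -/
theorem unit_pow_sum {K : ℕ} (hK : K ≠ 0) {ζ : ℂ} (h : ζ ^ 2 ^ K = 1) :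
    ∑ j : (ZMod (2 ^ K))ˣ, ζ ^ (j : ZMod (2 ^ K)).val =
      (Fintype.card (ZMod (2 ^ K))ˣ : ℂ) * (rootSign ζ : ℂ) := by
  by_cases h1 : ζ = 1
  · simp [h1, rootSign_one]
  by_cases h2 : ζ = -1
  · rw [h2, rootSign_neg_one, Finset.sum_congr rfl fun j _ => (odd_val hK j).neg_one_pow]
    simp
  rw [rootSign_of_ne h1 h2, Int.cast_zero, mul_zero]
  obtain ⟨s, hsK, hs⟩ := (Nat.dvd_prime_pow Nat.prime_two).1 (orderOf_dvd_of_pow_eq_one h)
  have hs2 : 2 ≤ s := by
    by_contra hlt
    have h3 : ζ ^ 2 = 1 := orderOf_dvd_iff_pow_eq_one.1 (hs ▸ by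
      interval_cases s <;> norm_num)
    rcases sq_eq_one_iff.1 h3 with h4 | h4
    · exact h1 h4
    · exact h2 h4
  set t := 2 ^ (s - 1) with ht
  have hts : t + t = 2 ^ s := by
    rw [ht, ← two_mul, ← pow_succ', show s - 1 + 1 = s by omega]
  have hzt : ζ ^ t = -1 := by
    have h3 : (ζ ^ t) ^ 2 = 1 := by
      rw [← pow_mul, mul_two, hts, ← hs, pow_orderOf_eq_one]
    refine (sq_eq_one_iff.1 h3).resolve_left fun h4 => ?_
    have h5 := Nat.le_of_dvd (by positivity) (orderOf_dvd_of_pow_eq_one h4)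
    rw [hs, ← hts] at h5
    have : 0 < t := by positivity
    omega
  have hcop : (1 + t).Coprime (2 ^ K) := by
    refine Nat.Coprime.pow_right K ((Nat.coprime_two_right).2 ?_)
    rw [ht, add_comm]
    exact (Nat.even_pow.2 ⟨even_two, by omega⟩).add_one
  set a := ZMod.unitOfCoprime (1 + t) hcop with ha
  have key : ∑ j : (ZMod (2 ^ K))ˣ, ζ ^ (j : ZMod (2 ^ K)).val =
      -∑ j : (ZMod (2 ^ K))ˣ, ζ ^ (j : ZMod (2 ^ K)).val := by
    conv_lhs => rw [← Equiv.sum_comp (Equiv.mulLeft a)]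
    rw [← Finset.sum_neg_distrib]
    refine Finset.sum_congr rfl fun j _ => ?_
    rw [Equiv.coe_mulLeft, Units.val_mul, pow_val_mul h, ha, ZMod.coe_unitOfCoprime,
      ZMod.val_natCast, ← pow_eq_pow_mod _ h, pow_add, pow_one, hzt, mul_neg_one,
      (odd_val hK j).neg_pow]
  exact CharZero.eq_neg_self_iff.1 key

/-- Rational combinations modulo four. -/
theorem four_sum (hM : IsPModular 2 M) (hc : ∀ a b : P, a * b = b * a) {K : ℕ} (hK0 : K ≠ 0)
    (hK : ∀ u : P, u ^ 2 ^ K = 1) (hPK : Nat.card P ∣ 2 ^ K) {f : P → ℂ} (hf : LV M f)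
    (hpow : ∀ u (j : ℕ), j.Coprime 2 → f (u ^ j) = f u) (u w : P) :
    MemLocalRing M ((f 1 + f u + f w + f (u * w)) / 4) := by
  set U := (ZMod (2 ^ K))ˣ
  let σ : U → IrrCharacter P → IrrCharacter P := fun j η =>
    ⟨_, irr_pow hc (j : ZMod (2 ^ K)).val η⟩
  have hσ1 : ∀ η, σ 1 η = η := fun η => Subtype.ext (funext fun x => by
    haveI : Fact (1 < 2 ^ K) := ⟨Nat.one_lt_two_pow hK0⟩
    show (η : P → ℂ) (x ^ ((1 : U) : ZMod (2 ^ K)).val) = _
    rw [Units.val_one, ZMod.val_one, pow_one])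
  have hσm : ∀ a b η, σ (a * b) η = σ a (σ b η) := fun a b η => Subtype.ext (funext fun x => by
    show (η : P → ℂ) (x ^ ((a * b : U) : ZMod (2 ^ K)).val) =
      (η : P → ℂ) ((x ^ (a : ZMod (2 ^ K)).val) ^ (b : ZMod (2 ^ K)).val)
    rw [Units.val_mul, pow_val_mul (hK x)])
  have hlin : ∀ η : IrrCharacter P, ∀ x (n : ℕ), (η : P → ℂ) (x ^ n) = (η : P → ℂ) x ^ n := by
    intro η x n
    induction n with
    | zero => rw [pow_zero, pow_zero, CharInd.irr_one_of_comm hc η.2]
    | succ n ih =>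
      rw [pow_succ, BlocksChar.linear_mul (Char.isCharacter_of_irr η.2)
        (CharInd.irr_one_of_comm hc η.2), ih, pow_succ]
  have hroot : ∀ η : IrrCharacter P, ∀ x, (η : P → ℂ) x ^ 2 ^ K = 1 := fun η x => by
    rw [← hlin, hK, CharInd.irr_one_of_comm hc η.2]
  let c : IrrCharacter P → ℂ := fun η => classInner f (η : P → ℂ)
  have hcinv : ∀ j η, c (σ j η) = c η := by
    intro j η
    have hco : (Nat.card P).Coprime (j : ZMod (2 ^ K)).val :=
      ((ZMod.val_coe_unit_coprime j).coprime_dvd_right hPK).symm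
    simp only [c, σ, classInner]
    congr 1
    rw [← (powCoprime hco).sum_comp fun x => f x * conj ((η : P → ℂ) x)]
    refine Finset.sum_congr rfl fun x _ => ?_
    rw [powCoprime_apply, hpow x _ ((Nat.coprime_two_right).2 (odd_val hK0 j))]
  have hbij : ∀ j, Function.Bijective (σ j) := fun j =>
    Function.bijective_iff_has_inverse.2 ⟨σ j⁻¹, fun η => by rw [← hσm, inv_mul_cancel, hσ1],
      fun η => by rw [← hσm, mul_inv_cancel, hσ1]⟩
  let D : IrrCharacter P → ℂ := fun η =>
    (η : P → ℂ) 1 + (η : P → ℂ) u + (η : P → ℂ) w + (η : P → ℂ) (u * w)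
  let ε : IrrCharacter P → ℤ := fun η => rootSign ((η : P → ℂ) 1) + rootSign ((η : P → ℂ) u) +
    rootSign ((η : P → ℂ) w) + rootSign ((η : P → ℂ) (u * w))
  have hsum : f 1 + f u + f w + f (u * w) = ∑ η, c η * D η := by
    have e : ∀ x, f x = ∑ η : IrrCharacter P, c η * (η : P → ℂ) x := fun x => by
      conv_lhs => rw [hf.eq_sum]
      simp [Finset.sum_apply, c]
    simp only [D, mul_add, Finset.sum_add_distrib, ← e]
  have hcard : (Fintype.card U : ℂ) ≠ 0 := Nat.cast_ne_zero.2 Fintype.card_ne_zero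
  have hD : ∀ η, ∑ j, D (σ j η) = (Fintype.card U : ℂ) * (ε η : ℂ) := fun η => by
    simp only [D, σ, hlin η, Finset.sum_add_distrib, ε, Int.cast_add, mul_add]
    rw [unit_pow_sum hK0 (hroot η 1), unit_pow_sum hK0 (hroot η u), unit_pow_sum hK0 (hroot η w),
      unit_pow_sum hK0 (hroot η (u * w))]
  have hsum' : ∑ η, c η * D η = ∑ η, c η * (ε η : ℂ) := by
    refine mul_left_cancel₀ hcard ?_
    rw [← nsmul_eq_mul, ← Finset.card_univ, ← Finset.sum_const, Finset.mul_sum,
      Finset.sum_congr rfl fun j _ => ((hbij j).sum_comp fun η => c η * D η).symm, Finset.sum_comm]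
    refine Finset.sum_congr rfl fun η _ => ?_
    simp only [hcinv, ← Finset.mul_sum, hD, Finset.card_univ]
    ring
  have hεinv : ∀ j η, ε (σ j η) = ε η := by
    intro j η
    have h1 : ∀ x, rootSign ((σ j η : P → ℂ) x) = rootSign ((η : P → ℂ) x) := by
      intro x
      refine Int.cast_injective (α := ℂ) (mul_left_cancel₀ hcard ?_)
      rw [← unit_pow_sum hK0 (hroot _ x), ← unit_pow_sum hK0 (hroot η x)]
      refine Fintype.sum_equiv (Equiv.mulLeft j) _ _ fun l => ?_
      show ((η : P → ℂ) (x ^ (j : ZMod (2 ^ K)).val)) ^ (l : ZMod (2 ^ K)).val = _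
      rw [hlin, Equiv.coe_mulLeft, Units.val_mul, pow_val_mul (hroot η x)]
    simp only [ε, h1]
  -- the orbits of the units
  let O : IrrCharacter P → Finset (IrrCharacter P) := fun η => Finset.univ.image fun j => σ j η
  have hO : ∀ η η', η' ∈ O η ↔ O η' = O η := by
    intro η η'
    constructor
    · intro h
      obtain ⟨a, -, rfl⟩ := Finset.mem_image.1 h
      ext θ
      simp only [O, Finset.mem_image, Finset.mem_univ, true_and]
      constructor
      · rintro ⟨b, rfl⟩; exact ⟨b * a, hσm b a η⟩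
      · rintro ⟨b, rfl⟩; exact ⟨b * a⁻¹, by rw [← hσm, inv_mul_cancel_right]⟩
    · intro h
      rw [← h]
      exact Finset.mem_image.2 ⟨1, Finset.mem_univ _, hσ1 η'⟩
  have horb : ∀ η, ∃ i, (O η).card = 2 ^ i := by
    intro η
    have h1 : (Finset.univ : Finset U).card =
        (O η).card * (Finset.univ.filter fun j => σ j η = η).card := by
      rw [Finset.card_eq_sum_card_fiberwise (f := fun j => σ j η) (t := O η)
        (fun j _ => Finset.mem_image.2 ⟨j, Finset.mem_univ _, rfl⟩), Finset.sum_const_nat]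
      intro θ hθ
      obtain ⟨a, -, rfl⟩ := Finset.mem_image.1 hθ
      refine Finset.card_equiv (Equiv.mulLeft a⁻¹) fun j => ?_
      simp only [Finset.mem_filter, Finset.mem_univ, true_and, Equiv.coe_mulLeft, hσm]
      constructor
      · intro h; rw [h, ← hσm, inv_mul_cancel, hσ1]
      · intro h
        have := congrArg (σ a) h
        rwa [← hσm a, mul_inv_cancel, hσ1] at this
    obtain ⟨i, -, hi⟩ := (Nat.dvd_prime_pow Nat.prime_two).1 (show (O η).card ∣ 2 ^ (K - 1) from
      ⟨(Finset.univ.filter fun j => σ j η = η).card, by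
        rw [← h1, Finset.card_univ, ZMod.card_units_eq_totient,
          Nat.totient_prime_pow Nat.prime_two (Nat.pos_of_ne_zero hK0)]
        simp⟩)
    exact ⟨i, hi⟩
  have hmem : ∀ η j, σ j η ∈ O η := fun η j => Finset.mem_image.2 ⟨j, Finset.mem_univ _, rfl⟩
  have hmem1 : ∀ η, η ∈ O η := fun η => by simpa [hσ1] using hmem η 1
  have hdiv : ∀ η, (4 : ℤ) ∣ (O η).card * ε η := by
    intro η
    obtain ⟨i, hi⟩ := horb η
    have hcop3 : (3 : ℕ).Coprime (2 ^ K) := Nat.Coprime.pow_right K (by norm_num)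
    set a : U := ZMod.unitOfCoprime 3 hcop3 with ha
    have hneg : ∀ x, (σ (-1) η : P → ℂ) x * (η : P → ℂ) x = 1 := by
      intro x
      show (η : P → ℂ) (x ^ ((-1 : U) : ZMod (2 ^ K)).val) * _ = 1
      rw [hlin, Units.val_neg, Units.val_one]
      have h2 : ((η : P → ℂ) x ^ (-1 : ZMod (2 ^ K)).val) ^ (-1 : ZMod (2 ^ K)).val =
          (η : P → ℂ) x := by
        rw [← pow_val_mul (hroot η x), neg_one_mul, neg_neg]
        haveI : Fact (1 < 2 ^ K) := ⟨Nat.one_lt_two_pow hK0⟩
        rw [ZMod.val_one, pow_one]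
      have h3 : (-1 : ZMod (2 ^ K)).val = 2 ^ K - 1 := by
        obtain ⟨n, hn⟩ := Nat.exists_eq_succ_of_ne_zero (pow_ne_zero K two_ne_zero : 2 ^ K ≠ 0)
        rw [hn, Nat.succ_sub_one]
        exact ZMod.val_neg_one n
      rw [h3, ← pow_succ, Nat.sub_add_cancel Nat.one_le_two_pow, hroot]
    have hthree : ∀ x, (σ a η : P → ℂ) x = (η : P → ℂ) x ^ 3 := by
      intro x
      show (η : P → ℂ) (x ^ (a : ZMod (2 ^ K)).val) = _
      rw [hlin, ha, ZMod.coe_unitOfCoprime, ZMod.val_natCast, ← pow_eq_pow_mod _ (hroot η x)]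
    have hab : (η : P → ℂ) (u * w) = (η : P → ℂ) u * (η : P → ℂ) w :=
      BlocksChar.linear_mul (Char.isCharacter_of_irr η.2) (CharInd.irr_one_of_comm hc η.2) u w
    have hε : ε η = 1 + rootSign ((η : P → ℂ) u) + rootSign ((η : P → ℂ) w) +
        rootSign ((η : P → ℂ) u * (η : P → ℂ) w) := by
      simp only [ε, hab, CharInd.irr_one_of_comm hc η.2, rootSign_one]
    by_cases h2 : ∀ x, (η : P → ℂ) x ^ 2 = 1
    · refine dvd_mul_of_dvd_right ?_ _
      rw [hε]
      rcases sq_eq_one_iff.1 (h2 u) with hu | hu <;> rcases sq_eq_one_iff.1 (h2 w) with hw | hw <;>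
        simp [hu, hw, rootSign_one, rootSign_neg_one]
    push Not at h2
    obtain ⟨x, hx⟩ := h2
    have hxne : σ (-1) η ≠ η := fun h => hx (by
      have := hneg x
      rwa [h, ← sq] at this)
    by_cases h4 : ∀ x, (η : P → ℂ) x ^ 4 = 1
    · have hi1 : i ≠ 0 := by
        rintro rfl
        obtain ⟨θ, hθ⟩ := Finset.card_eq_one.1 (by simpa using hi)
        have e1 := hmem η (-1)
        have e2 := hmem1 η
        rw [hθ, Finset.mem_singleton] at e1 e2
        exact hxne (e1.trans e2.symm)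
      obtain ⟨d, hd⟩ : (2 : ℤ) ∣ ε η := by
        have hI : (Complex.I : ℂ) ≠ 1 ∧ (Complex.I : ℂ) ≠ -1 ∧ -Complex.I ≠ (1 : ℂ) ∧
            -Complex.I ≠ (-1 : ℂ) := by
          refine ⟨?_, ?_, ?_, ?_⟩ <;> simp [Complex.ext_iff]
        have hsq : ∀ z : ℂ, z ^ 4 = 1 → z = 1 ∨ z = -1 ∨ z = Complex.I ∨ z = -Complex.I := by
          intro z hz
          have hz2 : (z ^ 2) ^ 2 = 1 := by rw [← pow_mul]; exact hz
          rcases sq_eq_one_iff.1 hz2 with h | h
          · rcases sq_eq_one_iff.1 h with h' | h' <;> simp [h']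
          · rw [← Complex.I_sq] at h
            rcases sq_eq_sq_iff_eq_or_eq_neg.1 h with h' | h' <;> simp [h']
        rw [hε]
        rcases hsq _ (h4 u) with hu | hu | hu | hu <;> rcases hsq _ (h4 w) with hw | hw | hw | hw <;>
          simp [hu, hw, rootSign_one, rootSign_neg_one, rootSign_of_ne hI.1 hI.2.1,
            rootSign_of_ne hI.2.2.1 hI.2.2.2, Complex.I_mul_I]
      rw [hi, hd]
      obtain ⟨i', rfl⟩ := Nat.exists_eq_succ_of_ne_zero hi1
      exact ⟨2 ^ i' * d, by rw [Nat.succ_eq_add_one]; push_cast; ring⟩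
    push Not at h4
    obtain ⟨y, hy⟩ := h4
    refine dvd_mul_of_dvd_left ?_ _
    have h3 : 2 < (O η).card := by
      refine Finset.two_lt_card.2 ⟨η, hmem1 η, σ (-1) η, hmem η _, σ a η, hmem η _, fun h => ?_,
        fun h => ?_, fun h => ?_⟩
      · exact hxne h.symm
      · have e := congrArg (fun θ : IrrCharacter P => (θ : P → ℂ) y) h
        simp only [hthree] at e
        have hne : (η : P → ℂ) y ≠ 0 := fun h0 => by
          have := hroot η y
          rw [h0, zero_pow (by positivity)] at this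
          exact zero_ne_one this
        exact hy (by
          have : (η : P → ℂ) y ^ 2 = 1 := mul_left_cancel₀ hne (by rw [mul_one]; linear_combination -e)
          rw [show (4 : ℕ) = 2 * 2 from rfl, pow_mul, this, one_pow])
      · have e := congrArg (fun θ : IrrCharacter P => (θ : P → ℂ) y * (η : P → ℂ) y) h
        simp only [hthree, hneg] at e
        exact hy (by linear_combination -e)
    rw [hi] at h3 ⊢
    have hi2 : 2 ≤ i := by
      by_contra hlt
      interval_cases i <;> simp at h3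
    exact_mod_cast pow_dvd_pow 2 hi2
  rw [hsum, hsum', ← Finset.sum_fiberwise_of_maps_to
    (fun η (_ : η ∈ Finset.univ) => Finset.mem_image.2 ⟨η, Finset.mem_univ η, rfl⟩ :
      ∀ η ∈ Finset.univ, O η ∈ Finset.univ.image O), Finset.sum_div]
  refine (Block.localRing M).sum_mem fun S hS => ?_
  obtain ⟨η, -, rfl⟩ := Finset.mem_image.1 hS
  obtain ⟨d, hd⟩ := hdiv η
  have hfib : (Finset.univ.filter fun η' => O η' = O η) = O η := by
    ext η'
    simp [hO]
  rw [hfib, Finset.sum_congr rfl (g := fun _ => c η * (ε η : ℂ)) fun η' hη' => by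
    obtain ⟨j, -, rfl⟩ := Finset.mem_image.1 hη'
    rw [hcinv, hεinv], Finset.sum_const, nsmul_eq_mul]
  have hd' := congrArg (fun x : ℤ => (x : ℂ)) hd
  simp only [Int.cast_mul, Int.cast_natCast, Int.cast_ofNat] at hd'
  rw [show ((O η).card : ℂ) * (c η * (ε η : ℂ)) / 4 = c η * (d : ℂ) by
    rw [mul_left_comm, hd']; ring]
  exact (Block.localRing M).mul_mem (hf.2 η)
    (intCast_mem (Block.localRing M) d)

/-- A rational combination is constant modulo the modulus, up to a linear sign character. -/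
theorem exists_sign (hM : IsPModular p M) (hc : ∀ a b : P, a * b = b * a) {n : ℕ}
    (hn : Nat.card P = p ^ n) {z : P → ℤ} (hz : LV M (fun u => (z u : ℂ)))
    (hpow : ∀ u (j : ℕ), j.Coprime p → z (u ^ j) = z u) (h1 : ¬ (p : ℤ) ∣ z 1) :
    ∃ ν : IrrCharacter P, ∀ u, ∃ s : ℤ, (s = 1 ∨ s = -1) ∧ (ν : P → ℂ) u = (s : ℂ) ∧
      (modulus p : ℤ) ∣ s * z u - z 1 := by
  have hord : ∀ u : P, ∃ k, orderOf u = p ^ k := fun u => by
    obtain ⟨k, -, hk⟩ := (Nat.dvd_prime_pow hp.out).1 (hn ▸ orderOf_dvd_natCard u)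
    exact ⟨k, hk⟩
  have hcong : ∀ u, (p : ℤ) ∣ z u - z 1 := fun u => by
    rw [← Block.memLocalIdeal_intCast_iff hM, Int.cast_sub]
    exact hz.congr_one hM hord u
  by_cases hp2 : p = 2
  swap
  · have hone : IsIrrCharacter P (fun _ => (1 : ℂ)) := by
      simpa using CharInd.irr_of_linHom (1 : P →* ℂˣ)
    refine ⟨⟨_, hone⟩, fun u => ⟨1, Or.inl rfl, by simp, ?_⟩⟩
    rw [one_mul, modulus, if_neg hp2]
    exact hcong u
  subst hp2
  have hmod : (modulus 2 : ℤ) = 4 := rfl
  have hodd : ∀ u, ¬ (2 : ℤ) ∣ z u := fun u h => h1 (by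
    have := dvd_sub h (hcong u)
    simpa using this)
  let s : P → ℤ := fun u => if (4 : ℤ) ∣ z u - z 1 then 1 else -1
  have hs : ∀ u, (4 : ℤ) ∣ s u * z u - z 1 := fun u => by
    simp only [s]
    split_ifs with h
    · rwa [one_mul]
    · have := hodd u
      have := hodd 1
      omega
  have hmul : ∀ u w, s (u * w) = s u * s w := by
    intro u w
    have h4 := four_sum hM hc (K := n + 1) n.succ_ne_zero
      (fun x => orderOf_dvd_iff_pow_eq_one.1 ((orderOf_dvd_natCard x).trans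
        (hn ▸ pow_dvd_pow 2 n.le_succ))) (hn ▸ pow_dvd_pow 2 n.le_succ) hz
      (fun x j hj => by rw [hpow x j hj]) u w
    have h5 : ((2 ^ 2 : ℕ) : ℤ) ∣ z 1 + z u + z w + z (u * w) :=
      Nil.exists_int_mul_of_memLocalRing hM (by push_cast; norm_num; exact h4)
    push_cast at h5
    norm_num at h5
    have := hodd 1
    have := hodd u
    have := hodd w
    have := hodd (u * w)
    simp only [s]
    split_ifs <;> omega
  have hs1 : s 1 = 1 := by simp [s]
  let lam : P →* ℂˣ := MonoidHom.toHomUnits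
    { toFun := fun u => (s u : ℂ)
      map_one' := by rw [hs1, Int.cast_one]
      map_mul' := fun a b => by rw [hmul, Int.cast_mul] }
  refine ⟨⟨_, CharInd.irr_of_linHom lam⟩, fun u => ⟨s u, ?_, ?_, hmod ▸ hs u⟩⟩
  · simp only [s]; split_ifs <;> simp
  · show ((lam u : ℂˣ) : ℂ) = _
    exact MonoidHom.coe_toHomUnits _ u

/-- The canonical signs of a rational combination give a combination. -/
theorem LV.canonical (hM : IsPModular p M) (hc : ∀ a b : P, a * b = b * a) {n : ℕ}
    (hn : Nat.card P = p ^ n) {z : P → ℤ} (hz : LV M (fun u => (z u : ℂ)))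
    (hpow : ∀ u (j : ℕ), j.Coprime p → z (u ^ j) = z u) (h1 : ¬ (p : ℤ) ∣ z 1) {w : P → ℤ}
    (hw : ∀ u, w u = z u ∨ w u = -z u) (hcong : ∀ u, (modulus p : ℤ) ∣ w u - w 1) :
    LV M (fun u => (w u : ℂ)) := by
  obtain ⟨ν, hν⟩ := exists_sign hM hc hn hz hpow h1
  choose s hs hνs hd using hν
  obtain ⟨σ, hσ, hσ1⟩ : ∃ σ : ℤ, (σ = 1 ∨ σ = -1) ∧ w 1 = σ * z 1 := by
    rcases hw 1 with h | h
    · exact ⟨1, Or.inl rfl, by simp [h]⟩
    · exact ⟨-1, Or.inr rfl, by simp [h]⟩
  have hzu : ∀ u, ¬ (p : ℤ) ∣ z u := fun u h => h1 (by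
    have h2 := dvd_sub (dvd_mul_of_dvd_right h (s u)) (dvd_modulus.trans (hd u))
    rwa [sub_sub_cancel] at h2)
  have heq : ∀ u, w u = σ * (s u * z u) := by
    intro u
    refine eq_of_sign_congr (p := p) ?_ ?_ ?_
    · rcases hσ with h | h <;> rcases hs u with h' | h' <;> simp [h, h', hzu u]
    · rcases hw u with h | h <;> rcases hσ with h' | h' <;> rcases hs u with h'' | h'' <;>
        simp [h, h', h'']
    · have h2 := dvd_sub (dvd_mul_of_dvd_right (hd u) σ) (hcong u)
      rw [hσ1] at h2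
      rwa [show σ * (s u * z u - z 1) - (w u - σ * z 1) = σ * (s u * z u) - w u by ring] at h2
  have e : (fun u => (w u : ℂ)) = ((σ : ℂ) • ((ν : P → ℂ) * fun u => (z u : ℂ))) := by
    funext u
    simp [heq u, hνs u]
  rw [e]
  exact LV.smul (intCast_mem (Block.localRing M) σ) ((LV.of_irr ν).mul hz)

/-- A sign valued rational combination is a character. -/
theorem exists_irr_of_signs (hM : IsPModular p M) (hc : ∀ a b : P, a * b = b * a) {n : ℕ}
    (hn : Nat.card P = p ^ n) {s : P → ℤ} (hs : ∀ u, s u = 1 ∨ s u = -1)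
    (hLV : LV M (fun u => (s u : ℂ))) (hpow : ∀ u (j : ℕ), j.Coprime p → s (u ^ j) = s u)
    (h1 : s 1 = 1) : ∃ ν : IrrCharacter P, ∀ u, (ν : P → ℂ) u = (s u : ℂ) := by
  have hu1 : ¬ (p : ℤ) ∣ s 1 := by
    rw [h1]
    exact fun h => hp.out.one_lt.ne' (Nat.dvd_one.1 (Int.natCast_dvd.1 h))
  obtain ⟨ν, hν⟩ := exists_sign hM hc hn hLV hpow hu1
  refine ⟨ν, fun u => ?_⟩
  obtain ⟨t, ht, hνt, hd⟩ := hν u
  rw [hνt]
  congr 1
  refine (eq_of_sign_congr (p := p) ?_ ?_ ?_).symm
  · intro h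
    have h2 : (p : ℤ) ∣ 1 := by rcases ht with h' | h' <;> simpa [h'] using h
    exact hp.out.one_lt.ne' (Nat.dvd_one.1 (Int.natCast_dvd.1 h2))
  · rcases hs u with h | h <;> rcases ht with h' | h' <;> simp [h, h']
  · rcases hs u with h | h <;> rcases ht with h' | h' <;> rw [h1, h, h'] at hd <;> rw [h, h'] <;>
      simpa using hd

end Cfsg.Agent.BrauerPairs.FreeAbelian
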